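import Mathlib
import Cfsg.Agent.Fus.Group
import Cfsg.Agent.Fus.EssBasic
import Cfsg.Agent.Fus.ToTop

/-!
# Fusion systems on a Sylow `p`-subgroup of `U₄(q)`: definitions

`K` is a finite field with a non-trivial involution `star` (so `|K| = q²`), `Hm K` the hermitian matrices
`[[a, b], [b⋆, c]]`, `uu x` acts as `v ↦ m v m⋆` with `m = [[1, x], [0, 1]]`, `UG K = Hm K ⋊ K` (order `q⁶`).
-/

set_option autoImplicit false
set_option linter.unusedSectionVars false

namespace Cfsg.Agent.U4F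

open Cfsg Cfsg.FusionSystem Cfsg.Agent.Fus Subgroup

/-- A finite field with a non-trivial involution. -/
class UF (K : Type*) [Field K] [StarRing K] : Prop where
  fin : Finite K
  nt : ∃ x : K, star x ≠ x

instance (K : Type*) [Field K] [StarRing K] [h : UF K] : Finite K := h.fin

/-- The order of the fixed field. -/
noncomputable def qq (K : Type*) [Field K] [StarRing K] : ℕ := Nat.card {a : K // star a = a}

/-- Additive automorphisms. -/
abbrev GA (M : Type*) [AddCommGroup M] := M ≃ₗ[ℤ] M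

instance (M : Type*) [AddCommGroup M] [Finite M] : Finite (GA M) :=
  Finite.of_injective (fun g : GA M => (g : M → M)) DFunLike.coe_injective

/-- An additive bijection given by formulas. -/
def mkA {M : Type*} [AddCommGroup M] (f g : M → M) (hf : ∀ v w, f (v + w) = f v + f w)
    (h1 : ∀ v, g (f v) = v) (h2 : ∀ v, f (g v) = v) : GA M :=
  { (AddMonoidHom.mk' f hf).toIntLinearMap with invFun := g, left_inv := h1, right_inv := h2 }

@[simp] theorem mkA_apply {M : Type*} [AddCommGroup M] (f g : M → M) (hf h1 h2) (v : M) :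
    mkA f g hf h1 h2 v = f v := rfl

theorem ga_mul {M : Type*} [AddCommGroup M] (g h : GA M) (v : M) : (g * h) v = g (h v) := rfl
theorem ga_one {M : Type*} [AddCommGroup M] (v : M) : (1 : GA M) v = v := rfl
theorem ga_inv_apply {M : Type*} [AddCommGroup M] (g : GA M) (v : M) : g⁻¹ (g v) = v :=
  g.symm_apply_apply v
theorem ga_apply_inv {M : Type*} [AddCommGroup M] (g : GA M) (v : M) : g (g⁻¹ v) = v :=
  g.apply_symm_apply v

/-! ### Abstract notions -/

section Abs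
variable {G : Type*} [Group G]

/-- `P` is a Sylow `p`-subgroup of `X` (`P` will be a `p`-group). -/
structure Syl (p : ℕ) (P X : Subgroup G) : Prop where
  le : P ≤ X
  idx : ¬ p ∣ P.relIndex X

/-- `P` is a TI-subgroup of `X`. -/
def TI (P X : Subgroup G) : Prop :=
  ∀ g ∈ X, ∀ s ∈ P, s ≠ 1 → g * s * g⁻¹ ∈ P → g ∈ normalizer (P : Set G)

/-- `P` is transitive on its other conjugates in `X`. -/
def Two (P X : Subgroup G) (g₀ : G) : Prop :=
  ∀ g ∈ X, g ∈ normalizer (P : Set G) ∨ ∃ s ∈ P, (s * g₀)⁻¹ * g ∈ normalizer (P : Set G)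

variable {M : Type*} [AddCommGroup M]

/-- Fixed vectors. -/
def fixA (R : Subgroup (GA M)) : AddSubgroup M where
  carrier := {v | ∀ r ∈ R, r v = v}
  zero_mem' r _ := map_zero r
  add_mem' ha hb r hr := by rw [map_add, ha r hr, hb r hr]
  neg_mem' ha r hr := by rw [map_neg, ha r hr]

theorem mem_fixA {R : Subgroup (GA M)} {v : M} : v ∈ fixA R ↔ ∀ r ∈ R, r v = v := Iff.rfl

/-- The commutator `[U, R]`. -/
def comA (U : AddSubgroup M) (R : Subgroup (GA M)) : AddSubgroup M :=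
  AddSubgroup.closure {w | ∃ r ∈ R, ∃ v ∈ U, w = r v - v}

/-- The properties of `P` on the orthogonal module used in the count. -/
structure Good (q : ℕ) (R : Subgroup (GA M)) : Prop where
  cM : Nat.card M = q ^ 4
  cR : Nat.card R = q ^ 2
  cZ : Nat.card (fixA R) = q
  cH : Nat.card (comA ⊤ R) = q ^ 3
  HZ : comA (comA ⊤ R) R ≤ fixA R
  ZH : fixA R ≤ comA ⊤ R
  fx : ∀ v ∈ comA ⊤ R, ∃ r ∈ R, r ≠ 1 ∧ r v = v
  dual : ∀ Y : AddSubgroup M, fixA R ≤ Y → (Y.relIndex (comA ⊤ R)).Prime →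
    ∃ r ∈ R, r ≠ 1 ∧ ∀ v, r v - v ∈ Y
  big : ∀ U : AddSubgroup M, comA ⊤ R ≤ U → ¬ U ≤ comA ⊤ R → comA ⊤ R ≤ comA U R

/-- `R` is an `X`-conjugate of `P`. -/
def Cj (X P R : Subgroup G) : Prop := ∃ g ∈ X, R = P.map (MulAut.conj g).toMonoidHom

/-- The hypotheses of the count. -/
structure CH (p q : ℕ) (P X : Subgroup (GA M)) : Prop where
  syl : Syl p P X
  ti : TI P X
  good : Good q P
  exp : ∀ v : M, p • v = 0
  qp : ∃ n, q = p ^ (n + 1)

end Abs

variable {K : Type*} [Field K] [StarRing K]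

/-! ### The orthogonal module -/

@[ext] structure Hm (K : Type*) [Field K] [StarRing K] where
  a : K
  b : K
  c : K
  ha : star a = a
  hc : star c = c

attribute [simp] Hm.ha Hm.hc

instance : Add (Hm K) := ⟨fun v w => ⟨v.a + w.a, v.b + w.b, v.c + w.c, by simp, by simp⟩⟩
instance : Zero (Hm K) := ⟨⟨0, 0, 0, by simp, by simp⟩⟩
instance : Neg (Hm K) := ⟨fun v => ⟨-v.a, -v.b, -v.c, by simp, by simp⟩⟩

@[simp] theorem add_a (v w : Hm K) : (v + w).a = v.a + w.a := rfl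
@[simp] theorem add_b (v w : Hm K) : (v + w).b = v.b + w.b := rfl
@[simp] theorem add_c (v w : Hm K) : (v + w).c = v.c + w.c := rfl
@[simp] theorem zero_a : (0 : Hm K).a = 0 := rfl
@[simp] theorem zero_b : (0 : Hm K).b = 0 := rfl
@[simp] theorem zero_c : (0 : Hm K).c = 0 := rfl
@[simp] theorem neg_a (v : Hm K) : (-v).a = -v.a := rfl
@[simp] theorem neg_b (v : Hm K) : (-v).b = -v.b := rfl
@[simp] theorem neg_c (v : Hm K) : (-v).c = -v.c := rfl

instance : AddGroup (Hm K) := AddGroup.ofLeftAxioms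
  (fun _ _ _ => by ext <;> simp [add_assoc]) (fun _ => by ext <;> simp) (fun _ => by ext <;> simp)

instance : AddCommGroup (Hm K) :=
  { (inferInstance : AddGroup (Hm K)) with add_comm := fun _ _ => by ext <;> simp [add_comm] }

@[simp] theorem sub_a (v w : Hm K) : (v - w).a = v.a - w.a := by simp [sub_eq_add_neg]
@[simp] theorem sub_b (v w : Hm K) : (v - w).b = v.b - w.b := by simp [sub_eq_add_neg]
@[simp] theorem sub_c (v w : Hm K) : (v - w).c = v.c - w.c := by simp [sub_eq_add_neg]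

instance [Finite K] : Finite (Hm K) :=
  Finite.of_injective (fun v : Hm K => (v.a, v.b, v.c)) fun _ _ h => by
    simp only [Prod.mk.injEq] at h; exact Hm.ext h.1 h.2.1 h.2.2

def uf (x : K) (v : Hm K) : Hm K :=
  ⟨v.a + (v.b * star x + star v.b * x) + x * star x * v.c, v.b + x * v.c, v.c,
    by simp; ring, v.hc⟩

def lf (y : K) (v : Hm K) : Hm K :=
  ⟨v.a, v.b + y * v.a, v.c + (v.b * star y + star v.b * y) + y * star y * v.a, v.ha,
    by simp; ring⟩

theorem uf_uf (x y : K) (v : Hm K) : uf x (uf y v) = uf (x + y) v := by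
  ext <;> simp [uf] <;> ring

theorem lf_lf (x y : K) (v : Hm K) : lf x (lf y v) = lf (x + y) v := by
  ext <;> simp [lf] <;> ring

theorem uf_zero (v : Hm K) : uf 0 v = v := by ext <;> simp [uf]
theorem lf_zero (v : Hm K) : lf 0 v = v := by ext <;> simp [lf]

/-- Upper unipotent elements. -/
def uu (x : K) : GA (Hm K) :=
  mkA (uf x) (uf (-x)) (fun v w => by ext <;> simp [uf] <;> ring)
    (fun v => by rw [uf_uf, neg_add_cancel, uf_zero]) (fun v => by rw [uf_uf, add_neg_cancel, uf_zero])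

/-- Lower unipotent elements. -/
def ll (y : K) : GA (Hm K) :=
  mkA (lf y) (lf (-y)) (fun v w => by ext <;> simp [lf] <;> ring)
    (fun v => by rw [lf_lf, neg_add_cancel, lf_zero]) (fun v => by rw [lf_lf, add_neg_cancel, lf_zero])

@[simp] theorem uu_a (x : K) (v : Hm K) :
    (uu x v).a = v.a + (v.b * star x + star v.b * x) + x * star x * v.c := rfl
@[simp] theorem uu_b (x : K) (v : Hm K) : (uu x v).b = v.b + x * v.c := rfl
@[simp] theorem uu_c (x : K) (v : Hm K) : (uu x v).c = v.c := rfl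
@[simp] theorem ll_a (y : K) (v : Hm K) : (ll y v).a = v.a := rfl
@[simp] theorem ll_b (y : K) (v : Hm K) : (ll y v).b = v.b + y * v.a := rfl
@[simp] theorem ll_c (y : K) (v : Hm K) :
    (ll y v).c = v.c + (v.b * star y + star v.b * y) + y * star y * v.a := rfl

theorem uu_mul (x y : K) : uu x * uu y = uu (x + y) := LinearEquiv.ext fun v => uf_uf x y v
theorem ll_mul (x y : K) : ll x * ll y = ll (x + y) := LinearEquiv.ext fun v => lf_lf x y v
theorem uu_zero : uu (0 : K) = 1 := LinearEquiv.ext uf_zero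
theorem ll_zero : ll (0 : K) = 1 := LinearEquiv.ext lf_zero
theorem uu_inv (x : K) : (uu x)⁻¹ = uu (-x) := LinearEquiv.ext fun _ => rfl
theorem ll_inv (x : K) : (ll x)⁻¹ = ll (-x) := LinearEquiv.ext fun _ => rfl

/-- `S / V` acting on `V`. -/
def PP (K : Type*) [Field K] [StarRing K] : Subgroup (GA (Hm K)) where
  carrier := {g | ∃ x, g = uu x}
  one_mem' := ⟨0, uu_zero.symm⟩
  mul_mem' := by rintro _ _ ⟨x, rfl⟩ ⟨y, rfl⟩; exact ⟨_, uu_mul ..⟩
  inv_mem' := by rintro _ ⟨x, rfl⟩; exact ⟨_, uu_inv ..⟩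

theorem mem_PP {g : GA (Hm K)} : g ∈ PP K ↔ ∃ x, g = uu x := Iff.rfl

/-- The Weyl element `[[0, 1], [-1, 0]]` on `V`: `(a, b, c) ↦ (c, -b⋆, a)`. -/
def wv (K : Type*) [Field K] [StarRing K] : GA (Hm K) := uu 1 * ll (-1) * uu 1

/-- An element of `X` outside `N(P)` moves the non-zero vectors of `Z` out of `H`. -/
def Tan (X : Subgroup (GA (Hm K))) : Prop :=
  ∀ g ∈ X, g ∉ normalizer (PP K : Set (GA (Hm K))) →
    ∀ v : Hm K, v.b = 0 → v.c = 0 → (g v).c = 0 → v = 0

/-! ### The group `S` -/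

@[ext] structure UG (K : Type*) [Field K] [StarRing K] where
  v : Hm K
  x : K

instance : Mul (UG K) := ⟨fun g h => ⟨g.v + uu g.x h.v, g.x + h.x⟩⟩
instance : One (UG K) := ⟨⟨0, 0⟩⟩
instance : Inv (UG K) := ⟨fun g => ⟨-uu (-g.x) g.v, -g.x⟩⟩

@[simp] theorem mul_v (g h : UG K) : (g * h).v = g.v + uu g.x h.v := rfl
@[simp] theorem mul_x (g h : UG K) : (g * h).x = g.x + h.x := rfl
@[simp] theorem one_v : (1 : UG K).v = 0 := rfl
@[simp] theorem one_x : (1 : UG K).x = 0 := rfl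
@[simp] theorem inv_v (g : UG K) : g⁻¹.v = -uu (-g.x) g.v := rfl
@[simp] theorem inv_x (g : UG K) : g⁻¹.x = -g.x := rfl

/-- Extensionality in the four coordinates. -/
theorem UG.ext4 {g h : UG K} (ha : g.v.a = h.v.a) (hb : g.v.b = h.v.b) (hc : g.v.c = h.v.c)
    (hx : g.x = h.x) : g = h := UG.ext (Hm.ext ha hb hc) hx

instance : Group (UG K) := Group.ofLeftAxioms
  (fun _ _ _ => by apply UG.ext4 <;> simp <;> ring)
  (fun _ => by apply UG.ext4 <;> simp) (fun _ => by apply UG.ext4 <;> simp)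

instance [Finite K] : Finite (UG K) :=
  Finite.of_injective (fun g : UG K => (g.v, g.x)) fun _ _ h =>
    UG.ext (congrArg Prod.fst h) (congrArg Prod.snd h)

def jv (v : Hm K) : UG K := ⟨v, 0⟩
def sx (x : K) : UG K := ⟨0, x⟩

@[simp] theorem jv_v (v : Hm K) : (jv v).v = v := rfl
@[simp] theorem jv_x (v : Hm K) : (jv v).x = 0 := rfl
@[simp] theorem sx_v (x : K) : (sx x).v = 0 := rfl
@[simp] theorem sx_x (x : K) : (sx x).x = x := rfl

variable (K) in
/-- `V = J(S)`, order `q⁴`. -/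
def Vs : Subgroup (UG K) where
  carrier := {g | g.x = 0}
  one_mem' := rfl
  mul_mem' := fun {a b} ha hb => by simp_all
  inv_mem' := fun {a} ha => by simp_all

variable (K) in
/-- `Q = q^{1+4}`. -/
def Qs : Subgroup (UG K) where
  carrier := {g | g.v.c = 0}
  one_mem' := rfl
  mul_mem' := fun {a b} ha hb => by simp_all
  inv_mem' := fun {a} ha => by simp_all

variable (K) in
/-- `H = V ⊓ Q = S' = Z₂(S)`, order `q³`. -/
def Hs : Subgroup (UG K) := Vs K ⊓ Qs K

variable (K) in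
/-- `Z = Z(S)`, order `q`. -/
def Zs : Subgroup (UG K) where
  carrier := {g | g.x = 0 ∧ g.v.c = 0 ∧ g.v.b = 0}
  one_mem' := ⟨rfl, rfl, rfl⟩
  mul_mem' := fun {a b} ha hb => by simp_all
  inv_mem' := fun {a} ha => by simp_all

/-- `V` extended by the line through `x₀`. -/
def Ex (x₀ : K) : Subgroup (UG K) where
  carrier := {g | ∃ t, star t = t ∧ g.x = t * x₀}
  one_mem' := ⟨0, by simp, by simp⟩
  mul_mem' := by
    rintro a b ⟨s, hs, e⟩ ⟨t, ht, e'⟩
    exact ⟨s + t, by simp [hs, ht], by simp [e, e', add_mul]⟩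
  inv_mem' := by
    rintro a ⟨s, hs, e⟩
    exact ⟨-s, by simp [hs], by simp [e]⟩

theorem mem_Vs {g : UG K} : g ∈ Vs K ↔ g.x = 0 := Iff.rfl
theorem mem_Qs {g : UG K} : g ∈ Qs K ↔ g.v.c = 0 := Iff.rfl
theorem mem_Hs {g : UG K} : g ∈ Hs K ↔ g.x = 0 ∧ g.v.c = 0 := Iff.rfl
theorem mem_Zs {g : UG K} : g ∈ Zs K ↔ g.x = 0 ∧ g.v.c = 0 ∧ g.v.b = 0 := Iff.rfl
theorem mem_Ex {x₀ : K} {g : UG K} : g ∈ Ex x₀ ↔ ∃ t, star t = t ∧ g.x = t * x₀ := Iff.rfl

/-- `α` is the diagonal-field automorphism with parameters `l`, `m`, `s`. -/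
structure IsD (l m : K) (s : K ≃+* K) (α : UG K → UG K) : Prop where
  hl : l ≠ 0
  hm : m ≠ 0
  sm : star m = m
  x : ∀ g, (α g).x = l * s g.x
  c : ∀ g, (α g).v.c = m * s g.v.c
  b : ∀ g, (α g).v.b = l * m * s g.v.b
  a : ∀ g, (α g).v.a = l * star l * m * s g.v.a

variable (K) in
/-- The diagonal-field automorphisms of `S`. -/
def Dg : Subgroup (MulAut (UG K)) := closure {α | ∃ l m s, IsD l m s α}

variable (K) in
/-- The automorphisms of `S` which are trivial on `S / H` (a normal `p`-subgroup of `Aut S`). -/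
def Kg : Subgroup (MulAut (UG K)) where
  carrier := {α | ∀ g, (α g).x = g.x ∧ (α g).v.c = g.v.c}
  one_mem' _ := ⟨rfl, rfl⟩
  mul_mem' {a b} ha hb g := ⟨(ha _).1.trans (hb g).1, (ha _).2.trans (hb g).2⟩
  inv_mem' {a} ha g := by
    have := ha (a⁻¹ g)
    rw [MulAut.apply_inv_self] at this
    exact ⟨this.1.symm, this.2.symm⟩

theorem mem_Kg {α : MulAut (UG K)} : α ∈ Kg K ↔ ∀ g, (α g).x = g.x ∧ (α g).v.c = g.v.c := Iff.rfl

/-! ### The module `Q / Z` with coordinates `(x, b)` -/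

/-- The commutator form: `⁅g, h⁆.v.a = BB (g.x, g.v.b) (h.x, h.v.b)` on `Q`. -/
def BB (v w : K × K) : K := w.2 * star v.1 + star w.2 * v.1 - (v.2 * star w.1 + star v.2 * w.1)

/-- The squaring form in characteristic two. -/
def QF (v : K × K) : K := v.2 * star v.1 + star v.2 * v.1

def rr (c : K) : GA (K × K) :=
  mkA (fun v => (v.1, v.2 + c * v.1)) (fun v => (v.1, v.2 - c * v.1))
    (fun v w => by ext <;> simp; ring) (fun v => by simp) (fun v => by simp)

def rl (c : K) : GA (K × K) :=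
  mkA (fun v => (v.1 + c * v.2, v.2)) (fun v => (v.1 - c * v.2, v.2))
    (fun v w => by ext <;> simp; ring) (fun v => by simp) (fun v => by simp)

@[simp] theorem rr_apply (c : K) (v : K × K) : rr c v = (v.1, v.2 + c * v.1) := rfl
@[simp] theorem rl_apply (c : K) (v : K × K) : rl c v = (v.1 + c * v.2, v.2) := rfl

theorem rr_mul (c d : K) : rr c * rr d = rr (c + d) :=
  LinearEquiv.ext fun v => by rw [ga_mul]; ext <;> simp; ring
theorem rr_zero : rr (0 : K) = 1 := LinearEquiv.ext fun v => by simp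
theorem rr_inv (c : K) : (rr c)⁻¹ = rr (-c) :=
  inv_eq_of_mul_eq_one_right (by rw [rr_mul, add_neg_cancel, rr_zero])

variable (K) in
/-- `S / Q` acting on `Q / Z`. -/
def RR : Subgroup (GA (K × K)) where
  carrier := {g | ∃ c, star c = c ∧ g = rr c}
  one_mem' := ⟨0, by simp, rr_zero.symm⟩
  mul_mem' := by
    rintro _ _ ⟨x, hx, rfl⟩ ⟨y, hy, rfl⟩; exact ⟨_, by simp [hx, hy], rr_mul ..⟩
  inv_mem' := by rintro _ ⟨x, hx, rfl⟩; exact ⟨_, by simp [hx], rr_inv ..⟩

theorem mem_RR {g : GA (K × K)} : g ∈ RR K ↔ ∃ c, star c = c ∧ g = rr c := Iff.rfl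

/-- `Y` preserves the forms on `Q / Z`. -/
structure Sp (Y : Subgroup (GA (K × K))) : Prop where
  bb : ∀ g ∈ Y, ∀ v w, BB (g v) (g w) = BB v w
  qf : (2 : K) = 0 → ∀ g ∈ Y, ∀ v, QF (g v) = QF v

/-- The hypotheses on `Q / Z`. -/
structure YH (p : ℕ) (Y : Subgroup (GA (K × K))) : Prop where
  sp : Sp Y
  syl : Syl p (RR K) Y
  ti : TI (RR K) Y

/-- An element of `Y` outside `N(R)` moves the non-zero vectors of `W = 0 × K` out of `W`. -/
def Dis (Y : Subgroup (GA (K × K))) : Prop :=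
  ∀ g ∈ Y, g ∉ normalizer (RR K : Set (GA (K × K))) → ∀ b, (g (0, b)).1 = 0 → b = 0

/-- `(x, b) ↦ (x, b + α x + β x⋆)`. -/
def ug (α β : K) : GA (K × K) :=
  mkA (fun v => (v.1, v.2 + (α * v.1 + β * star v.1))) (fun v => (v.1, v.2 - (α * v.1 + β * star v.1)))
    (fun v w => by ext <;> simp; ring) (fun v => by simp) (fun v => by simp)

@[simp] theorem ug_apply (α β : K) (v : K × K) :
    ug α β v = (v.1, v.2 + (α * v.1 + β * star v.1)) := rfl

theorem ug_inv_apply (α β : K) (v : K × K) :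
    (ug α β)⁻¹ v = (v.1, v.2 - (α * v.1 + β * star v.1)) := rfl

/-- `g R g⁻¹` is the conjugate of the opposite root group by `ug α β`. -/
def Opp (g : GA (K × K)) (α β : K) : Prop :=
  star α = α ∧ ∀ s, (∃ r ∈ RR K, s = g * r * g⁻¹) ↔
    ∃ t, star t = t ∧ s = ug α β * rl t * (ug α β)⁻¹

/-- The Weyl element of the long simple root on `Q`. -/
def wq (g : UG K) : UG K :=
  ⟨⟨g.v.a - (g.v.b * star g.x + star g.v.b * g.x), -g.x, 0, by simp; ring, by simp⟩, g.v.b⟩

/-- The image of `wq` on `Q / Z`: `(x, b) ↦ (b, -x)`. -/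
def wr (K : Type*) [Field K] [StarRing K] : GA (K × K) := rl 1 * rr (-1) * rl 1

/-! ### Fusion systems on `S` -/

abbrev FS (K : Type*) [Field K] [StarRing K] := FusionSystem (⊤ : Subgroup (UG K))

/-- `Aut_F(S)`. -/
def AF (F : FS K) : Subgroup (MulAut (UG K)) where
  carrier := {α | F.Mor ⊤ α}
  one_mem' := F.mor_id le_rfl
  mul_mem' ha hb := Mor.comp ha hb fun _ _ => mem_top _
  inv_mem' {a} ha := ((Iso.mk ha (fun _ _ => mem_top _) fun y _ =>
    ⟨a⁻¹ y, mem_top _, MulAut.apply_inv_self _ a y⟩).of_leftInv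
      fun x _ => MulAut.inv_apply_self _ a x).mor

theorem mem_AF {F : FS K} {α : MulAut (UG K)} : α ∈ AF F ↔ F.Mor ⊤ α := Iff.rfl

/-- `Aut_F(V)` as a group of additive maps. -/
def XF (F : FS K) : Subgroup (GA (Hm K)) where
  carrier := {M | F.Mor (Vs K) fun g => jv (M g.v)}
  one_mem' := (F.mor_id (P := Vs K) le_top).congr (g := fun g => jv ((1 : GA (Hm K)) g.v))
    fun g hg => UG.ext rfl hg
  mul_mem' {a b} ha hb := by
    have ha : F.Mor (Vs K) fun g => jv (a g.v) := ha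
    have hb : F.Mor (Vs K) fun g => jv (b g.v) := hb
    exact Mor.comp ha hb fun _ _ => rfl
  inv_mem' {a} ha := by
    have ha : F.Mor (Vs K) fun g => jv (a g.v) := ha
    have hi : F.Iso (Vs K) (Vs K) fun g => jv (a g.v) := ⟨ha, fun _ _ => rfl, fun y hy =>
      ⟨jv (a⁻¹ y.v), rfl, UG.ext (ga_apply_inv a y.v) (mem_Vs.1 hy).symm⟩⟩
    exact (hi.of_leftInv (g := fun g => jv (a⁻¹ g.v))
      fun x hx => UG.ext (ga_inv_apply a x.v) (mem_Vs.1 hx).symm).mor

theorem mem_XF {F : FS K} {M : GA (Hm K)} : M ∈ XF F ↔ F.Mor (Vs K) fun g => jv (M g.v) := Iff.rfl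

/-- `f` is an `F`-automorphism of `Q` centralizing `Z` and inducing `M` on `Q / Z`. -/
structure QInd (F : FS K) (f : UG K → UG K) (M : GA (K × K)) : Prop where
  iso : F.Iso (Qs K) (Qs K) f
  fix : ∀ z ∈ Zs K, f z = z
  ind : ∀ g ∈ Qs K, ((f g).x, (f g).v.b) = M (g.x, g.v.b)

/-- The image of `C_{Aut_F(Q)}(Z)` on `Q / Z`. -/
def YF (F : FS K) : Subgroup (GA (K × K)) := closure {M | ∃ f, QInd F f M}

/-- `Aut_F(S) = Inn(S) (Aut_F(S) ⊓ D)`. -/
def Nm (F : FS K) : Prop := ∀ α ∈ AF F, ∃ s, ∃ δ ∈ AF F ⊓ Dg K, α = MulAut.conj s * δ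

/-- The standard opposite root group acts on `V`. -/
def HasL (F : FS K) : Prop := ∀ y, ll y ∈ XF F

/-- The standard Weyl element acts on `Q`. -/
def HasW (F : FS K) : Prop := F.Mor (Qs K) wq

/-- `A` contains the images of the diagonal matrices of `SU₄(q)`. -/
structure HasT (A : Subgroup (MulAut (UG K))) : Prop where
  t1 : ∀ l : K, l ≠ 0 → ∃ δ ∈ A, IsD (l * l) (l * star l)⁻¹ (RingEquiv.refl K) δ
  t2 : ∀ m : K, m ≠ 0 → star m = m → ∃ δ ∈ A, IsD m⁻¹ (m * m) (RingEquiv.refl K) δ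

/-- Realizability. -/
def Rz (p : ℕ) (F : FS K) : Prop := ∃ (G : Type) (_ : Group G) (_ : Finite G) (j : UG K →* G),
  F.Realizes j ⊤ ∧ ¬ p ∣ j.range.index

/-- `F'` is `F` transported by the automorphism `κ`. -/
abbrev Tw (F F' : FS K) (κ : MulAut (UG K)) : Prop := F.IsIsoVia F' κ (κ⁻¹ : MulAut (UG K))

end Cfsg.Agent.U4F
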