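import Mathlib
import Cfsg.Agent.U4F.Defs
import Cfsg.Agent.Cl.UField

/-!
# The field `K` and its fixed field
-/

set_option autoImplicit false
set_option linter.unusedSectionVars false
set_option linter.unusedVariables false

namespace Cfsg.Agent.U4F

open Cfsg Cfsg.FusionSystem Cfsg.Agent.Fus Subgroup

variable {K : Type*} [Field K] [StarRing K] [UF K] {p : ℕ} [Fact p.Prime] [CharP K p]

variable (K) in
theorem fld_invol : Cl.UInvol (starRingEnd K) := ⟨fun x => star_star x, UF.nt⟩

variable (K) in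
theorem fld_uField : Cl.UField (starRingEnd K) (qq K) := by
  obtain ⟨q, h⟩ := (fld_invol K).exists_uField
  have : qq K = q := h.card_fixed
  rwa [this]

variable (K p) in
theorem qq_pow : ∃ n, qq K = p ^ (n + 1) := by
  obtain ⟨r, k, hr, hc, hk, e⟩ := (fld_uField K).exists_prime_pow
  have hp : r = p := CharP.eq K hc ‹CharP K p›
  exact ⟨k - 1, by rw [e, hp, Nat.sub_add_cancel hk]⟩

variable (K) in
theorem card_K : Nat.card K = qq K ^ 2 := (fld_uField K).card

variable (K) in
theorem two_le_qq : 2 ≤ qq K := (fld_uField K).two_le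

theorem star_eq_pow (x : K) : star x = x ^ qq K := (fld_uField K).pow x

theorem ringEquiv_star (s : K ≃+* K) (x : K) : s (star x) = star (s x) := by
  rw [star_eq_pow, star_eq_pow, map_pow]

theorem tr_surj {x₀ : K} (h : x₀ ≠ 0) {t : K} (ht : star t = t) :
    ∃ b, b * star x₀ + star b * x₀ = t := by
  obtain ⟨b, hb⟩ := (fld_invol K).exists_trace_eq (a := t) ht
  have hs : star x₀ ≠ 0 := star_ne_zero.2 h
  refine ⟨b / star x₀, ?_⟩
  rw [star_div₀, star_star, div_mul_cancel₀ _ hs, div_mul_cancel₀ _ h]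
  exact hb

theorem tr_nondeg {b : K} (h : ∀ x, b * star x + star b * x = 0) : b = 0 := by
  by_contra hb
  obtain ⟨x, hx⟩ := tr_surj hb (star_one K)
  have := h x
  exact one_ne_zero (by linear_combination this - hx)

theorem exists_perp (x₀ : K) : ∃ y, y ≠ 0 ∧ y * star x₀ + star y * x₀ = 0 := by
  rcases eq_or_ne x₀ 0 with rfl | h
  · exact ⟨1, one_ne_zero, by simp⟩
  obtain ⟨θ, h0, hθ⟩ := (fld_invol K).exists_trace_zero
  have hθ : star θ = -θ := hθ
  exact ⟨θ * x₀, mul_ne_zero h0 h, by rw [star_mul', hθ]; ring⟩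

theorem perp_line {x₀ y z : K} (hx : x₀ ≠ 0) (hy : y ≠ 0) (h1 : y * star x₀ + star y * x₀ = 0)
    (h2 : z * star x₀ + star z * x₀ = 0) : ∃ t, star t = t ∧ z = t * y := by
  have hs : star y ≠ 0 := star_ne_zero.2 hy
  refine ⟨z / y, ?_, by field_simp⟩
  rw [star_div₀, div_eq_div_iff hs hy]
  exact mul_left_cancel₀ hx (by linear_combination y * h2 - z * h1)

theorem card_line {x₀ : K} (h : x₀ ≠ 0) : Nat.card {x : K // ∃ t, star t = t ∧ x = t * x₀} = qq K := by
  refine (Nat.card_congr (Equiv.ofBijective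
    (fun t : {a : K // star a = a} => (⟨t.1 * x₀, t.1, t.2, rfl⟩ : {x : K // ∃ t, star t = t ∧ x = t * x₀}))
    ⟨fun a b e => Subtype.ext (mul_right_cancel₀ h (congrArg Subtype.val e)), ?_⟩)).symm
  rintro ⟨_, t, ht, rfl⟩
  exact ⟨⟨t, ht⟩, rfl⟩

theorem card_perp {x₀ : K} (h : x₀ ≠ 0) :
    Nat.card {b : K // b * star x₀ + star b * x₀ = 0} = qq K := by
  obtain ⟨y, hy, h1⟩ := exists_perp x₀
  rw [← card_line hy]
  refine Nat.card_congr (Equiv.subtypeEquivRight fun b => ⟨perp_line h hy h1, ?_⟩)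
  rintro ⟨t, ht, rfl⟩
  rw [star_mul', ht]
  linear_combination t * h1

theorem fld_cross {u w : K} (hu : u ≠ 0) (hw : ¬ ∃ t, star t = t ∧ w = t * u) :
    w * star u - star w * u ≠ 0 := fun e => hw ⟨w / u, by
  rw [star_div₀, div_eq_div_iff (star_ne_zero.2 hu) hu]
  linear_combination -e, by field_simp⟩

theorem span_two {u w : K} (hu : u ≠ 0) (hw : ¬ ∃ t, star t = t ∧ w = t * u) (x : K) :
    ∃ s t, star s = s ∧ star t = t ∧ x = s * u + t * w := by
  have h := fld_cross hu hw
  have h' : star w * u - w * star u ≠ 0 := fun e => h (by linear_combination -e)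
  refine ⟨(w * star x - star w * x) / (w * star u - star w * u),
    (x * star u - star x * u) / (w * star u - star w * u), ?_, ?_, ?_⟩
  · rw [star_div₀, div_eq_div_iff (star_ne_zero.2 h) h]
    simp only [star_sub, star_mul', star_star]; ring
  · rw [star_div₀, div_eq_div_iff (star_ne_zero.2 h) h]
    simp only [star_sub, star_mul', star_star]; ring
  · field_simp; ring

theorem eq_zero_of_perp_two {u w b : K} (hu : u ≠ 0) (hw : ¬ ∃ t, star t = t ∧ w = t * u)
    (h1 : b * star u + star b * u = 0) (h2 : b * star w + star b * w = 0) : b = 0 :=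
  (mul_eq_zero.1 (show b * (w * star u - star w * u) = 0 by
    linear_combination w * h1 - u * h2)).resolve_right (fld_cross hu hw)

theorem norm_surj {t : K} (ht : star t = t) : ∃ x, x * star x = t :=
  (fld_invol K).exists_norm_eq (a := t) ht

variable (K) in
theorem exists_norm_one : ∃ l : K, l * star l = 1 ∧ l ≠ 1 := by
  obtain ⟨u, h1, h2⟩ := (fld_invol K).exists_norm_one_ne
  exact ⟨u, h1, fun e => h2 (by rw [e, map_one])⟩

/-- An additive map commuting with the fixed scalars. -/
theorem lin_K {φ : K → K} (ha : ∀ x y, φ (x + y) = φ x + φ y)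
    (hs : ∀ t x, star t = t → φ (t * x) = t * φ x) : ∃ α β, ∀ x, φ x = α * x + β * star x := by
  obtain ⟨θ, hθ⟩ := UF.nt (K := K)
  have hw : ¬ ∃ t, star t = t ∧ θ = t * 1 := fun ⟨t, ht, e⟩ => hθ (by rw [e, mul_one, ht])
  have h : θ - star θ ≠ 0 := sub_ne_zero.2 hθ.symm
  refine ⟨(φ θ - star θ * φ 1) / (θ - star θ), (θ * φ 1 - φ θ) / (θ - star θ), fun x => ?_⟩
  obtain ⟨s, t, hs', ht, rfl⟩ := span_two one_ne_zero hw x
  rw [ha, hs s 1 hs', hs t θ ht, star_add, star_mul', star_mul', hs', ht, star_one]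
  field_simp; ring

/-- A linear functional over the fixed field. -/
theorem lin_F {φ : K → K} (ha : ∀ x y, φ (x + y) = φ x + φ y)
    (hs : ∀ t x, star t = t → φ (t * x) = t * φ x) (hf : ∀ x, star (φ x) = φ x) :
    ∃ e, ∀ x, φ x = e * star x + star e * x := by
  obtain ⟨α, β, h⟩ := lin_K ha hs
  have h1 : ∀ x, (α - star β) * x + (β - star α) * star x = 0 := fun x => by
    have := hf x
    rw [h, star_add, star_mul', star_mul', star_star] at this
    linear_combination -this
  obtain ⟨θ, hθ⟩ := UF.nt (K := K)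
  have h2 := h1 1
  have h3 := h1 θ
  rw [star_one] at h2
  have h4 : α - star β = 0 := (mul_eq_zero.1 (show (α - star β) * (θ - star θ) = 0 by
    linear_combination h3 - star θ * h2)).resolve_right (sub_ne_zero.2 hθ.symm)
  exact ⟨β, fun x => by rw [h, sub_eq_zero.1 h4]; ring⟩

theorem exists_fix_notMem (s : Finset K) (h : s.card < qq K) : ∃ t : K, star t = t ∧ t ∉ s := by
  by_contra hc
  push Not at hc
  have := Nat.card_le_card_of_injective (fun t : {a : K // star a = a} => (⟨t.1, hc t.1 t.2⟩ : s))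
    fun a b e => Subtype.ext (Subtype.mk.inj e)
  rw [Nat.card_eq_fintype_card (α := s), Fintype.card_coe] at this
  exact absurd h (not_lt.2 this)

theorem exists_fix_ne (h : 2 < qq K) : ∃ t : K, star t = t ∧ t ≠ 0 ∧ t ≠ 1 :=
  (fld_uField K).exists_fixed_ne h.ne'

theorem exists_mu (h : 3 < qq K) : ∃ t : K, star t = t ∧ t ≠ 0 ∧ t * t ≠ 1 := by
  classical
  obtain ⟨t, ht, h1⟩ := exists_fix_notMem ({0, 1, -1} : Finset K) (Finset.card_le_three.trans_lt h)
  simp only [Finset.mem_insert, Finset.mem_singleton, not_or] at h1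
  exact ⟨t, ht, h1.1, fun e => (mul_self_eq_one_iff.1 e).elim h1.2.1 h1.2.2⟩

theorem exists_lam (h : 3 < qq K) : ∃ l : K, l * star l = 1 ∧ l ^ 4 ≠ 1 := by
  classical
  by_contra hc
  push Not at hc
  have h1 := (fld_uField K).card_norm_eq one_ne_zero (map_one _)
  have := Nat.card_le_card_of_injective
    (fun t : {x : K // x * starRingEnd K x = 1} => (⟨t.1, by
      simpa using hc t.1 t.2⟩ : (Polynomial.nthRoots 4 (1 : K)).toFinset))
    fun a b e => Subtype.ext (Subtype.mk.inj e)
  rw [h1, Nat.card_eq_fintype_card, Fintype.card_coe] at this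
  have h2 := (Multiset.toFinset_card_le _).trans (Polynomial.card_nthRoots 4 (1 : K))
  omega

theorem fix_of_two (h : qq K = 2) {t : K} (ht : star t = t) : t = 0 ∨ t = 1 := by
  rw [star_eq_pow, h] at ht
  exact (mul_eq_zero.1 (show t * (t - 1) = 0 by linear_combination ht)).imp_right sub_eq_zero.1

theorem exists_sq (h : (2 : K) = 0) (x : K) : ∃ y, y * y = x :=
  (Finite.injective_iff_surjective (f := fun y : K => y * y)).1 (fun a b e => by
    have : (a - b) ^ 2 = 0 := by linear_combination e + (b * b - a * b) * h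
    exact sub_eq_zero.1 (pow_eq_zero_iff two_ne_zero |>.1 this)) x

end Cfsg.Agent.U4F
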