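import Mathlib
import Cfsg.Agent.U4F.Fld
import Cfsg.Agent.Fus.InvGroup

/-!
# The group `S = UG K`
-/

set_option autoImplicit false
set_option linter.unusedSectionVars false
set_option linter.unusedVariables false

namespace Cfsg.Agent.U4F

open Cfsg Cfsg.FusionSystem Cfsg.Agent.Fus Subgroup

variable {K : Type*} [Field K] [StarRing K] [UF K] {p : ℕ} [Fact p.Prime] [CharP K p]

theorem grp_card_of {α β : Type*} (f : α → β) (g : β → α) (h1 : ∀ a, g (f a) = a) (h2 : ∀ b, f (g b) = b) :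
    Nat.card α = Nat.card β := Nat.card_congr ⟨f, g, h1, h2⟩

variable (K) in
theorem card_Hm : Nat.card (Hm K) = qq K ^ 4 := by
  rw [grp_card_of (β := {a : K // star a = a} × K × {a : K // star a = a})
    (fun v => (⟨v.a, v.ha⟩, v.b, ⟨v.c, v.hc⟩)) (fun t => ⟨t.1.1, t.2.1, t.2.2.1, t.1.2, t.2.2.2⟩)
    (fun _ => rfl) (fun _ => rfl), Nat.card_prod, Nat.card_prod, card_K K]
  change qq K * (_ * qq K) = _
  ring

variable (K) in
theorem card_UG : Nat.card (UG K) = qq K ^ 6 := by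
  rw [grp_card_of (β := Hm K × K) (fun g => (g.v, g.x)) (fun t => ⟨t.1, t.2⟩) (fun _ => rfl) (fun _ => rfl),
    Nat.card_prod, card_K K, card_Hm]
  ring

variable (K) in
theorem card_Vs : Nat.card (Vs K) = qq K ^ 4 := by
  rw [grp_card_of (β := Hm K) (fun g => g.1.v) (fun t => ⟨jv t, rfl⟩)
    (fun g => Subtype.ext (UG.ext rfl g.2.symm)) (fun _ => rfl), card_Hm]

variable (K) in
theorem card_Qs : Nat.card (Qs K) = qq K ^ 5 := by
  rw [grp_card_of (β := {a : K // star a = a} × K × K) (fun g => (⟨g.1.v.a, g.1.v.ha⟩, g.1.v.b, g.1.x))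
    (fun t => ⟨⟨⟨t.1.1, t.2.1, 0, t.1.2, star_zero K⟩, t.2.2⟩, rfl⟩)
    (fun g => Subtype.ext (UG.ext4 rfl rfl g.2.symm rfl)) (fun _ => rfl), Nat.card_prod, Nat.card_prod,
    card_K K]
  change qq K * _ = _
  ring

variable (K) in
theorem card_Hs : Nat.card (Hs K) = qq K ^ 3 := by
  rw [grp_card_of (β := {a : K // star a = a} × K) (fun g => (⟨g.1.v.a, g.1.v.ha⟩, g.1.v.b))
    (fun t => ⟨⟨⟨t.1.1, t.2, 0, t.1.2, star_zero K⟩, 0⟩, rfl, rfl⟩)
    (fun g => Subtype.ext (UG.ext4 rfl rfl g.2.2.symm g.2.1.symm)) (fun _ => rfl), Nat.card_prod, card_K K]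
  change qq K * _ = _
  ring

variable (K) in
theorem card_Zs : Nat.card (Zs K) = qq K :=
  grp_card_of (β := {a : K // star a = a}) (fun g => ⟨g.1.v.a, g.1.v.ha⟩)
    (fun t => ⟨⟨⟨t.1, 0, 0, t.2, star_zero K⟩, 0⟩, rfl, rfl, rfl⟩)
    (fun g => Subtype.ext (UG.ext4 rfl g.2.2.2.symm g.2.2.1.symm g.2.1.symm)) (fun _ => rfl)

theorem card_Ex {x₀ : K} (h : x₀ ≠ 0) : Nat.card (Ex x₀) = qq K ^ 5 := by
  rw [grp_card_of (β := Hm K × {x : K // ∃ t, star t = t ∧ x = t * x₀}) (fun g => (g.1.v, ⟨g.1.x, g.2⟩))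
    (fun t => ⟨⟨t.1, t.2.1⟩, t.2.2⟩) (fun _ => rfl) (fun _ => rfl), Nat.card_prod, card_Hm, card_line h]
  ring

theorem uu_inj {x y : K} (h : uu x = uu y) : x = y := by
  simpa using congrArg (fun g : GA (Hm K) => (g ⟨0, 0, 1, by simp, by simp⟩).b) h

theorem rr_inj {x y : K} (h : rr x = rr y) : x = y := by
  simpa using congrArg (fun g : GA (K × K) => (g (1, 0)).2) h

variable (K) in
theorem card_PP : Nat.card (PP K) = qq K ^ 2 := by
  rw [← card_K]
  refine (Nat.card_congr (Equiv.ofBijective (fun x : K => (⟨uu x, x, rfl⟩ : PP K))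
    ⟨fun a b e => uu_inj (Subtype.mk.inj e), ?_⟩)).symm
  rintro ⟨_, x, rfl⟩
  exact ⟨x, rfl⟩

variable (K) in
theorem card_RR : Nat.card (RR K) = qq K := by
  refine (Nat.card_congr (Equiv.ofBijective
    (fun x : {a : K // star a = a} => (⟨rr x.1, x.1, x.2, rfl⟩ : RR K))
    ⟨fun a b e => Subtype.ext (rr_inj (Subtype.mk.inj e)), ?_⟩)).symm
  rintro ⟨_, x, hx, rfl⟩
  exact ⟨⟨x, hx⟩, rfl⟩

variable (K p) in
theorem grp_pgroup {G : Type*} [Group G] {k : ℕ} (h : Nat.card G = qq K ^ k) : IsPGroup p G := by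
  obtain ⟨n, e⟩ := qq_pow K p
  exact IsPGroup.of_card (n := (n + 1) * k) (by rw [h, e, pow_mul])

variable (K p) in
theorem isPGroup_UG : IsPGroup p (UG K) := grp_pgroup K p (card_UG K)

variable (K p) in
theorem isPGroup_top : IsPGroup p (⊤ : Subgroup (UG K)) := (isPGroup_UG K p).to_subgroup ⊤

variable (K p) in
theorem isPGroup_PP : IsPGroup p (PP K) := grp_pgroup K p (card_PP K)

variable (K p) in
theorem isPGroup_RR : IsPGroup p (RR K) := grp_pgroup K p (k := 1) (by rw [card_RR, pow_one])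

theorem hm_nsmul (n : ℕ) (v : Hm K) : (n • v).a = n * v.a ∧ (n • v).b = n * v.b ∧ (n • v).c = n * v.c := by
  induction n with
  | zero => simp
  | succ n ih => simp [succ_nsmul, ih, add_mul]

variable (p) in
theorem hm_exp (v : Hm K) : p • v = 0 := by
  obtain ⟨h1, h2, h3⟩ := hm_nsmul p v
  ext <;> simp [h1, h2, h3]

theorem jv_mul (v w : Hm K) : jv v * jv w = jv (v + w) := by apply UG.ext4 <;> simp

theorem jv_inv (v : Hm K) : (jv v)⁻¹ = jv (-v) := by apply UG.ext4 <;> simp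

theorem jv_mem (v : Hm K) : jv v ∈ Vs K := rfl

theorem eq_jv {g : UG K} (h : g ∈ Vs K) : g = jv g.v := UG.ext rfl h

theorem jv_mul_sx (g : UG K) : jv g.v * sx g.x = g := by apply UG.ext4 <;> simp

theorem conj_jv (g : UG K) (v : Hm K) : g * jv v * g⁻¹ = jv (uu g.x v) := by
  apply UG.ext4 <;> simp
  ring

/-- Conjugation in coordinates. -/
theorem conj_eq (g h : UG K) : g * h * g⁻¹ = ⟨g.v + uu g.x h.v - uu h.x g.v, h.x⟩ := by
  apply UG.ext4 <;> simp <;> ring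

theorem comm_iff {g h : UG K} : g * h = h * g ↔ uu g.x h.v - h.v = uu h.x g.v - g.v := by
  rw [UG.ext_iff, mul_v, mul_v, mul_x, mul_x, add_comm g.x, sub_eq_sub_iff_add_eq_add, add_comm g.v,
    add_comm h.v]
  simp

theorem Vs_comm {g h : UG K} (hg : g ∈ Vs K) (hh : h ∈ Vs K) : g * h = h * g := by
  rw [eq_jv hg, eq_jv hh, jv_mul, jv_mul, add_comm]

theorem jv_pow (v : Hm K) (n : ℕ) : jv v ^ n = jv (n • v) := by
  induction n with
  | zero => rw [pow_zero, zero_nsmul]; rfl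
  | succ n ih => rw [pow_succ, ih, jv_mul, succ_nsmul]

variable (p) in
theorem isElementaryAbelian_of_le {A : Subgroup (UG K)} (h : A ≤ Vs K) : IsElementaryAbelian p A :=
  ⟨⟨⟨fun a b => Subtype.ext (Vs_comm (h a.2) (h b.2))⟩⟩, fun a ha => by
    rw [eq_jv (h ha), jv_pow, hm_exp]; rfl⟩

theorem Zs_comm {z : UG K} (hz : z ∈ Zs K) (g : UG K) : z * g = g * z := by
  obtain ⟨h1, h2, h3⟩ := hz
  apply UG.ext4 <;> simp [h1, h2, h3, add_comm]

theorem normal_Vs : (Vs K).Normal := ⟨fun n hn g => by rw [conj_eq]; exact hn⟩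

theorem normal_Qs : (Qs K).Normal := ⟨fun n hn g => by
  rw [mem_Qs] at hn ⊢; simp [hn]⟩

theorem normal_Hs : (Hs K).Normal :=
  ⟨fun n hn g => ⟨normal_Vs.conj_mem n hn.1 g, normal_Qs.conj_mem n hn.2 g⟩⟩

theorem normal_Zs : (Zs K).Normal := ⟨fun n hn g => by
  rw [← Zs_comm hn, mul_inv_cancel_right]; exact hn⟩

/-- `[S, S] ≤ H`. -/
theorem comm_mem_H (s x : UG K) : x⁻¹ * (s * x * s⁻¹) ∈ Hs K := by
  rw [mem_Hs]; constructor <;> simp

theorem normal_of_Hs_le {E : Subgroup (UG K)} (h : Hs K ≤ E) : E.Normal := ⟨fun n hn g => by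
  simpa using mul_mem hn (h (comm_mem_H g n))⟩

theorem grp_comm_b (s x : UG K) : (x⁻¹ * (s * x * s⁻¹)).v.b = s.x * x.v.c - x.x * s.v.c := by
  simp; ring

/-- `[H, S] ≤ Z`. -/
theorem comm_mem_Z {s x : UG K} (h : s ∈ Hs K ∨ x ∈ Hs K) : x⁻¹ * (s * x * s⁻¹) ∈ Zs K := by
  refine ⟨(comm_mem_H s x).1, (comm_mem_H s x).2, ?_⟩
  rw [grp_comm_b]
  rcases h with h | h <;> simp [(mem_Hs.1 h).1, (mem_Hs.1 h).2]

/-- `[Q, Q] ≤ Z`. -/
theorem comm_mem_Z' {s x : UG K} (hs : s ∈ Qs K) (hx : x ∈ Qs K) : x⁻¹ * (s * x * s⁻¹) ∈ Zs K := by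
  refine ⟨(comm_mem_H s x).1, (comm_mem_H s x).2, ?_⟩
  rw [grp_comm_b, mem_Qs.1 hs, mem_Qs.1 hx]; simp

variable (K) in
theorem commutator_top : ⁅(⊤ : Subgroup (UG K)), (⊤ : Subgroup (UG K))⁆ = Hs K := by
  refine le_antisymm (commutator_le.2 fun g _ h _ => ?_) fun g hg => ?_
  · simpa [commutatorElement_def, mul_assoc] using comm_mem_H h g⁻¹
  · obtain ⟨h1, h2⟩ := mem_Hs.1 hg
    obtain ⟨b, hb⟩ := tr_surj (x₀ := (1 : K)) one_ne_zero (t := g.v.a - g.v.b * star g.v.b)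
      (by simp [mul_comm])
    have e : g = (sx g.v.b * jv ⟨0, 0, 1, by simp, by simp⟩ * (sx g.v.b)⁻¹ * (jv ⟨0, 0, 1, by simp, by simp⟩)⁻¹) *
        (sx 1 * jv ⟨0, b, 0, by simp, by simp⟩ * (sx 1)⁻¹ * (jv ⟨0, b, 0, by simp, by simp⟩)⁻¹) := by
      rw [conj_jv, conj_jv, jv_inv, jv_inv, jv_mul, jv_mul, jv_mul]
      apply UG.ext4 <;> simp [h1, h2]
      simp only [star_one, mul_one] at hb
      linear_combination -hb
    rw [e]
    exact mul_mem (commutator_mem_commutator (mem_top _) (mem_top _))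
      (commutator_mem_commutator (mem_top _) (mem_top _))

theorem mem_Vs_of_comm_H {z : UG K} (h : ∀ g ∈ Hs K, z * g = g * z) : z ∈ Vs K :=
  tr_nondeg fun b => by
    have := congrArg Hm.a (comm_iff.1 (h (jv ⟨0, b, 0, by simp, by simp⟩) ⟨rfl, rfl⟩))
    simp at this
    linear_combination this

theorem mem_Zs_of_comm_Q {z : UG K} (h : ∀ g ∈ Qs K, z * g = g * z) : z ∈ Zs K := by
  have h1 : z.x = 0 := mem_Vs_of_comm_H fun g hg => h g hg.2
  have h2 : ∀ x, uu x z.v = z.v := fun x => by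
    have := comm_iff.1 (h (sx x) rfl)
    rw [sx_v, map_zero, sub_self, eq_comm, sub_eq_zero] at this
    exact this
  have h3 : z.v.c = 0 := by simpa using congrArg Hm.b (h2 1)
  exact ⟨h1, h3, tr_nondeg fun x => by simpa [h3] using congrArg Hm.a (h2 x)⟩

variable (K) in
/-- The coordinate `x`. -/
def xHom : UG K →* Multiplicative K := MonoidHom.mk' (fun g => Multiplicative.ofAdd g.x) fun _ _ => rfl

theorem card_eq_mul_x (A : Subgroup (UG K)) :
    Nat.card A = Nat.card (A ⊓ Vs K : Subgroup _) * Nat.card {x : K // ∃ a ∈ A, a.x = x} := by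
  have h1 := ((xHom K).comp A.subtype).ker.card_mul_index
  rw [index_ker] at h1
  rw [← h1]
  congr 1
  · exact grp_card_of (fun g => ⟨g.1.1, g.1.2, g.2⟩) (fun g => ⟨⟨g.1, g.2.1⟩, g.2.2⟩) (fun _ => rfl)
      fun _ => rfl
  · exact Nat.card_congr (Equiv.subtypeEquiv Multiplicative.toAdd fun x =>
      ⟨fun ⟨a, e⟩ => ⟨a, a.2, congrArg Multiplicative.toAdd e⟩,
        fun ⟨a, ha, e⟩ => ⟨⟨a, ha⟩, congrArg Multiplicative.ofAdd e⟩⟩)

theorem le_Vs_of_comm {A : Subgroup (UG K)} (hc : ∀ a ∈ A, ∀ b ∈ A, a * b = b * a)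
    (h : qq K ^ 3 < Nat.card A) : A ≤ Vs K := by
  intro g hg
  by_contra hu
  have hu : g.x ≠ 0 := hu
  have key : ∀ e ∈ A, ∀ w : (A ⊓ Vs K : Subgroup _), uu e.x w.1.v = w.1.v := fun e he w => by
    have := comm_iff.1 (hc e he w.1 w.2.1)
    rwa [mem_Vs.1 w.2.2, uu_zero, ga_one, sub_self, sub_eq_zero] at this
  have hc0 : ∀ w : (A ⊓ Vs K : Subgroup _), w.1.v.c = 0 := fun w => by
    simpa [hu] using congrArg Hm.b (key g hg w)
  have ht : ∀ e ∈ A, ∀ w : (A ⊓ Vs K : Subgroup _), w.1.v.b * star e.x + star w.1.v.b * e.x = 0 :=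
    fun e he w => by simpa [hc0 w] using congrArg Hm.a (key e he w)
  refine absurd h (not_lt.2 ?_)
  rw [card_eq_mul_x]
  by_cases hl : ∀ e ∈ A, ∃ t, star t = t ∧ e.x = t * g.x
  · have h1 := Nat.card_le_card_of_injective (fun w : (A ⊓ Vs K : Subgroup _) =>
      ((⟨w.1.v.a, w.1.v.ha⟩, ⟨w.1.v.b, ht g hg w⟩) :
        {a : K // star a = a} × {b : K // b * star g.x + star b * g.x = 0})) fun a b e =>
      Subtype.ext (UG.ext4 (Subtype.mk.inj (congrArg Prod.fst e)) (Subtype.mk.inj (congrArg Prod.snd e))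
        ((hc0 a).trans (hc0 b).symm) (a.2.2.trans b.2.2.symm))
    have h2 := Nat.card_le_card_of_injective (fun x : {x : K // ∃ a ∈ A, a.x = x} =>
      (⟨x.1, by obtain ⟨a, ha, e⟩ := x.2; exact e ▸ hl a ha⟩ : {x : K // ∃ t, star t = t ∧ x = t * g.x}))
      fun a b e => Subtype.ext (Subtype.mk.inj e)
    rw [Nat.card_prod, card_perp hu] at h1
    rw [card_line hu] at h2
    exact (Nat.mul_le_mul h1 h2).trans (le_of_eq (by change qq K * _ * _ = _; ring))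
  · push Not at hl
    obtain ⟨e, he, hl⟩ := hl
    have hb : ∀ w : (A ⊓ Vs K : Subgroup _), w.1.v.b = 0 := fun w =>
      eq_zero_of_perp_two hu (fun ⟨t, h1, h2⟩ => hl t h1 h2) (ht g hg w) (ht e he w)
    have h1 := Nat.card_le_card_of_injective (fun w : (A ⊓ Vs K : Subgroup _) =>
      (⟨w.1.v.a, w.1.v.ha⟩ : {a : K // star a = a})) fun a b e =>
      Subtype.ext (UG.ext4 (Subtype.mk.inj e) ((hb a).trans (hb b).symm)
        ((hc0 a).trans (hc0 b).symm) (a.2.2.trans b.2.2.symm))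
    have h2 := Nat.card_le_card_of_injective (fun x : {x : K // ∃ a ∈ A, a.x = x} => x.1)
      Subtype.val_injective
    rw [card_K K] at h2
    exact (Nat.mul_le_mul h1 h2).trans (le_of_eq (by change qq K * _ = _; ring))

variable (K) in
theorem qq_pow_lt {m n : ℕ} (h : m < n) : qq K ^ m < qq K ^ n := Nat.pow_lt_pow_right (two_le_qq K) h

theorem aut_V (α : MulAut (UG K)) {g : UG K} (h : g ∈ Vs K) : α g ∈ Vs K := by
  refine le_Vs_of_comm (A := (Vs K).map α.toMonoidHom) ?_ ?_ ⟨g, h, rfl⟩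
  · rintro _ ⟨a, ha, rfl⟩ _ ⟨b, hb, rfl⟩
    rw [← map_mul, ← map_mul, Vs_comm ha hb]
  · rw [card_map_of_injective α.injective, card_Vs]
    exact qq_pow_lt K (by norm_num)

theorem aut_Z (α : MulAut (UG K)) {g : UG K} (h : g ∈ Zs K) : α g ∈ Zs K :=
  mem_Zs_of_comm_Q fun x _ => by
    obtain ⟨y, rfl⟩ := α.surjective x
    rw [← map_mul, ← map_mul, Zs_comm h]

theorem aut_Q (α : MulAut (UG K)) {g : UG K} (h : g ∈ Qs K) : α g ∈ Qs K := by
  by_contra hc
  have hc : (α g).v.c ≠ 0 := hc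
  have key : ∀ s : Qs K, (α s).x * (α g).v.c = (α g).x * (α s).v.c := fun s => by
    have := (aut_Z α (comm_mem_Z' s.2 h)).2.2
    rw [map_mul, map_mul, map_mul, map_inv, map_inv, grp_comm_b] at this
    exact sub_eq_zero.1 this
  have h1 := Nat.card_le_card_of_injective (fun s : Qs K => (α s).v) fun a b e =>
    Subtype.ext (α.injective (UG.ext e (mul_right_cancel₀ hc (by
      rw [key, key, show (α a).v = (α b).v from e]))))
  rw [card_Qs, card_Hm] at h1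
  exact absurd (qq_pow_lt K (by norm_num : 4 < 5)) (not_lt.2 h1)

theorem aut_H (α : MulAut (UG K)) {g : UG K} (h : g ∈ Hs K) : α g ∈ Hs K := ⟨aut_V α h.1, aut_Q α h.2⟩

theorem mor_V {F : FS K} {E : Subgroup (UG K)} {f : UG K → UG K} (hf : F.Mor E f) (hE : Vs K ≤ E)
    {g : UG K} (h : g ∈ Vs K) : f g ∈ Vs K := by
  refine le_Vs_of_comm (A := img f (Vs K)) (fun a ha b hb => ?_) ?_ (mem_img_of_mem h)
  · obtain ⟨a', ha', rfl⟩ := (hf.mem_img hE).1 ha
    obtain ⟨b', hb', rfl⟩ := (hf.mem_img hE).1 hb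
    rw [← hf.map_mul (hE ha') (hE hb'), ← hf.map_mul (hE hb') (hE ha'), Vs_comm ha' hb']
  · rw [hf.card_img hE, card_Vs]
    exact qq_pow_lt K (by norm_num)

theorem iso_Q_Z {F : FS K} {f : UG K → UG K} (hf : F.Iso (Qs K) (Qs K) f) {g : UG K} (h : g ∈ Zs K) :
    f g ∈ Zs K :=
  mem_Zs_of_comm_Q fun x hx => by
    obtain ⟨y, hy, rfl⟩ := hf.surj x hx
    rw [← hf.mor.map_mul h.2.1 hy, ← hf.mor.map_mul hy h.2.1, Zs_comm h]

theorem exists_AF {F : FS K} {f : UG K → UG K} (hf : F.Mor ⊤ f) : ∃ α ∈ AF F, ∀ g, α g = f g :=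
  ⟨MulEquiv.ofBijective (MonoidHom.mk' f fun a b => hf.map_mul (mem_top a) (mem_top b))
    (Finite.injective_iff_bijective.1 fun a b e => hf.inj (mem_top a) (mem_top b) e), hf, fun _ => rfl⟩

theorem conj_mem_AF (F : FS K) (s : UG K) : MulAut.conj s ∈ AF F := F.mor_conj le_rfl (mem_top s)

/-- A `p`-element of `Aut_F(S)` is inner. -/
theorem inner_of_pow {F : FS K} (hF : F.IsSaturated p) {α : MulAut (UG K)} (hα : α ∈ AF F) {k : ℕ}
    (h : α ^ p ^ k = 1) : ∃ s, α = MulAut.conj s := by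
  let e : MulAut (UG K) ≃* MulAut (⊤ : Subgroup (UG K)) := MulAut.congr topEquiv.symm
  have h1 : e α ∈ F.autGroup ⊤ := mem_autGroup_of_mor hα fun _ => rfl
  have h2 : IsPGroup p (zpowers (e α)) := by
    rintro ⟨_, n, rfl⟩
    refine ⟨k, Subtype.ext ?_⟩
    change (e α ^ n) ^ p ^ k = 1
    rw [← zpow_natCast, ← zpow_mul, mul_comm, zpow_mul, zpow_natCast, ← map_pow, h, map_one, one_zpow]
  obtain ⟨χ, -, hχ⟩ := (hF.fullyAutomized_top (isPGroup_top K p)).exists_conj (isPGroup_top K p) h2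
    (zpowers_le.2 h1)
  obtain ⟨s, -, hs⟩ := mem_autInducedBy.1 (hχ _ (mem_zpowers _))
  refine ⟨χ⁻¹ ⟨s, mem_top s⟩, MulEquiv.ext fun x => ?_⟩
  have h3 : χ (e α ⟨x, mem_top x⟩) = ⟨s, mem_top s⟩ * χ ⟨x, mem_top x⟩ * ⟨s, mem_top s⟩⁻¹ :=
    Subtype.ext (by simpa using hs (χ ⟨x, mem_top x⟩))
  have h4 := congrArg (fun y => ((χ⁻¹ y : (⊤ : Subgroup (UG K))) : UG K)) h3
  simp only [map_mul, map_inv, MulAut.inv_apply_self] at h4
  exact h4

theorem exists_tw (F : FS K) (κ : MulAut (UG K)) : ∃ F', Tw F F' κ :=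
  F.exists_isIsoVia (fun x _ y _ => map_mul κ x y)
    (eq_top_iff.2 fun y _ => κ.apply_symm_apply y ▸ mem_img_of_mem (mem_top _))
    fun x _ => MulAut.inv_apply_self _ κ x

theorem Tw.mem_AF {F F' : FS K} {κ : MulAut (UG K)} (h : Tw F F' κ) {α : MulAut (UG K)} :
    κ * α * κ⁻¹ ∈ AF F' ↔ α ∈ AF F := by
  have := h.mor_iff_of_compat (f := α) (f' := (κ * α * κ⁻¹ : MulAut (UG K))) le_rfl
    (fun _ _ => mem_top _) fun x _ => by simp
  rwa [h.img_top] at this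

theorem Rz.of_iso {F F' : FS K} {θ η : UG K → UG K} (h : Rz p F') (hi : F.IsIsoVia F' θ η) :
    Rz p F := by
  obtain ⟨G, _, _, j, h, e⟩ := h
  let θ' : UG K →* UG K := MonoidHom.mk' θ fun a b => hi.mulOn a (mem_top a) b (mem_top b)
  refine ⟨G, _, inferInstance, j.comp θ', hi.realizes h, ?_⟩
  rwa [MonoidHom.range_comp, MonoidHom.range_eq_top.2 fun y => ⟨η y, hi.right y (mem_top y)⟩,
    ← MonoidHom.range_eq_map]

theorem Rz.isRealizable {F : FS K} (h : Rz p F) {Ω : Type*} [Group Ω] {S : Subgroup Ω}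
    {E : FusionSystem S} {θ : Ω → UG K} {η : UG K → Ω} (hi : E.IsIsoVia F θ η) :
    E.IsRealizable p := by
  obtain ⟨G, _, _, j, h, e⟩ := h
  rw [MonoidHom.range_eq_map, ← img_eq_map] at e
  let π : G ≃* ULift G := MulEquiv.ulift.symm
  have h2 := hi.realizes (h.quot (isPGroup_top K p) e π.toMonoidHom π.surjective (by
    rw [π.toMonoidHom.ker_eq_bot_iff.2 π.injective, inf_bot_eq]))
  refine ⟨_, inferInstance, inferInstance, _, h2.isRealizedBy,
    h2.exists_sylow (hi.symm.isPGroup (isPGroup_top K p)) ?_⟩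
  rwa [hi.mulOn.img_comp (k := fun x => π.toMonoidHom (j x)), hi.img_top,
    h.img_comp_hom, index_map_of_bijective π.bijective]

end Cfsg.Agent.U4F
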