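import Mathlib
import Cfsg.Agent.U4F.Grp

/-!
# Diagonal-field automorphisms
-/

set_option autoImplicit false
set_option linter.unusedSectionVars false
set_option linter.unusedVariables false

namespace Cfsg.Agent.U4F

open Cfsg Cfsg.FusionSystem Cfsg.Agent.Fus Subgroup

variable {K : Type*} [Field K] [StarRing K] [UF K] {p : ℕ} [Fact p.Prime] [CharP K p]

theorem IsD.ext {l m : K} {s : K ≃+* K} {α β : MulAut (UG K)} (h : IsD l m s α) (h' : IsD l m s β) :
    α = β := MulEquiv.ext fun g =>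
  UG.ext4 ((h.a g).trans (h'.a g).symm) ((h.b g).trans (h'.b g).symm) ((h.c g).trans (h'.c g).symm)
    ((h.x g).trans (h'.x g).symm)

theorem IsD.mul {l m l' m' : K} {s s' : K ≃+* K} {α β : MulAut (UG K)} (h : IsD l m s α)
    (h' : IsD l' m' s' β) : IsD (l * s l') (m * s m') (s'.trans s) (α * β : MulAut (UG K)) := by
  refine ⟨mul_ne_zero h.hl ((map_ne_zero s).2 h'.hl), mul_ne_zero h.hm ((map_ne_zero s).2 h'.hm), ?_,
    fun g => ?_, fun g => ?_, fun g => ?_, fun g => ?_⟩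
  · rw [star_mul, ← ringEquiv_star, h.sm, h'.sm, mul_comm]
  · rw [MulAut.mul_apply, h.x, h'.x, map_mul, mul_assoc]; rfl
  · rw [MulAut.mul_apply, h.c, h'.c, map_mul, mul_assoc]; rfl
  · rw [MulAut.mul_apply, h.b, h'.b, RingEquiv.trans_apply]; simp only [map_mul]; ring
  · rw [MulAut.mul_apply, h.a, h'.a, RingEquiv.trans_apply]
    simp only [map_mul, star_mul, ringEquiv_star]; ring

theorem dgb_solve {c u v : K} {s : K ≃+* K} (hc : c ≠ 0) (h : u = c * s v) :
    v = (s.symm c)⁻¹ * s.symm u := by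
  rw [h, map_mul, s.symm_apply_apply, inv_mul_cancel_left₀ ((map_ne_zero s.symm).2 hc)]

theorem IsD.inv {l m : K} {s : K ≃+* K} {α : MulAut (UG K)} (h : IsD l m s α) :
    IsD (s.symm l)⁻¹ (s.symm m)⁻¹ s.symm (α⁻¹ : MulAut (UG K)) := by
  have hl := h.hl
  have hm := h.hm
  have hl' : star l ≠ 0 := star_ne_zero.2 hl
  refine ⟨inv_ne_zero ((map_ne_zero s.symm).2 hl), inv_ne_zero ((map_ne_zero s.symm).2 hm), ?_,
    fun g => ?_, fun g => ?_, fun g => ?_, fun g => ?_⟩
  · rw [star_inv₀, ← ringEquiv_star, h.sm]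
  · have := h.x (α⁻¹ g)
    rw [MulAut.apply_inv_self] at this
    exact dgb_solve hl this
  · have := h.c (α⁻¹ g)
    rw [MulAut.apply_inv_self] at this
    exact dgb_solve hm this
  · have := h.b (α⁻¹ g)
    rw [MulAut.apply_inv_self] at this
    rw [dgb_solve (mul_ne_zero hl hm) this, map_mul, mul_inv]
  · have := h.a (α⁻¹ g)
    rw [MulAut.apply_inv_self] at this
    rw [dgb_solve (mul_ne_zero (mul_ne_zero hl hl') hm) this, map_mul, map_mul, mul_inv, mul_inv,
      star_inv₀, ringEquiv_star]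

theorem dgb_one : IsD (1 : K) 1 (RingEquiv.refl K) (1 : MulAut (UG K)) :=
  ⟨one_ne_zero, one_ne_zero, star_one _, by simp, by simp, by simp, by simp⟩

theorem mem_Dg {α : MulAut (UG K)} : α ∈ Dg K ↔ ∃ l m s, IsD l m s α := by
  refine ⟨fun h => ?_, fun h => subset_closure h⟩
  induction h using closure_induction with
  | mem x hx => exact hx
  | one => exact ⟨_, _, _, dgb_one⟩
  | mul x y _ _ hx hy =>
    obtain ⟨l, m, s, hx⟩ := hx
    obtain ⟨l', m', s', hy⟩ := hy
    exact ⟨_, _, _, hx.mul hy⟩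
  | inv x _ hx =>
    obtain ⟨l, m, s, hx⟩ := hx
    exact ⟨_, _, _, hx.inv⟩

/-- The diagonal-field map in coordinates. -/
def dgb_f (l m : K) (s : K ≃+* K) (sm : star m = m) (g : UG K) : UG K :=
  ⟨⟨l * star l * m * s g.v.a, l * m * s g.v.b, m * s g.v.c,
    by rw [star_mul', star_mul', star_mul', star_star, sm, ← ringEquiv_star, g.v.ha, mul_comm (star l)],
    by rw [star_mul', sm, ← ringEquiv_star, g.v.hc]⟩, l * s g.x⟩

theorem dgb_f_mul (l m : K) (s : K ≃+* K) (sm : star m = m) (g h : UG K) :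
    dgb_f l m s sm (g * h) = dgb_f l m s sm g * dgb_f l m s sm h := by
  apply UG.ext4 <;> simp [dgb_f, ringEquiv_star, sm] <;> ring

theorem exists_D {l m : K} (s : K ≃+* K) (hl : l ≠ 0) (hm : m ≠ 0) (sm : star m = m) :
    ∃ δ : MulAut (UG K), IsD l m s δ := by
  have hl' : star l ≠ 0 := star_ne_zero.2 hl
  refine ⟨MulEquiv.ofBijective (MonoidHom.mk' (dgb_f l m s sm) (dgb_f_mul l m s sm))
    (Finite.injective_iff_bijective.1 fun a b e => ?_), hl, hm, sm, fun _ => rfl, fun _ => rfl,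
    fun _ => rfl, fun _ => rfl⟩
  exact UG.ext4
    (s.injective (mul_left_cancel₀ (mul_ne_zero (mul_ne_zero hl hl') hm) (congrArg (fun g => g.v.a) e)))
    (s.injective (mul_left_cancel₀ (mul_ne_zero hl hm) (congrArg (fun g => g.v.b) e)))
    (s.injective (mul_left_cancel₀ hm (congrArg (fun g => g.v.c) e)))
    (s.injective (mul_left_cancel₀ hl (congrArg (fun g => g.x) e)))

theorem dgb_mem_Kg {α : MulAut (UG K)} : α ∈ Kg K ↔ ∀ g, g⁻¹ * α g ∈ Hs K := by
  refine forall_congr' fun g => ?_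
  rw [mem_Hs, mul_x, mul_v, inv_x, inv_v, add_c, neg_c, uu_c, uu_c, neg_add_eq_zero, neg_add_eq_zero,
    eq_comm, eq_comm (a := g.v.c)]

theorem normal_Kg : (Kg K).Normal := ⟨fun α hα β => dgb_mem_Kg.2 fun g => by
  have := aut_H β (dgb_mem_Kg.1 hα (β⁻¹ g))
  rwa [map_mul, map_inv, MulAut.apply_inv_self] at this⟩

variable (K p) in
theorem isPGroup_Kg : IsPGroup p (Kg K) := by
  let e : MulAut (UG K) ≃* MulAut (⊤ : Subgroup (UG K)) := MulAut.congr topEquiv.symm
  have h := isPGroup_chainStab (isPGroup_top K p) (C := fun i => if i = 0 then ⊤ else Hs K) (n := 1) rfl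
    (by rw [if_neg one_ne_zero, ← commutator_top K]; exact le_sup_left)
  refine (h.comap_of_injective e.toMonoidHom e.injective).to_le fun α hα => ?_
  refine mem_chainStab_of le_rfl (fun i hi => ?_) fun i hi x hx => ?_
  · obtain rfl : i = 0 := by omega
    exact le_top
  · obtain rfl : i = 0 := by omega
    rw [totA_apply _ (mem_top x)]
    exact dgb_mem_Kg.1 hα x

variable (K) in
theorem Dg_inf_Kg : Dg K ⊓ Kg K = ⊥ := by
  refine eq_bot_iff.2 fun α hα => mem_bot.2 ?_
  obtain ⟨l, m, s, h⟩ := mem_Dg.1 hα.1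
  have e1 : ∀ a, l * s a = a := fun a => (h.x (sx a)).symm.trans (hα.2 (sx a)).1
  have e2 : l = 1 := by simpa using e1 1
  have e3 : m = 1 := by
    simpa using (h.c (jv ⟨0, 0, 1, by simp, by simp⟩)).symm.trans (hα.2 (jv ⟨0, 0, 1, by simp, by simp⟩)).2
  have e4 : s = RingEquiv.refl K := RingEquiv.ext fun a => by simpa [e2] using e1 a
  subst e2 e3 e4
  exact h.ext dgb_one

theorem conj_mem_Kg (s : UG K) : MulAut.conj s ∈ Kg K := dgb_mem_Kg.2 fun g => comm_mem_H s g

end Cfsg.Agent.U4F
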