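import Mathlib
import Cfsg.Agent.U4F.DgB

/-!
# `Aut S = D K`
-/

set_option autoImplicit false
set_option linter.unusedSectionVars false
set_option linter.unusedVariables false

namespace Cfsg.Agent.U4F

open Cfsg Cfsg.FusionSystem Cfsg.Agent.Fus Subgroup

variable {K : Type*} [Field K] [StarRing K] [UF K] {p : ℕ} [Fact p.Prime] [CharP K p]

theorem auts_mul {s : K → K} (ha : ∀ x y, s (x + y) = s x + s y)
    (hm : ∀ t u, star t = t → s (t * u) = s t * s u)
    (hT : ∀ u, s (u + star u) = s u + star (s u))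
    (hN : ∀ u, s (u * star u) = s u * star (s u)) (h1 : s 1 = 1) (x y : K) :
    s (x * y) = s x * s y := by
  obtain ⟨θ, hθ⟩ := UF.nt (K := K)
  have sp : ∀ x : K, ∃ a b, star a = a ∧ star b = b ∧ x = a * 1 + b * θ :=
    span_two one_ne_zero fun ⟨t, ht, e⟩ => hθ (by rw [e, mul_one, ht])
  have h2 : s (θ * θ) = s θ * s θ := by
    have e := ha (θ * θ) (θ * star θ)
    rw [show θ * θ + θ * star θ = (θ + star θ) * θ by ring, hm _ _ (by simp [add_comm]), hT,
      hN] at e
    linear_combination -e
  have h3 : ∀ x, s (x * θ) = s x * s θ := fun x => by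
    obtain ⟨a, b, ha', hb', rfl⟩ := sp x
    rw [show (a * 1 + b * θ) * θ = a * θ + b * (θ * θ) by ring, ha, ha, hm _ _ ha', hm _ _ hb',
      hm _ _ ha', hm _ _ hb', h2, h1]
    ring
  obtain ⟨a, b, ha', hb', rfl⟩ := sp y
  rw [show x * (a * 1 + b * θ) = a * x + b * (x * θ) by ring, ha, ha, hm _ _ ha', hm _ _ hb',
    hm _ _ ha', hm _ _ hb', h3, h1]
  ring

theorem auts_norm {s ψ φ : K → K} {l n z : K} (ha : ∀ x y, s (x + y) = s x + s y)
    (hb : Function.Bijective s) (h1 : s 1 = 1) (hm : ∀ t u, star t = t → s (t * u) = s t * s u)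
    (hf : ∀ t, star t = t → star (s t) = s t) (hn : n ≠ 0) (sn : star n = n) (sz : star z = z)
    (R2 : ∀ u t, star t = t → s (u * star u) * s t * z + ψ (u * t) =
      φ t * star (l * s u) + star (φ t) * (l * s u) + n * (s u * star (s u)) * s t)
    (R3 : ∀ b u, z * s (b * star u + star b * u) = n * (s b * star (s u) + star (s b) * s u))
    (u : K) : n * (s u * star (s u)) = z * s (u * star u) := by
  have h0 : s 0 = 0 := by simpa using ha 0 0
  have fN : ∀ u : K, star (u * star u) = u * star u := fun u => by simp [mul_comm]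
  rcases (two_le_qq K).eq_or_lt with h | h
  · have z0 : z ≠ 0 := fun e => one_ne_zero (tr_nondeg (b := (1 : K)) fun x => by
      obtain ⟨y, rfl⟩ := hb.2 x
      have := R3 1 y
      rw [e, zero_mul, h1] at this
      exact (mul_eq_zero.1 this.symm).resolve_left hn)
    rw [(fix_of_two h.symm sn).resolve_left hn, (fix_of_two h.symm sz).resolve_left z0]
    by_cases hu : u = 0
    · simp [hu, h0]
    have hu' : s u ≠ 0 := fun e => hu (hb.1 (e.trans h0.symm))
    rw [(fix_of_two h.symm (fN u)).resolve_left (mul_ne_zero hu (star_ne_zero.2 hu)),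
      (fix_of_two h.symm (fN (s u))).resolve_left (mul_ne_zero hu' (star_ne_zero.2 hu')), h1]
  · obtain ⟨t, ht, t0, t1⟩ := exists_fix_ne h
    have k0 : s t ≠ 0 := fun e => t0 (hb.1 (e.trans h0.symm))
    have k1 : s t - 1 ≠ 0 := sub_ne_zero.2 fun e => t1 (hb.1 (e.trans h1.symm))
    have st := hf t ht
    have eN : ∀ u, s (t * u * star (t * u)) = s t * s t * s (u * star u) := fun u => by
      rw [show t * u * star (t * u) = t * (t * (u * star u)) by rw [star_mul', ht]; ring,
        hm _ _ ht, hm _ _ ht, mul_assoc]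
    have key : ∀ u, (n * (s u * star (s u)) - z * s (u * star u)) * (s t - s t * s t) =
        (s t * φ 1 - φ t) * star (l * s u) + (s t * star (φ 1) - star (φ t)) * (l * s u) :=
      fun u => by
        have a := R2 u t ht
        have b := R2 (t * u) 1 (star_one K)
        rw [eN, hm _ _ ht, h1, mul_one (t * u), mul_comm t u] at b
        simp only [star_mul', st] at a b ⊢
        linear_combination b - a
    have a := key u
    have b := key (t * u)
    rw [eN, hm _ _ ht] at b
    simp only [star_mul', st] at a b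
    have : (n * (s u * star (s u)) - z * s (u * star u)) * (s t * (s t - 1)) ^ 2 = 0 := by
      linear_combination s t * a - b
    exact sub_eq_zero.1 ((mul_eq_zero.1 this).resolve_right
      (pow_ne_zero _ (mul_ne_zero k0 k1)))

theorem auts_alg (A ψ ζ β γ φ : K → K) (hA : ∀ x y, A (x + y) = A x + A y)
    (hs : Function.Bijective A) (hβ : ∀ t, star (β t) = β t) (hζ : star (ζ 1) = ζ 1)
    (h1 : β 1 ≠ 0) (R1 : ∀ u t, star t = t → γ (u * t) = A u * β t)
    (R2 : ∀ u t, star t = t → ζ (u * star u * t) + ψ (u * t) =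
      φ t * star (A u) + star (φ t) * A u + A u * star (A u) * β t)
    (R3 : ∀ b u, ζ (b * star u + star b * u) = γ b * star (A u) + star (γ b) * A u) :
    ∃ l, ∃ s : K ≃+* K, l ≠ 0 ∧ (∀ x, A x = l * s x) ∧ ∀ t, star t = t → β t = β 1 * s t := by
  have h0 : A 0 = 0 := by simpa using hA 0 0
  have hl : A 1 ≠ 0 := fun e => one_ne_zero (hs.1 (e.trans h0.symm))
  obtain ⟨s, hA'⟩ : ∃ s : K → K, ∀ x, A x = A 1 * s x :=
    ⟨fun x => A x / A 1, fun x => by field_simp⟩
  set l := A 1
  set m := β 1 with hm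
  have sa : ∀ x y, s (x + y) = s x + s y := fun x y =>
    mul_left_cancel₀ hl (by rw [← hA', hA, hA' x, hA' y, mul_add])
  have s1 : s 1 = 1 := mul_left_cancel₀ hl (by rw [← hA', mul_one])
  have sb : Function.Bijective s := Finite.injective_iff_bijective.1 fun x y e =>
    hs.1 (by rw [hA' x, hA' y, e])
  have hγ : ∀ u, γ u = l * s u * m := fun u => by
    rw [← hA', hm, ← R1 u 1 (star_one K), mul_one]
  have hb : ∀ t, star t = t → β t = m * s t := fun t ht => mul_left_cancel₀ hl (by
    have := R1 1 t ht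
    rw [one_mul, hγ] at this
    linear_combination -this)
  have sm : ∀ t u, star t = t → s (t * u) = s t * s u := fun t u ht =>
    mul_left_cancel₀ (mul_ne_zero hl h1) (by
      have := R1 u t ht
      rw [hγ, hb t ht, hA' u, mul_comm u t] at this
      linear_combination this)
  have sf : ∀ t, star t = t → star (s t) = s t := fun t ht => mul_left_cancel₀ h1 (by
    have := hβ t
    rwa [hb t ht, star_mul', hβ 1] at this)
  have R3' : ∀ b u, ζ (b * star u + star b * u) =
      m * (l * star l) * (s b * star (s u) + star (s b) * s u) := fun b u => by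
    rw [R3, hγ, hA' u]
    simp only [star_mul', hβ 1, hm]
    ring
  have hz : ∀ t, star t = t → ζ t = s t * ζ 1 := fun t ht => by
    obtain ⟨b, e⟩ := tr_surj (one_ne_zero (α := K)) (star_one K)
    have a := R3' (t * b) 1
    rw [show t * b * star 1 + star (t * b) * 1 = t * (b * star 1 + star b * 1) by
      rw [star_mul', ht]; ring, e, mul_one, sm _ _ ht, star_mul', sf t ht] at a
    have b' := R3' b 1
    rw [e] at b'
    rw [a, b']
    ring
  have fN : ∀ u : K, star (u * star u) = u * star u := fun u => by simp [mul_comm]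
  have hn : m * (l * star l) ≠ 0 := mul_ne_zero h1 (mul_ne_zero hl (star_ne_zero.2 hl))
  have R3'' : ∀ b u, ζ 1 * s (b * star u + star b * u) =
      m * (l * star l) * (s b * star (s u) + star (s b) * s u) := fun b u => by
    rw [← R3', hz (b * star u + star b * u) (by simp [mul_comm, add_comm]), mul_comm]
  have hD := auts_norm (ψ := ψ) (φ := φ) (l := l) sa sb s1 sm sf hn
    (by rw [star_mul', fN, hβ 1]) hζ (fun u t ht => by
      have := R2 u t ht
      rw [hz _ (by rw [star_mul', fN, ht]), sm _ _ (fN u), hA' u, hb t ht] at this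
      simp only [star_mul'] at this ⊢
      linear_combination this) R3''
  have e1 : m * (l * star l) = ζ 1 := by simpa [s1] using hD 1
  rw [← e1] at hD R3''
  have mul := auts_mul sa sm (fun u => mul_left_cancel₀ hn (by simpa [s1] using R3'' u 1))
    (fun u => mul_left_cancel₀ hn (hD u).symm) s1
  exact ⟨l, ⟨Equiv.ofBijective s sb, mul, sa⟩, hl, hA', hb⟩

open Classical in
/-- The projection to the fixed field used to make coordinates total. -/
noncomputable def autsPr (t : K) : K := if star t = t then t else 0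

theorem auts_pr_star (t : K) : star (autsPr t) = autsPr t := by
  unfold autsPr
  split_ifs with h
  · exact h
  · exact star_zero K

theorem auts_pr_eq {t : K} (h : star t = t) : autsPr t = t := if_pos h

/-- The vector `(a, 0, 0)`. -/
noncomputable def autsA (t : K) : Hm K := ⟨autsPr t, 0, 0, auts_pr_star t, star_zero K⟩
/-- The vector `(0, b, 0)`. -/
def autsB (b : K) : Hm K := ⟨0, b, 0, star_zero K, star_zero K⟩
/-- The vector `(0, 0, c)`. -/
noncomputable def autsC (t : K) : Hm K := ⟨0, 0, autsPr t, star_zero K, auts_pr_star t⟩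

theorem auts_dec (v : Hm K) : v = autsA v.a + autsB v.b + autsC v.c := by
  ext <;> simp [autsA, autsB, autsC, auts_pr_eq]

theorem aut_decomp (α : MulAut (UG K)) : ∃ δ ∈ Dg K, δ⁻¹ * α ∈ Kg K := by
  obtain ⟨A, hA⟩ : ∃ A : K → K, ∀ u, A u = (α (sx u)).x := ⟨_, fun _ => rfl⟩
  obtain ⟨M, hM⟩ : ∃ M : Hm K → Hm K, ∀ v, α (jv v) = jv (M v) :=
    ⟨fun v => (α (jv v)).v, fun v => eq_jv (aut_V α (jv_mem v))⟩
  have inj : ∀ v w : Hm K, jv v = jv w → v = w := fun v w e => congrArg UG.v e
  have Ma : ∀ v w, M (v + w) = M v + M w := fun v w =>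
    inj _ _ (by rw [← hM, ← jv_mul, map_mul, hM, hM, jv_mul])
  have Mu : ∀ u v, M (uu u v) = uu (A u) (M v) := fun u v => inj _ _ (by
    rw [← hM, hA, ← conj_jv, ← hM, ← map_inv, ← map_mul, ← map_mul, conj_jv, sx_x])
  have hx : ∀ g, (α g).x = A g.x := fun g => by
    conv_lhs => rw [← jv_mul_sx g, map_mul, hM, mul_x, jv_x, zero_add, ← hA]
  have hc : ∀ g, (α g).v.c = (M g.v).c := fun g => by
    have : (α (sx g.x)).v.c = 0 := aut_Q α (g := sx g.x) rfl
    conv_lhs => rw [← jv_mul_sx g, map_mul, hM, mul_v, add_c, uu_c, this, add_zero, jv_v]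
  have a0 : ∀ t, (M (autsA t)).c = 0 ∧ (M (autsA t)).b = 0 := fun t => by
    have := aut_Z α (g := jv (autsA t)) ⟨rfl, rfl, rfl⟩
    rw [hM] at this
    exact this.2
  have b0 : ∀ b, (M (autsB b)).c = 0 := fun b => by
    have := aut_Q α (g := jv (autsB b)) rfl
    rwa [hM] at this
  have Mf : ∀ v : Hm K, M v = M (autsA v.a) + M (autsB v.b) + M (autsC v.c) := fun v => by
    rw [← Ma, ← Ma, ← auts_dec]
  have c0 : autsC (0 : K) = 0 := by ext <;> simp [autsC, auts_pr_eq]
  have M0 : M 0 = 0 := by simpa using Ma 0 0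
  have m0 : (M (autsC 1)).c ≠ 0 := fun e => by
    have h1 : jv (M (autsC 1)) ∈ Qs K := e
    have h2 := aut_Q α⁻¹ h1
    rw [← hM, MulAut.inv_apply_self] at h2
    exact one_ne_zero ((auts_pr_eq (star_one K)).symm.trans h2)
  obtain ⟨l, s, hl, h1, h2⟩ := auts_alg A (fun b => (M (autsB b)).a) (fun t => (M (autsA t)).a)
    (fun t => (M (autsC t)).c) (fun b => (M (autsB b)).b) (fun t => (M (autsC t)).b)
    (fun x y => by
      have : sx (x + y) = sx x * sx y := by apply UG.ext4 <;> simp
      rw [hA, this, map_mul, mul_x, ← hA, ← hA])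
    (Finite.surjective_iff_bijective.1 fun y => by
      obtain ⟨g, hg⟩ := α.surjective (sx y)
      exact ⟨g.x, by rw [← hx, hg, sx_x]⟩)
    (fun t => Hm.hc _) (Hm.ha _) m0
    (fun u t ht => by
      have e := congrArg Hm.b (Mu u (autsC t))
      rw [Mf] at e
      simp only [add_b, uu_b, uu_c, (a0 _).2] at e
      simp only [autsC, auts_pr_eq ht, zero_add] at e ⊢
      linear_combination e)
    (fun u t ht => by
      have e := congrArg Hm.a (Mu u (autsC t))
      rw [Mf] at e
      simp only [add_a, uu_a, uu_b, uu_c] at e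
      simp only [autsC, auts_pr_eq ht, zero_add, zero_mul, star_zero] at e ⊢
      linear_combination e)
    (fun b u => by
      have e := congrArg Hm.a (Mu u (autsB b))
      rw [Mf] at e
      simp only [add_a, uu_a, uu_b, uu_c, b0] at e
      simp only [autsB, zero_add, mul_zero, add_zero, c0, M0, zero_a] at e ⊢
      linear_combination e)
  obtain ⟨δ, hδ⟩ := exists_D s hl m0 (Hm.hc _)
  refine ⟨δ, subset_closure ⟨_, _, _, hδ⟩, fun g => ?_⟩
  have e : δ ((δ⁻¹ * α) g) = α g := MulAut.apply_inv_self _ δ (α g)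
  constructor
  · have := hδ.x ((δ⁻¹ * α) g)
    rw [e, hx, h1] at this
    exact s.injective (mul_left_cancel₀ hl this).symm
  · have := hδ.c ((δ⁻¹ * α) g)
    rw [e, hc, Mf, add_c, add_c, (a0 _).1, b0, zero_add, zero_add, h2 _ g.v.hc] at this
    exact s.injective (mul_left_cancel₀ m0 this).symm

end Cfsg.Agent.U4F
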