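import Mathlib
import Cfsg.Agent.U4F.Defs

/-!
# Conjugates of `P`: first facts
-/

set_option autoImplicit false
set_option linter.unusedSectionVars false
set_option linter.unusedVariables false

namespace Cfsg.Agent.U4F

open Cfsg Cfsg.FusionSystem Cfsg.Agent.Fus Subgroup

variable {M : Type*} [AddCommGroup M] [Finite M] {p q : ℕ} [Fact p.Prime] {P X R R₁ R₂ : Subgroup (GA M)}

theorem cnta_mem {g s : GA M} : s ∈ R.map (MulAut.conj g).toMonoidHom ↔ g⁻¹ * s * g ∈ R := by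
  rw [mem_map_equiv, MulAut.conj_symm_apply]

theorem cnta_mem' {g s : GA M} (hs : s ∈ R) : g * s * g⁻¹ ∈ R.map (MulAut.conj g).toMonoidHom :=
  ⟨s, hs, rfl⟩

theorem cnta_map_map (g a : GA M) : (R.map (MulAut.conj a).toMonoidHom).map (MulAut.conj g).toMonoidHom =
    R.map (MulAut.conj (g * a)).toMonoidHom := by
  ext s
  simp only [cnta_mem, mul_inv_rev, mul_assoc]

theorem cnta_card (g : GA M) : Nat.card (R.map (MulAut.conj g).toMonoidHom) = Nat.card R :=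
  card_map_of_injective (MulAut.conj g).injective

theorem Cj.refl (X P : Subgroup (GA M)) : Cj X P P := ⟨1, one_mem _, by ext s; simp⟩

theorem Cj.conj (h : Cj X P R) {g : GA M} (hg : g ∈ X) :
    Cj X P (R.map (MulAut.conj g).toMonoidHom) := by
  obtain ⟨a, ha, rfl⟩ := h
  exact ⟨g * a, mul_mem hg ha, cnta_map_map g a⟩

theorem map_conj_eq_iff {g : GA M} :
    R.map (MulAut.conj g).toMonoidHom = R ↔ g ∈ normalizer (R : Set (GA M)) := by
  rw [mem_normalizer_iff'', Subgroup.ext_iff]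
  exact forall_congr' fun s => by rw [cnta_mem]; exact Iff.comm

/-- The image of a subgroup of the module. -/
def cntaTr (g : GA M) (U : AddSubgroup M) : AddSubgroup M := U.map g.toAddEquiv.toAddMonoidHom

theorem cnta_mem_tr {g : GA M} {U : AddSubgroup M} {v : M} : v ∈ cntaTr g U ↔ g⁻¹ v ∈ U :=
  AddSubgroup.mem_map_equiv

theorem cnta_apply_mem_tr {g : GA M} {U : AddSubgroup M} {v : M} : g v ∈ cntaTr g U ↔ v ∈ U := by
  rw [cnta_mem_tr, ga_inv_apply]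

theorem cnta_tr_le {g : GA M} {U U' : AddSubgroup M} : cntaTr g U ≤ cntaTr g U' ↔ U ≤ U' :=
  AddSubgroup.map_le_map_iff_of_injective g.injective

theorem cnta_tr_top (g : GA M) : cntaTr g ⊤ = ⊤ := top_unique fun _ _ => cnta_mem_tr.2 trivial

theorem cnta_tr_surj (g : GA M) (Y : AddSubgroup M) : ∃ Y', Y = cntaTr g Y' :=
  ⟨cntaTr g⁻¹ Y, by ext v; rw [cnta_mem_tr, cnta_apply_mem_tr]⟩

theorem cnta_card_tr (g : GA M) (U : AddSubgroup M) : Nat.card (cntaTr g U) = Nat.card U :=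
  AddSubgroup.card_map_of_injective g.injective

theorem cnta_conj_apply (g r : GA M) (v : M) : (g * r * g⁻¹) (g v) = g (r v) := by
  rw [ga_mul, ga_mul, ga_inv_apply]

theorem mem_fixA_map {g : GA M} {v : M} :
    g v ∈ fixA (R.map (MulAut.conj g).toMonoidHom) ↔ v ∈ fixA R := by
  refine ⟨fun h r hr => g.injective ((cnta_conj_apply g r v).symm.trans (h _ (cnta_mem' hr))), ?_⟩
  rintro h _ ⟨r, hr, rfl⟩
  exact (cnta_conj_apply g r v).trans (congrArg g (h r hr))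

theorem cnta_fix_map (g : GA M) : fixA (R.map (MulAut.conj g).toMonoidHom) = cntaTr g (fixA R) := by
  ext v
  rw [cnta_mem_tr, ← mem_fixA_map (g := g) (R := R) (v := g⁻¹ v), ga_apply_inv]

theorem cnta_mem_com {U : AddSubgroup M} {r : GA M} {v : M} (hr : r ∈ R) (hv : v ∈ U) : r v - v ∈ comA U R :=
  AddSubgroup.subset_closure ⟨r, hr, v, hv, rfl⟩

theorem cnta_com_le {U Y : AddSubgroup M} : comA U R ≤ Y ↔ ∀ r ∈ R, ∀ v ∈ U, r v - v ∈ Y :=
  ⟨fun h _ hr _ hv => h (cnta_mem_com hr hv), fun h => (AddSubgroup.closure_le _).2 (by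
    rintro _ ⟨r, hr, v, hv, rfl⟩; exact h r hr v hv)⟩

theorem cnta_com_map (g : GA M) (U : AddSubgroup M) :
    comA (cntaTr g U) (R.map (MulAut.conj g).toMonoidHom) = cntaTr g (comA U R) := by
  refine le_antisymm (cnta_com_le.2 ?_) (AddSubgroup.map_le_iff_le_comap.2 (cnta_com_le.2 fun r hr v hv => ?_))
  · rintro _ ⟨r, hr, rfl⟩ _ ⟨v, hv, rfl⟩
    refine ⟨r v - v, cnta_mem_com hr hv, ?_⟩
    exact (map_sub g _ _).trans (congrArg (· - g v) (cnta_conj_apply g r v).symm)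
  · have := cnta_mem_com (cnta_mem' (g := g) hr) (cnta_apply_mem_tr (g := g).2 hv)
    rw [cnta_conj_apply, ← map_sub] at this
    exact this

theorem cnta_com_top (g : GA M) : comA ⊤ (R.map (MulAut.conj g).toMonoidHom) = cntaTr g (comA ⊤ R) := by
  rw [← cnta_com_map, cnta_tr_top]

theorem mem_comA_map {g : GA M} {v : M} :
    g v ∈ comA ⊤ (R.map (MulAut.conj g).toMonoidHom) ↔ v ∈ comA ⊤ R := by
  rw [cnta_com_top, cnta_apply_mem_tr]

theorem cnta_conj_ne {g r : GA M} (hr : r ≠ 1) : g * r * g⁻¹ ≠ 1 := fun e => hr (by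
  rwa [mul_inv_eq_one, mul_eq_left] at e)

theorem cnta_good (h : Good q R) (g : GA M) : Good q (R.map (MulAut.conj g).toMonoidHom) where
  cM := h.cM
  cR := (cnta_card g).trans h.cR
  cZ := by rw [cnta_fix_map, cnta_card_tr, h.cZ]
  cH := by rw [cnta_com_top, cnta_card_tr, h.cH]
  HZ := by rw [cnta_com_top, cnta_com_map, cnta_fix_map]; exact cnta_tr_le.2 h.HZ
  ZH := by rw [cnta_com_top, cnta_fix_map]; exact cnta_tr_le.2 h.ZH
  fx := by
    rw [cnta_com_top]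
    rintro _ ⟨v, hv, rfl⟩
    obtain ⟨r, hr, h1, e⟩ := h.fx v hv
    exact ⟨_, cnta_mem' hr, cnta_conj_ne h1, (cnta_conj_apply g r v).trans (congrArg g e)⟩
  dual Y h1 h2 := by
    obtain ⟨Y, rfl⟩ := cnta_tr_surj g Y
    rw [cnta_fix_map, cnta_tr_le] at h1
    rw [cnta_com_top, cntaTr, cntaTr, AddSubgroup.relIndex_map_map_of_injective _ _ g.injective] at h2
    obtain ⟨r, hr, h3, e⟩ := h.dual Y h1 h2
    refine ⟨_, cnta_mem' hr, cnta_conj_ne h3, fun v => ?_⟩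
    obtain ⟨v, rfl⟩ := g.surjective v
    rw [cnta_conj_apply, ← map_sub, cnta_apply_mem_tr]
    exact e v
  big U h1 h2 := by
    obtain ⟨U, rfl⟩ := cnta_tr_surj g U
    rw [cnta_com_top, cnta_tr_le] at h1 h2
    rw [cnta_com_top, cnta_com_map]
    exact cnta_tr_le.2 (h.big U h1 h2)

theorem CH.good_cj (h : CH p q P X) (hR : Cj X P R) : Good q R := by
  obtain ⟨g, -, rfl⟩ := hR
  exact cnta_good h.good g

theorem CH.isPGroup (h : CH p q P X) (hR : Cj X P R) : IsPGroup p R := by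
  obtain ⟨n, e⟩ := h.qp
  exact IsPGroup.of_card (n := (n + 1) * 2) (by rw [(h.good_cj hR).cR, e, pow_mul])

theorem CH.le (h : CH p q P X) (hR : Cj X P R) : R ≤ X := by
  obtain ⟨g, hg, rfl⟩ := hR
  rintro _ ⟨r, hr, rfl⟩
  exact mul_mem (mul_mem hg (h.syl.le hr)) (Subgroup.inv_mem _ hg)

theorem CH.cnta_idx (h : CH p q P X) (hR : Cj X P R) : ¬ p ∣ R.relIndex X :=
  not_dvd_relIndex_of_card_le (h.isPGroup (Cj.refl X P)) h.syl.idx h.syl.le (h.isPGroup hR) (h.le hR)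
    (by rw [h.good.cR, (h.good_cj hR).cR])

theorem CH.cnta_idx' (h : CH p q P X) (hR : Cj X P R) {L : Subgroup (GA M)} (hL : R ≤ L) (hX : L ≤ X) :
    ¬ p ∣ R.relIndex L := fun hd =>
  h.cnta_idx hR (relIndex_mul_relIndex R L X hL hX ▸ hd.mul_right _)

/-- A conjugate is a maximal `p`-subgroup of `X`. -/
theorem CH.eq_of_le (h : CH p q P X) (hR : Cj X P R) {T : Subgroup (GA M)} (hT : IsPGroup p T)
    (h1 : R ≤ T) (h2 : T ≤ X) : T = R :=
  (eq_of_le_of_card_ge h1 (card_le_of_sylowIn (h.isPGroup hR) (h.cnta_idx hR) hT h2)).symm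

theorem CH.eq_of_mem (h : CH p q P X) (h1 : Cj X P R₁) (h2 : Cj X P R₂) {r : GA M} (r1 : r ∈ R₁)
    (r2 : r ∈ R₂) (hr : r ≠ 1) : R₁ = R₂ := by
  obtain ⟨a, ha, rfl⟩ := h1
  obtain ⟨b, hb, rfl⟩ := h2
  have k := h.ti (b⁻¹ * a) (mul_mem (Subgroup.inv_mem _ hb) ha) _ (cnta_mem.1 r1)
    (by simpa using cnta_conj_ne (g := a⁻¹) hr) (by simpa [mul_assoc] using cnta_mem.1 r2)
  conv_rhs => rw [← map_conj_eq_iff.2 k, cnta_map_map, mul_inv_cancel_left]

theorem CH.cnta_ti (h : CH p q P X) (hR : Cj X P R) : TI R X := fun g hg s hs h1 h2 =>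
  map_conj_eq_iff.1 (h.eq_of_mem (hR.conj hg) hR (cnta_mem' hs) h2 (cnta_conj_ne h1))

theorem CH.cnta_exists (h : CH p q P X) (hR : Cj X P R) {L T : Subgroup (GA M)} (hL : R ≤ L) (hX : L ≤ X)
    (hT : IsPGroup p T) (hTL : T ≤ L) : ∃ c ∈ L, T ≤ R.map (MulAut.conj c).toMonoidHom := by
  obtain ⟨c, hc, e⟩ := GT.Tr.exists_conj_le_sylowIn (h.isPGroup hR) (h.cnta_idx' hR hL hX) hT hTL
  exact ⟨c⁻¹, Subgroup.inv_mem _ hc, fun t ht => cnta_mem.2 (by rw [inv_inv]; exact e t ht)⟩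

theorem CH.le_of_mem (h : CH p q P X) (h1 : Cj X P R₁) (h2 : Cj X P R₂) {C : Subgroup (GA M)}
    (hC : R₂ ≤ C) {r : GA M} (r1 : r ∈ R₁) (rC : r ∈ C) (hr : r ≠ 1) : R₁ ≤ C := by
  obtain ⟨c, hc, e⟩ := h.cnta_exists h2 (le_inf hC (h.le h2)) inf_le_right
    ((h.isPGroup h1).to_le (zpowers_le.2 r1)) (zpowers_le.2 (mem_inf.2 ⟨rC, h.le h1 r1⟩))
  rw [h.eq_of_mem h1 (h2.conj (mem_inf.1 hc).2) r1 (e (mem_zpowers r)) hr]
  rintro _ ⟨s, hs, rfl⟩
  exact mul_mem (mul_mem (mem_inf.1 hc).1 (hC hs)) (Subgroup.inv_mem _ (mem_inf.1 hc).1)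

theorem CH.com_inf_fix (h : CH p q P X) (h1 : Cj X P R₁) (h2 : Cj X P R₂) :
    comA ⊤ R₁ ⊓ fixA R₂ ≤ fixA R₁ := fun v hv => by
  obtain ⟨r, hr, hne, e⟩ := (h.good_cj h1).fx v hv.1
  exact fun s hs => h.le_of_mem h1 h2 (C := MulAction.stabilizer (GA M) v) (fun t ht => hv.2 t ht) hr e hne hs

/-- The automorphisms trivial modulo `Y`. -/
def cntaCong (Y : AddSubgroup M) : Subgroup (GA M) where
  carrier := {g | ∀ v, g v - v ∈ Y}
  one_mem' v := by rw [ga_one, sub_self]; exact zero_mem _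
  mul_mem' {a b} ha hb v := by simpa [ga_mul] using add_mem (ha (b v)) (hb v)
  inv_mem' {a} ha v := by simpa [ga_apply_inv] using neg_mem (ha (a⁻¹ v))

theorem CH.com_le_sup (h : CH p q P X) (h1 : Cj X P R₁) (h2 : Cj X P R₂) :
    comA ⊤ R₁ ≤ comA ⊤ R₂ ⊔ fixA R₁ := by
  intro w hw
  by_contra hn
  have : NeZero p := ⟨(Fact.out : p.Prime).ne_zero⟩
  let _ : Module (ZMod p) M := AddCommGroup.zmodModule h.exp
  obtain ⟨f, hf, hle⟩ := Submodule.exists_le_ker_of_notMem (K := ZMod p)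
    (p := AddSubgroup.toZModSubmodule p (comA ⊤ R₂ ⊔ fixA R₁)) (v := w) hn
  have hY : comA ⊤ R₂ ⊔ fixA R₁ ≤ f.toAddMonoidHom.ker := fun v hv => hle hv
  have hi : (f.toAddMonoidHom.ker.relIndex (comA ⊤ R₁)).Prime := by
    have hd : f.toAddMonoidHom.ker.relIndex (comA ⊤ R₁) ∣ p := by
      rw [AddSubgroup.relIndex_ker]
      exact (AddSubgroup.card_addSubgroup_dvd_card _).trans (Nat.card_zmod p).dvd
    rcases (Nat.dvd_prime Fact.out).1 hd with e | e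
    · exact absurd (AddSubgroup.relIndex_eq_one.1 e hw) hf
    · rw [e]; exact Fact.out
  obtain ⟨r, hr, hne, e⟩ := (h.good_cj h1).dual _ (le_sup_right.trans hY) hi
  have := h.le_of_mem h1 h2 (C := cntaCong f.toAddMonoidHom.ker)
    (fun t ht v => hY (AddSubgroup.mem_sup_left (cnta_mem_com ht trivial))) hr e hne
  exact hf (cnta_com_le.2 (fun s hs v _ => this hs v) hw)

/-- The stabilizer of the chain `M ≥ H ≥ Z ≥ 0`. -/
def cntaStab (H Z : AddSubgroup M) : Subgroup (GA M) where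
  carrier := {g | (∀ v, g v - v ∈ H) ∧ (∀ v ∈ H, g v - v ∈ Z) ∧ ∀ v ∈ Z, g v = v}
  one_mem' := ⟨(cntaCong H).one_mem, fun v _ => (cntaCong Z).one_mem v, fun _ _ => rfl⟩
  mul_mem' {a b} ha hb := ⟨(cntaCong H).mul_mem ha.1 hb.1, fun v hv => by
    simpa [ga_mul] using add_mem (ha.2.1 (b v) (by simpa using add_mem (hb.1 v) hv)) (hb.2.1 v hv),
    fun v hv => by rw [ga_mul, hb.2.2 v hv, ha.2.2 v hv]⟩
  inv_mem' {a} ha := ⟨(cntaCong H).inv_mem ha.1, fun v hv => by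
    simpa [ga_apply_inv] using neg_mem (ha.2.1 (a⁻¹ v) (by
      simpa using add_mem ((cntaCong H).inv_mem ha.1 v) hv)),
    fun v hv => by conv_lhs => rw [← ha.2.2 v hv, ga_inv_apply]⟩

theorem cnta_pow {g : GA M} {v : M} (h : g (g v - v) = g v - v) (n : ℕ) : (g ^ n) v = v + n • (g v - v) := by
  induction n with
  | zero => rw [pow_zero, zero_smul, add_zero, ga_one]
  | succ n ih => rw [pow_succ', ga_mul, ih, map_add, map_nsmul, h, succ_nsmul]; abel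

theorem cnta_pgroup (he : ∀ v : M, p • v = 0) (H Z : AddSubgroup M) : IsPGroup p (cntaStab H Z) := by
  rintro ⟨g, hg⟩
  refine ⟨2, Subtype.ext (LinearEquiv.ext fun v => ?_)⟩
  have k : ∀ v ∈ H, (g ^ p) v = v := fun v hv => by rw [cnta_pow (hg.2.2 _ (hg.2.1 v hv)), he, add_zero]
  show (g ^ p ^ 2) v = v
  rw [pow_two, pow_mul, cnta_pow (k _ ((pow_mem hg p).1 v)), he, add_zero]

theorem CH.not_com_le (h : CH p q P X) (h1 : Cj X P R₁) (h2 : Cj X P R₂) (hne : R₁ ≠ R₂) :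
    ¬ comA ⊤ R₂ ≤ comA ⊤ R₁ := by
  intro hle
  have g1 := h.good_cj h1
  have g2 := h.good_cj h2
  have eH : comA ⊤ R₂ = comA ⊤ R₁ := AddSubgroup.eq_of_le_of_card_ge hle (by rw [g1.cH, g2.cH])
  have eZ : fixA R₂ = fixA R₁ := le_antisymm ((le_inf (g2.ZH.trans hle) le_rfl).trans (h.com_inf_fix h1 h2))
    ((le_inf (g1.ZH.trans eH.ge) le_rfl).trans (h.com_inf_fix h2 h1))
  have k : ∀ R : Subgroup (GA M), Good q R → R ≤ cntaStab (comA ⊤ R) (fixA R) := fun R g r hr =>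
    ⟨fun v => cnta_mem_com hr trivial, fun v hv => g.HZ (cnta_mem_com hr hv), fun v hv => hv r hr⟩
  have hT : IsPGroup p (cntaStab (comA ⊤ R₁) (fixA R₁) ⊓ X : Subgroup _) := (cnta_pgroup h.exp _ _).to_inf_left
  exact hne ((h.eq_of_le h1 hT (le_inf (k _ g1) (h.le h1)) inf_le_right).symm.trans
    (h.eq_of_le h2 hT (le_inf (eH ▸ eZ ▸ k _ g2) (h.le h2)) inf_le_right))

theorem CH.sub (h : CH p q P X) (h1 : Cj X P R₁) {L : Subgroup (GA M)} (hL : R₁ ≤ L) (hX : L ≤ X) :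
    CH p q R₁ L ∧ ∀ R, Cj L R₁ R ↔ Cj X P R ∧ R ≤ L := by
  have hc : CH p q R₁ L :=
    ⟨⟨hL, h.cnta_idx' h1 hL hX⟩, fun g hg => h.cnta_ti h1 g (hX hg), h.good_cj h1, h.exp, h.qp⟩
  refine ⟨hc, fun R => ⟨fun hR => ⟨?_, hc.le hR⟩, fun ⟨hR, hRL⟩ => ?_⟩⟩
  · obtain ⟨g, hg, rfl⟩ := hR
    exact h1.conj (hX hg)
  · obtain ⟨c, hc, e⟩ := h.cnta_exists h1 hL hX (h.isPGroup hR) hRL
    have h3 := h1.conj (hX hc)
    exact ⟨c, hc, (h.eq_of_le hR (h.isPGroup h3) e (h.le h3)).symm⟩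

/-- `P` acts freely on its other conjugates. -/
theorem CH.eq_one_of_norm (h : CH p q P X) (h1 : Cj X P R₁) (h2 : Cj X P R₂) (hne : R₁ ≠ R₂) {r : GA M}
    (r1 : r ∈ R₁) (hn : r ∈ normalizer (R₂ : Set (GA M))) : r = 1 := by
  by_contra hr
  have hT := ((h.isPGroup h1).to_le (zpowers_le.2 r1)).to_sup_of_normal_right' (h.isPGroup h2) (zpowers_le.2 hn)
  have e := h.eq_of_le h2 hT le_sup_right (sup_le (zpowers_le.2 (h.le h1 r1)) (h.le h2))
  exact hne (h.eq_of_mem h1 h2 r1 (e.le (mem_sup_left (mem_zpowers r))) hr)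

end Cfsg.Agent.U4F
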