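import Mathlib
import Cfsg.Agent.U4F.CntA

/-!
# The count
-/

set_option autoImplicit false
set_option linter.unusedSectionVars false
set_option linter.unusedVariables false

namespace Cfsg.Agent.U4F

open Cfsg Cfsg.FusionSystem Cfsg.Agent.Fus Subgroup

variable {M : Type*} [AddCommGroup M] [Finite M] {p q : ℕ} [Fact p.Prime] {P X R R₁ R₂ : Subgroup (GA M)}

theorem cs_family {α ι : Type*} [DecidableEq α] (Ω : Finset α) (I : Finset ι) (A : ι → Finset α) (h m : ℕ)
    (hA : ∀ i ∈ I, A i ⊆ Ω) (hh : ∀ i ∈ I, (A i).card = h)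
    (hm : ∀ i ∈ I, ∀ j ∈ I, i ≠ j → (A i ∩ A j).card ≤ m) :
    I.card * h ^ 2 ≤ Ω.card * (h + (I.card - 1) * m) := by
  classical
  have e0 : ∀ B : Finset α, B ⊆ Ω → ∑ u ∈ Ω, (if u ∈ B then 1 else 0 : ℕ) = B.card := fun B hB => by
    rw [← Finset.card_filter, Finset.filter_mem_eq_inter, Finset.inter_eq_right.2 hB]
  have e1 : ∑ u ∈ Ω, ∑ i ∈ I, (if u ∈ A i then 1 else 0 : ℕ) = I.card * h := by
    rw [Finset.sum_comm, Finset.sum_congr rfl fun i hi => (e0 _ (hA i hi)).trans (hh i hi)]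
    simp
  have e2 : ∑ u ∈ Ω, (∑ i ∈ I, (if u ∈ A i then 1 else 0 : ℕ)) ^ 2 =
      ∑ i ∈ I, ∑ j ∈ I, (A i ∩ A j).card := by
    simp only [sq, Finset.sum_mul_sum]
    rw [Finset.sum_comm]
    refine Finset.sum_congr rfl fun i hi => ?_
    rw [Finset.sum_comm]
    refine Finset.sum_congr rfl fun j _ => ?_
    rw [← e0 _ (Finset.inter_subset_left.trans (hA i hi))]
    refine Finset.sum_congr rfl fun u _ => ?_
    by_cases h1 : u ∈ A i <;> by_cases h2 : u ∈ A j <;> simp [h1, h2]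
  have e3 : ∑ i ∈ I, ∑ j ∈ I, (A i ∩ A j).card ≤ I.card * (h + (I.card - 1) * m) := by
    rw [← smul_eq_mul]
    refine Finset.sum_le_card_nsmul _ _ _ fun i hi => ?_
    rw [← Finset.add_sum_erase _ _ hi, Finset.inter_self, hh i hi, ← Finset.card_erase_of_mem hi,
      ← smul_eq_mul]
    exact Nat.add_le_add_left (Finset.sum_le_card_nsmul _ _ _ fun j hj =>
      hm i hi j (Finset.mem_of_mem_erase hj) (Finset.ne_of_mem_erase hj).symm) _
  have e4 := sq_sum_le_card_mul_sum_sq (s := Ω) (f := fun u => ∑ i ∈ I, (if u ∈ A i then 1 else 0 : ℕ))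
  rw [e1, e2] at e4
  rcases Nat.eq_zero_or_pos I.card with h0 | h0
  · simp [h0]
  refine Nat.le_of_mul_le_mul_left ?_ h0
  calc I.card * (I.card * h ^ 2) = (I.card * h) ^ 2 := by ring
    _ ≤ Ω.card * (I.card * (h + (I.card - 1) * m)) := e4.trans (Nat.mul_le_mul_left _ e3)
    _ = _ := by ring

theorem cntb_sup_inf (A B : AddSubgroup M) :
    Nat.card ↥(A ⊔ B) * Nat.card ↥(A ⊓ B) = Nat.card A * Nat.card B := by
  have key : ∀ C D : AddSubgroup M, Nat.card ↥(C ⊓ D) * C.relIndex D = Nat.card D := fun C D => by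
    rw [← (C.addSubgroupOf D).card_mul_index, ← AddSubgroup.inf_addSubgroupOf_right,
      Nat.card_congr (AddSubgroup.addSubgroupOfEquivOfLe (inf_le_right : C ⊓ D ≤ D)).toEquiv,
      AddSubgroup.inf_addSubgroupOf_right]
    rfl
  have h1 := key B (A ⊔ B)
  have h2 := key B A
  rw [AddSubgroup.relIndex_sup_right, inf_eq_left.2 le_sup_right] at h1
  rw [← h1, ← h2, inf_comm]
  ring

theorem cntb_arith {d z k W : ℤ} (hd : 0 < d) (hz : 1 < z) (hk : (d * z) ^ 2 ≤ k)
    (hW : W + d + (k + 1) * (d * z - d) = d ^ 3 * z ^ 4)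
    (h : (k + 1) * ((d * z) ^ 3 - d * z) ^ 2 ≤ W * ((d * z) ^ 3 - d * z + k * (d * (d * z) ^ 2 - d))) :
    d = 1 ∧ k = (d * z) ^ 2 := by
  have h0 : 1 < d * z := by nlinarith
  have h1 : 0 < d ^ 2 * ((d * z) ^ 2 - 1) * (z - 1) :=
    mul_pos (mul_pos (by positivity) (by nlinarith)) (by omega)
  have h2 : 0 ≤ d ^ 2 * ((d * z) ^ 2 - 1) * (z - 1) * ((z * (d * z)) ^ 2 - k ^ 2) := by
    obtain rfl : W = d ^ 3 * z ^ 4 - d - (k + 1) * (d * z - d) := by linarith
    linarith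
  have h3 : k ^ 2 ≤ (z * (d * z)) ^ 2 := sub_nonneg.1 (nonneg_of_mul_nonneg_right h2 h1 |>.trans_eq rfl)
  have h4 : k ≤ z * (d * z) := abs_le_of_sq_le_sq' h3 (by positivity) |>.2
  have h5 : d = 1 := by
    by_contra H
    have : 2 ≤ d := by omega
    nlinarith [mul_pos (mul_pos (by omega : (0 : ℤ) < z) (by omega : (0 : ℤ) < d * z)) (by omega : 0 < d - 1)]
  subst h5
  exact ⟨rfl, le_antisymm (by linarith) hk⟩

theorem cntb_conj_conj (g k : GA M) (R : Subgroup (GA M)) :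
    (R.map (MulAut.conj k).toMonoidHom).map (MulAut.conj g).toMonoidHom =
      R.map (MulAut.conj (g * k)).toMonoidHom := by
  rw [map_map, map_mul]
  rfl

/-- `P` acts freely on the conjugates different from it. -/
theorem CH.conj_inj (h : CH p q P X) (hR : Cj X P R) (hne : R ≠ P) :
    (∀ s ∈ P, Cj X P (R.map (MulAut.conj s).toMonoidHom) ∧ R.map (MulAut.conj s).toMonoidHom ≠ P) ∧
      Function.Injective fun s : P => R.map (MulAut.conj s.1).toMonoidHom := by
  have e1 : ∀ T : Subgroup (GA M), T.map (MulAut.conj (1 : GA M)).toMonoidHom = T := fun T =>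
    map_conj_eq_iff.2 (one_mem _)
  refine ⟨fun s hs => ⟨hR.conj (h.syl.le hs), fun H => hne ?_⟩, fun s t H => ?_⟩
  · rw [← e1 R, ← inv_mul_cancel s, ← cntb_conj_conj, H]
    exact map_conj_eq_iff.2 (le_normalizer (inv_mem hs))
  · have H' : R.map (MulAut.conj s.1).toMonoidHom = R.map (MulAut.conj t.1).toMonoidHom := H
    have : R.map (MulAut.conj (t.1⁻¹ * s.1)).toMonoidHom = R := by
      rw [← cntb_conj_conj, H', cntb_conj_conj, inv_mul_cancel, e1]
    have := h.eq_one_of_norm (Cj.refl X P) hR hne.symm (mul_mem (inv_mem t.2) s.2) (map_conj_eq_iff.1 this)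
    exact Subtype.ext (inv_mul_eq_one.1 this).symm

theorem CH.family (h : CH p q P X) {D U : AddSubgroup M}
    (hD : ∀ R R', Cj X P R → Cj X P R' → R ≠ R' → fixA R ⊓ fixA R' = D)
    (hU : ∀ R, Cj X P R → comA ⊤ R ≤ U) (hc : Nat.card U * Nat.card D = q ^ 4)
    (hn : ∃ g ∈ X, g ∉ normalizer (P : Set (GA M))) :
    D = ⊥ ∧ Nat.card {R // Cj X P R} = q ^ 2 + 1 := by
  classical
  have := Fintype.ofFinite M
  have := Fintype.ofFinite (Subgroup (GA M))
  have := Fintype.ofFinite P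
  obtain ⟨g, hg, hgn⟩ := hn
  have hP := Cj.refl X P
  have hR₀ := hP.conj hg
  have hne : P.map (MulAut.conj g).toMonoidHom ≠ P := fun H => hgn (map_conj_eq_iff.1 H)
  generalize P.map (MulAut.conj g).toMonoidHom = R₀ at hR₀ hne
  let I : Finset (Subgroup (GA M)) := Finset.univ.filter (Cj X P)
  have hI : ∀ R, R ∈ I ↔ Cj X P R := fun R => by simp [I]
  have cI : Nat.card {R // Cj X P R} = I.card := by
    rw [Nat.card_eq_fintype_card, Fintype.card_subtype]
  obtain ⟨k, hk⟩ : ∃ k, I.card = k + 1 :=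
    ⟨I.card - 1, (Nat.sub_add_cancel (Finset.card_pos.2 ⟨P, (hI P).2 hP⟩)).symm⟩
  have hk1 : q ^ 2 ≤ k := by
    obtain ⟨h1, h2⟩ := h.conj_inj hR₀ hne
    have := Finset.card_le_card_of_injOn (s := Finset.univ) (t := I.erase P) _
      (fun s _ => Finset.mem_coe.2 (Finset.mem_erase.2 ⟨(h1 s.1 s.2).2, (hI _).2 (h1 s.1 s.2).1⟩)) h2.injOn
    rwa [Finset.card_erase_of_mem ((hI P).2 hP), hk, Finset.card_univ, ← Nat.card_eq_fintype_card,
      h.good.cR] at this
  let S : AddSubgroup M → Finset M := fun A => Finset.univ.filter (· ∈ A)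
  have hS : ∀ A v, v ∈ S A ↔ v ∈ A := fun A v => by simp [S]
  have cS : ∀ A, (S A).card = Nat.card A := fun A => by
    rw [Nat.card_eq_fintype_card, Fintype.card_subtype]
  have sS : ∀ {A B}, A ≤ B → S A ⊆ S B := fun H v hv => (hS _ v).2 (H ((hS _ v).1 hv))
  have hDZ : ∀ R, Cj X P R → D ≤ fixA R := fun R hR => by
    by_cases H : R = P
    · exact (hD R R₀ hR hR₀ (H ▸ hne.symm)).symm ▸ inf_le_left
    · exact (hD R P hR hP H).symm ▸ inf_le_left
  have hHZ : ∀ R R', Cj X P R → Cj X P R' → R ≠ R' → comA ⊤ R ⊓ fixA R' = D := fun R R' a b c =>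
    le_antisymm (hD R R' a b c ▸ le_inf (h.com_inf_fix a b) inf_le_right)
      (le_inf ((hDZ R a).trans (h.good_cj a).ZH) (hDZ R' b))
  have hq : 0 < q := h.good.cZ ▸ Nat.card_pos
  have hHH : ∀ R R', Cj X P R → Cj X P R' → R ≠ R' →
      Nat.card ↥(comA ⊤ R ⊓ comA ⊤ R') = Nat.card D * q ^ 2 := fun R R' a b c => by
    have e1 : comA ⊤ R ⊔ comA ⊤ R' = comA ⊤ R' ⊔ fixA R :=
      le_antisymm (sup_le (h.com_le_sup a b) le_sup_left)
        (sup_le le_sup_right ((h.good_cj a).ZH.trans le_sup_left))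
    have e2 := cntb_sup_inf (comA ⊤ R') (fixA R)
    have e3 := cntb_sup_inf (comA ⊤ R) (comA ⊤ R')
    rw [hHZ R' R b a c.symm, (h.good_cj b).cH, (h.good_cj a).cZ] at e2
    rw [e1, (h.good_cj b).cH, (h.good_cj a).cH] at e3
    refine Nat.eq_of_mul_eq_mul_left (Nat.card_pos (α := ↥(comA ⊤ R' ⊔ fixA R))) ?_
    rw [e3, ← mul_assoc, e2]
    ring
  obtain ⟨z, hz⟩ := AddSubgroup.card_dvd_of_le (hDZ P hP)
  rw [h.good.cZ] at hz
  have hd : 0 < Nat.card D := Nat.card_pos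
  have hz1 : 1 < z := by
    by_contra H
    have : z = 1 := by
      rcases Nat.eq_zero_or_pos z with rfl | h0 <;> omega
    have e : D = fixA P := AddSubgroup.eq_of_le_of_card_ge (hDZ P hP) (by rw [h.good.cZ, hz, this, mul_one])
    refine h.not_com_le hR₀ hP hne ((h.com_le_sup hP hR₀).trans (sup_le le_rfl ?_))
    exact e ▸ (hDZ R₀ hR₀).trans (h.good_cj hR₀).ZH
  let B : Finset M := S D ∪ I.biUnion fun R => S (fixA R) \ S D
  have cB : B.card = Nat.card D + (k + 1) * (q - Nat.card D) := by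
    rw [Finset.card_union_of_disjoint, cS, Finset.card_biUnion, ← hk, ← smul_eq_mul, ← Finset.sum_const]
    · refine congrArg _ (Finset.sum_congr rfl fun R hR => ?_)
      rw [Finset.card_sdiff_of_subset (sS (hDZ R ((hI R).1 hR))), cS, cS, (h.good_cj ((hI R).1 hR)).cZ]
    · intro R hR R' hR' H
      refine Finset.disjoint_left.2 fun v h1 h2 => ?_
      simp only [Finset.mem_sdiff, hS] at h1 h2
      exact h1.2 (hD R R' ((hI R).1 hR) ((hI R').1 hR') H ▸ (⟨h1.1, h2.1⟩ : v ∈ fixA R ⊓ fixA R'))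
    · exact (Finset.disjoint_biUnion_right _ _ _).2 fun R _ => Finset.disjoint_sdiff
  have hBU : B ⊆ S U := Finset.union_subset (sS ((hDZ P hP).trans (h.good.ZH.trans (hU P hP))))
    (Finset.biUnion_subset.2 fun R hR => Finset.sdiff_subset.trans
      (sS ((h.good_cj ((hI R).1 hR)).ZH.trans (hU R ((hI R).1 hR)))))
  have key := cs_family (S U \ B) I (fun R => S (comA ⊤ R) \ S (fixA R)) (q ^ 3 - q)
    (Nat.card D * q ^ 2 - Nat.card D) (fun R hR v hv => ?_) (fun R hR => ?_) fun R hR R' hR' H => ?_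
  · have e1 := Finset.card_sdiff_add_card_eq_card hBU
    rw [cB, cS] at e1
    have e2 : Nat.card U = Nat.card D ^ 3 * z ^ 4 :=
      Nat.eq_of_mul_eq_mul_right hd (by rw [hc, hz]; ring)
    rw [hk, Nat.add_sub_cancel] at key
    have l1 : q ≤ q ^ 3 := Nat.le_self_pow (by omega) _
    have l2 : Nat.card D ≤ Nat.card D * q ^ 2 := Nat.le_mul_of_pos_right _ (by positivity)
    have l3 : Nat.card D ≤ q := hz ▸ Nat.le_mul_of_pos_right _ (by omega)
    zify [l1, l2, l3] at key e1 e2 hk1 hz hz1 hd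
    rw [hz] at key e1 hk1
    obtain ⟨r1, r2⟩ := cntb_arith hd hz1 hk1 (by linarith) key
    rw [← hz] at r2
    refine ⟨AddSubgroup.card_eq_one.1 (by exact_mod_cast r1), ?_⟩
    rw [cI, hk]
    exact congrArg (· + 1) (by exact_mod_cast r2)
  · have a := (hI R).1 hR
    simp only [B, Finset.mem_sdiff, Finset.mem_union, Finset.mem_biUnion, hS] at hv ⊢
    refine ⟨hU R a hv.1, ?_⟩
    rintro (H | ⟨R', hR', H, -⟩)
    · exact hv.2 (hDZ R a H)
    · exact hv.2 (h.com_inf_fix a ((hI R').1 hR') ⟨hv.1, H⟩)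
  · have a := h.good_cj ((hI R).1 hR)
    rw [Finset.card_sdiff_of_subset (sS a.ZH), cS, cS, a.cH, a.cZ]
  · have a := (hI R).1 hR
    have b := (hI R').1 hR'
    rw [← hHH R R' a b H, ← cS, ← cS, ← Finset.card_sdiff_of_subset (sS (le_inf
      ((hDZ R a).trans (h.good_cj a).ZH) ((hDZ R' b).trans (h.good_cj b).ZH)))]
    refine Finset.card_le_card fun v hv => ?_
    simp only [Finset.mem_inter, Finset.mem_sdiff, hS] at hv ⊢
    exact ⟨⟨hv.1.1, hv.2.1⟩, fun H => hv.1.2 (hDZ R a H)⟩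

end Cfsg.Agent.U4F
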