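import Mathlib
import Cfsg.Agent.U4F.CntB

/-!
# Tangency and double transitivity
-/

set_option autoImplicit false
set_option linter.unusedSectionVars false
set_option linter.unusedVariables false

namespace Cfsg.Agent.U4F

open Cfsg Cfsg.FusionSystem Cfsg.Agent.Fus Subgroup

variable {M : Type*} [AddCommGroup M] [Finite M] {p q : ℕ} [Fact p.Prime] {P X R R₁ R₂ : Subgroup (GA M)}

/-- The elements acting trivially on `M / U`. -/
def cntcC (U : AddSubgroup M) : Subgroup (GA M) where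
  carrier := {g | ∀ v, g v - v ∈ U}
  one_mem' v := by simp [ga_one]
  mul_mem' {a b} ha hb v := by
    have := U.add_mem (ha (b v)) (hb v)
    rwa [sub_add_sub_cancel] at this
  inv_mem' {a} ha v := by
    have := U.neg_mem (ha (a⁻¹ v))
    rwa [ga_apply_inv, neg_sub] at this

/-- The elements fixing `D` pointwise. -/
def cntcF (D : AddSubgroup M) : Subgroup (GA M) where
  carrier := {g | ∀ v ∈ D, g v = v}
  one_mem' _ _ := rfl
  mul_mem' {a b} ha hb v hv := by rw [ga_mul, hb v hv, ha v hv]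
  inv_mem' {a} ha v hv := by
    conv_lhs => rw [← ha v hv]
    exact ga_inv_apply a v

theorem cntc_le {U : AddSubgroup M} : R ≤ cntcC U ↔ comA ⊤ R ≤ U := by
  refine ⟨fun h => (AddSubgroup.closure_le _).2 ?_, fun h r hr v => h ?_⟩
  · rintro _ ⟨r, hr, v, -, rfl⟩
    exact h hr v
  · exact AddSubgroup.subset_closure ⟨r, hr, v, trivial, rfl⟩

theorem CH.exists_not_norm (h : CH p q P X) (h1 : Cj X P R₁) (h2 : Cj X P R₂) (hne : R₁ ≠ R₂) :
    ∃ g ∈ R₂, g ∉ normalizer (R₁ : Set (GA M)) := by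
  by_contra H
  push Not at H
  have h3 : R₂ = ⊥ := eq_bot_iff.2 fun r hr => h.eq_one_of_norm h2 h1 hne.symm hr (H r hr)
  exact hne ((h.eq_of_le h2 (h.isPGroup h1) (h3 ▸ bot_le) (h.le h1)))

theorem CH.fix_inf_fix (h : CH p q P X) (h1 : Cj X P R₁) (h2 : Cj X P R₂) (hne : R₁ ≠ R₂) :
    fixA R₁ ⊓ fixA R₂ = ⊥ := by
  have hfin : Set.Finite {x : Subgroup (GA M) × Subgroup (GA M) |
      Cj X P x.1 ∧ Cj X P x.2 ∧ x.1 ≠ x.2} := Set.toFinite _
  obtain ⟨⟨A, B⟩, ⟨hA, hB, hAB⟩, hmax⟩ := hfin.exists_maximalFor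
    (fun x => Nat.card ↥(fixA x.1 ⊓ fixA x.2)) _ ⟨(R₁, R₂), h1, h2, hne⟩
  have hm : ∀ R R', Cj X P R → Cj X P R' → R ≠ R' →
      Nat.card ↥(fixA R ⊓ fixA R') ≤ Nat.card ↥(fixA A ⊓ fixA B) := fun R R' a b c => by
    by_contra H
    exact H (hmax (j := (R, R')) ⟨a, b, c⟩ (not_le.1 H).le)
  obtain ⟨h3, h4⟩ := h.sub hA (le_sup_left : A ≤ A ⊔ B) (sup_le (h.le hA) (h.le hB))
  have hF : A ⊔ B ≤ cntcF (fixA A ⊓ fixA B) :=
    sup_le (fun r hr v hv => hv.1 r hr) fun r hr v hv => hv.2 r hr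
  have hC : A ⊔ B ≤ cntcC (comA ⊤ A ⊔ comA ⊤ B) :=
    sup_le (cntc_le.2 le_sup_left) (cntc_le.2 le_sup_right)
  have hZ : ∀ R, R ≤ A ⊔ B → fixA A ⊓ fixA B ≤ fixA R := fun R hR v hv r hr => hF (hR hr) v hv
  obtain ⟨g, hg, hgn⟩ := h.exists_not_norm hA hB hAB
  have e1 : comA ⊤ A ⊔ comA ⊤ B = comA ⊤ B ⊔ fixA A :=
    le_antisymm (sup_le (h.com_le_sup hA hB) le_sup_left)
      (sup_le le_sup_right ((h.good_cj hA).ZH.trans le_sup_left))
  have e2 : comA ⊤ B ⊓ fixA A = fixA A ⊓ fixA B :=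
    le_antisymm (le_inf inf_le_right (h.com_inf_fix hB hA))
      (le_inf (inf_le_right.trans (h.good_cj hB).ZH) inf_le_left)
  have key := (h3.family (D := fixA A ⊓ fixA B) (U := comA ⊤ A ⊔ comA ⊤ B) (fun R R' a b c => by
    obtain ⟨a1, a2⟩ := (h4 R).1 a
    obtain ⟨b1, b2⟩ := (h4 R').1 b
    exact (AddSubgroup.eq_of_le_of_card_ge (le_inf (hZ R a2) (hZ R' b2)) (hm R R' a1 b1 c)).symm)
    (fun R a => cntc_le.1 (((h4 R).1 a).2.trans hC))
    (by rw [e1, ← e2, cntb_sup_inf, (h.good_cj hB).cH, (h.good_cj hA).cZ]; ring)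
    ⟨g, mem_sup_right hg, hgn⟩).1
  have := hm R₁ R₂ h1 h2 hne
  rw [key, AddSubgroup.card_bot] at this
  exact (AddSubgroup.card_le_one_iff_eq_bot _).1 this

theorem CH.tan (h : CH p q P X) (h1 : Cj X P R₁) (h2 : Cj X P R₂) (hne : R₁ ≠ R₂) :
    fixA R₁ ⊓ comA ⊤ R₂ = ⊥ :=
  eq_bot_iff.2 (h.fix_inf_fix h1 h2 hne ▸ le_inf inf_le_left
    ((inf_comm _ _).le.trans (h.com_inf_fix h2 h1)))

theorem CH.two (h : CH p q P X) {g₀ : GA M} (hg : g₀ ∈ X) (hn : g₀ ∉ normalizer (P : Set (GA M))) :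
    Two P X g₀ := by
  classical
  intro g hgX
  have hP := Cj.refl X P
  have hc := (h.family (D := ⊥) (U := ⊤) (fun R R' a b c => h.fix_inf_fix a b c) (fun _ _ => le_top)
    (by rw [AddSubgroup.card_bot, AddSubgroup.card_top, mul_one, h.good.cM]) ⟨g₀, hg, hn⟩).2
  obtain ⟨h1, h2⟩ := h.conj_inj (hP.conj hg) fun H => hn (map_conj_eq_iff.1 H)
  by_cases hgn : g ∈ normalizer (P : Set (GA M))
  · exact Or.inl hgn
  let f : Option P → {R // Cj X P R} := fun o =>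
    o.elim ⟨P, hP⟩ fun s => ⟨_, (h1 s.1 s.2).1⟩
  have hf : Function.Injective f := by
    rintro (_ | s) (_ | t) H
    · rfl
    · exact absurd (congrArg Subtype.val H).symm (h1 t.1 t.2).2
    · exact absurd (congrArg Subtype.val H) (h1 s.1 s.2).2
    · exact congrArg some (h2 (congrArg Subtype.val H))
  have hb : Function.Bijective f :=
    hf.bijective_of_nat_card_le (by rw [hc, Finite.card_option, h.good.cR])
  obtain ⟨_ | s, hs⟩ := hb.2 ⟨_, hP.conj hgX⟩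
  · exact absurd (map_conj_eq_iff.1 (congrArg Subtype.val hs).symm) hgn
  · refine Or.inr ⟨s, s.2, map_conj_eq_iff.1 ?_⟩
    have e : (P.map (MulAut.conj g₀).toMonoidHom).map (MulAut.conj s.1).toMonoidHom =
      P.map (MulAut.conj g).toMonoidHom := congrArg Subtype.val hs
    rw [← cntb_conj_conj, ← e, cntb_conj_conj, cntb_conj_conj, mul_assoc _ s.1,
      inv_mul_cancel]
    exact map_conj_eq_iff.2 (one_mem _)

end Cfsg.Agent.U4F
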