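import Mathlib
import Cfsg.Agent.U4F.Grp
import Cfsg.Agent.U4F.CntC

/-!
# The count for `P` on `V`
-/

set_option autoImplicit false
set_option linter.unusedSectionVars false
set_option linter.unusedVariables false

namespace Cfsg.Agent.U4F

open Cfsg Cfsg.FusionSystem Cfsg.Agent.Fus Subgroup

variable {K : Type*} [Field K] [StarRing K] [UF K] {p : ℕ} [Fact p.Prime] [CharP K p]

theorem mem_fix_PP {v : Hm K} : v ∈ fixA (PP K) ↔ v.b = 0 ∧ v.c = 0 := by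
  constructor
  · intro h
    have hc : v.c = 0 := by simpa using congrArg Hm.b (h _ ⟨1, rfl⟩)
    exact ⟨tr_nondeg fun x => by simpa [hc] using congrArg Hm.a (h _ ⟨x, rfl⟩), hc⟩
  · rintro ⟨hb, hc⟩ _ ⟨x, rfl⟩
    ext <;> simp [hb, hc]

theorem goodp_com {U : AddSubgroup (Hm K)} (hU : ∀ v : Hm K, v.c = 0 → v ∈ U) {w : Hm K} (hw : w ∈ U) (hc : w.c ≠ 0)
    {v : Hm K} (hv : v.c = 0) : v ∈ comA U (PP K) := by
  have k : ∀ x, ∀ y ∈ U, uu x y - y ∈ comA U (PP K) := fun x y hy =>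
    AddSubgroup.subset_closure ⟨uu x, ⟨x, rfl⟩, y, hy, rfl⟩
  obtain ⟨b, e⟩ := tr_surj (K := K) one_ne_zero (v - (uu (v.b / w.c) w - w)).ha
  have := add_mem (k (v.b / w.c) w hw) (k 1 ⟨0, b, 0, by simp, by simp⟩ (hU _ rfl))
  convert this using 1
  ext
  · simp only [sub_a, add_a, uu_a] at e ⊢
    linear_combination -e
  · simp [hc]
  · simp [hv]

theorem mem_com_PP {v : Hm K} : v ∈ comA ⊤ (PP K) ↔ v.c = 0 := by
  constructor
  · intro h
    induction h using AddSubgroup.closure_induction with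
    | mem _ h => obtain ⟨_, ⟨x, rfl⟩, w, -, rfl⟩ := h; simp
    | zero => rfl
    | add _ _ _ _ a b => simp [a, b]
    | neg _ _ a => simp [a]
  · exact goodp_com (U := ⊤) (w := ⟨0, 0, 1, by simp, by simp⟩) (fun _ _ => trivial) trivial one_ne_zero

theorem goodp_char {A : Type*} [AddCommGroup A] (h : (Nat.card A).Prime) :
    ∃ ψ : AddChar A ℂ, ∀ a, ψ a = 1 → a = 0 := by
  have : Finite A := Nat.finite_of_card_ne_zero h.ne_zero
  have : Nontrivial A := Finite.one_lt_card_iff_nontrivial.1 h.one_lt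
  have := Fact.mk h
  obtain ⟨a₀, h0⟩ := exists_ne (0 : A)
  obtain ⟨ψ, hψ⟩ := AddChar.exists_apply_ne_zero.2 h0
  refine ⟨ψ, fun a e => by_contra fun ha => hψ ?_⟩
  obtain ⟨k, rfl⟩ : a₀ ∈ AddSubgroup.zmultiples a := mem_zmultiples_of_prime_card rfl ha
  simp only [AddChar.map_zsmul_eq_zpow, e, one_zpow]

theorem goodp_line {A : Type*} [AddCommGroup A] (h : (Nat.card A).Prime) (π : K →+ A) :
    ∃ u : K, u ≠ 0 ∧ ∀ t, star t = t → π (u * t) = 0 := by
  obtain ⟨ψ, hψ⟩ := goodp_char h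
  let f : K → AddChar (selfAdjoint K) ℂ := fun u =>
    ψ.compAddMonoidHom (π.comp ((AddMonoidHom.mulLeft u).comp (selfAdjoint K).subtype))
  have hf : ¬ Function.Injective f := fun hi => by
    have := Fintype.ofFinite (selfAdjoint K)
    have h1 := Nat.card_le_card_of_injective f hi
    rw [Nat.card_eq_fintype_card (α := AddChar _ _), AddChar.card_eq, ← Nat.card_eq_fintype_card, card_K] at h1
    exact absurd (qq_pow_lt K (show 1 < 2 by norm_num)) (not_lt.2 (h1.trans (pow_one (qq K)).ge))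
  obtain ⟨u, w, e, ne⟩ := Function.not_injective_iff.1 hf
  refine ⟨u - w, sub_ne_zero.2 ne, fun t ht => hψ _ ?_⟩
  have e' : ψ (π (u * t)) = ψ (π (w * t)) := DFunLike.congr_fun e ⟨t, ht⟩
  rw [sub_mul, map_sub, AddChar.map_sub_eq_div, e', div_self (ψ.val_isUnit _).ne_zero]

variable (K) in
theorem good_PP : Good (qq K) (PP K) where
  cM := card_Hm K
  cR := card_PP K
  cZ := (grp_card_of (β := Zs K) (fun v => ⟨jv v.1, rfl, (mem_fix_PP.1 v.2).2, (mem_fix_PP.1 v.2).1⟩)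
    (fun g => ⟨g.1.v, mem_fix_PP.2 ⟨g.2.2.2, g.2.2.1⟩⟩) (fun _ => rfl)
    fun g => Subtype.ext (eq_jv g.2.1).symm).trans (card_Zs K)
  cH := (grp_card_of (β := Hs K) (fun v => ⟨jv v.1, rfl, mem_com_PP.1 v.2⟩)
    (fun g => ⟨g.1.v, mem_com_PP.2 g.2.2⟩) (fun _ => rfl) fun g => Subtype.ext (eq_jv g.2.1).symm).trans (card_Hs K)
  HZ := (AddSubgroup.closure_le _).2 (by
    rintro _ ⟨_, ⟨x, rfl⟩, v, hv, rfl⟩
    exact mem_fix_PP.2 (by simp [mem_com_PP.1 hv]))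
  ZH := fun _ hv => mem_com_PP.2 (mem_fix_PP.1 hv).2
  fx := fun v hv => by
    obtain ⟨y, hy, e⟩ := exists_perp v.b
    refine ⟨uu y, ⟨y, rfl⟩, fun h => hy (uu_inj (h.trans uu_zero.symm)), ?_⟩
    ext
    · simp only [uu_a, mem_com_PP.1 hv]
      linear_combination e
    · simp [mem_com_PP.1 hv]
    · rfl
  dual := fun Y hZ hp => by
    let j : K →+ comA ⊤ (PP K) := AddMonoidHom.mk' (fun b => ⟨⟨0, b, 0, by simp, by simp⟩, mem_com_PP.2 rfl⟩)
      fun _ _ => Subtype.ext (by ext <;> simp)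
    obtain ⟨u, hu, e⟩ := goodp_line (A := comA ⊤ (PP K) ⧸ Y.addSubgroupOf (comA ⊤ (PP K))) hp
      ((QuotientAddGroup.mk' _).comp j)
    refine ⟨uu u, ⟨u, rfl⟩, fun h => hu (uu_inj (h.trans uu_zero.symm)), fun v => ?_⟩
    have h1 : (j (u * v.c)).1 ∈ Y :=
      AddSubgroup.mem_addSubgroupOf.1 ((QuotientAddGroup.eq_zero_iff (j (u * v.c))).1 (e v.c v.hc))
    have h2 : uu u v - v - (j (u * v.c)).1 ∈ Y := hZ (mem_fix_PP.2 (by simp [j]))
    simpa using add_mem h2 h1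
  big := fun U h1 h2 v hv => by
    obtain ⟨w, hw, hn⟩ := SetLike.not_le_iff_exists.1 h2
    exact goodp_com (fun v hv => h1 (mem_com_PP.2 hv)) hw (fun e => hn (mem_com_PP.2 e)) (mem_com_PP.1 hv)

theorem ch_PP {X : Subgroup (GA (Hm K))} (hs : Syl p (PP K) X) (ht : TI (PP K) X) :
    CH p (qq K) (PP K) X := ⟨hs, ht, good_PP K, hm_exp p, qq_pow K p⟩

theorem tan_PP {X : Subgroup (GA (Hm K))} (hs : Syl p (PP K) X) (ht : TI (PP K) X) : Tan X := by
  intro g hg hn v hb hc e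
  have h := (ch_PP hs ht).tan ⟨g, hg, rfl⟩ (Cj.refl X _) fun e => hn (map_conj_eq_iff.1 e)
  have : g v ∈ (⊥ : AddSubgroup (Hm K)) := h ▸ ⟨mem_fixA_map.2 (mem_fix_PP.2 ⟨hb, hc⟩), mem_com_PP.2 e⟩
  exact g.map_eq_zero_iff.1 this

theorem wv_apply (v : Hm K) : (wv K v).a = v.c ∧ (wv K v).b = -star v.b ∧ (wv K v).c = v.a := by
  refine ⟨?_, ?_, ?_⟩ <;> simp [wv] <;> ring

variable (K) in
theorem wv_not_mem : wv K ∉ normalizer (PP K : Set (GA (Hm K))) := fun h => by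
  obtain ⟨x, e⟩ : wv K * uu 1 * (wv K)⁻¹ ∈ PP K := (mem_normalizer_iff.1 h _).1 ⟨1, rfl⟩
  have := congrArg Hm.c (LinearEquiv.congr_fun e (wv K ⟨0, 0, 1, by simp, by simp⟩))
  rw [ga_mul, ga_mul, ga_inv_apply, uu_c, (wv_apply _).2.2, (wv_apply _).2.2] at this
  simp at this

end Cfsg.Agent.U4F
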