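import Mathlib
import Cfsg.Agent.U4F.AutS
import Cfsg.Agent.GT.SchurZassenhaus

/-!
# Normalizing `Aut_F(S)`
-/

set_option autoImplicit false
set_option linter.unusedSectionVars false
set_option linter.unusedVariables false

namespace Cfsg.Agent.U4F

open Cfsg Cfsg.FusionSystem Cfsg.Agent.Fus Subgroup
open scoped Pointwise

variable {K : Type*} [Field K] [StarRing K] [UF K] {p : ℕ} [Fact p.Prime] [CharP K p]

variable (K) in
/-- The inner automorphisms. -/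
def norm_I : Subgroup (MulAut (UG K)) := (MulAut.conj : UG K →* MulAut (UG K)).range

theorem norm_I_normal : (norm_I K).Normal := ⟨by
  rintro _ ⟨s, rfl⟩ β
  exact ⟨β s, MulEquiv.ext fun x => by simp⟩⟩

variable (K p) in
theorem norm_I_p : IsPGroup p (norm_I K) :=
  (isPGroup_UG K p).of_surjective _ (MulAut.conj : UG K →* MulAut (UG K)).rangeRestrict_surjective

theorem norm_I_le (F : FS K) : norm_I K ≤ AF F := by
  rintro _ ⟨s, rfl⟩
  exact conj_mem_AF F s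

theorem norm_I_le_Kg : norm_I K ≤ Kg K := by
  rintro _ ⟨s, rfl⟩
  exact conj_mem_Kg s

theorem norm_idx {F : FS K} (hF : F.IsSaturated p) : ¬ p ∣ (norm_I K).relIndex (AF F) := by
  haveI := norm_I_normal (K := K)
  obtain ⟨P⟩ : Nonempty (Sylow p (AF F)) := inferInstance
  have h : (P : Subgroup (AF F)) ≤ (norm_I K).subgroupOf (AF F) := fun α hα => by
    obtain ⟨k, hk⟩ := P.isPGroup' ⟨α, hα⟩
    obtain ⟨s, hs⟩ := inner_of_pow hF α.2 (k := k)
      (congrArg (fun x : (P : Subgroup (AF F)) => ((x : AF F) : MulAut (UG K))) hk)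
    exact ⟨s, hs.symm⟩
  exact fun hd => P.not_dvd_index (hd.trans (index_dvd_of_le h))

theorem norm_cop {A B : Subgroup (MulAut (UG K))} (hA : IsPGroup p A) (hB : ¬ p ∣ Nat.card B) :
    (Nat.card A).Coprime (Nat.card B) := by
  obtain ⟨n, hn⟩ := hA.exists_card_eq
  rw [hn]
  exact ((Nat.Prime.coprime_iff_not_dvd Fact.out).2 hB).pow_left n

theorem exists_norm {F : FS K} (hF : F.IsSaturated p) : ∃ κ F', Tw F F' κ ∧ Nm F' := by
  haveI := norm_I_normal (K := K)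
  haveI := normal_Kg (K := K)
  obtain ⟨n, hn⟩ := (norm_I_p K p).exists_card_eq
  obtain ⟨T, hT, hs, -, hc⟩ := GT.exists_complement_of_coprime_relIndex (norm_I_le F)
    (le_normalizer_of_normal) (by
      rw [hn]; exact ((Nat.Prime.coprime_iff_not_dvd Fact.out).2 (norm_idx hF)).pow_left n)
  have hp : ¬ p ∣ Nat.card T := hc ▸ norm_idx hF
  let π := QuotientGroup.mk' (Kg K)
  have hD : Nat.card (Dg K ⊓ (Kg K ⊔ T) : Subgroup _) ∣ Nat.card T := by
    have h1 : (Dg K ⊓ (Kg K ⊔ T)).map π ≤ T.map π := by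
      refine (map_mono inf_le_right).trans ?_
      rw [Subgroup.map_sup, (Subgroup.map_eq_bot_iff _).2 (QuotientGroup.ker_mk' _).ge, bot_sup_eq]
    have h2 : Nat.card ((Dg K ⊓ (Kg K ⊔ T)).map π) = Nat.card (Dg K ⊓ (Kg K ⊔ T) : Subgroup _) := by
      refine Nat.card_image_of_injOn fun a ha b hb e => ?_
      have h3 : a⁻¹ * b ∈ Dg K ⊓ Kg K := ⟨(Dg K).mul_mem ((Dg K).inv_mem ha.1) hb.1, QuotientGroup.eq.1 e⟩
      rw [Dg_inf_Kg, mem_bot] at h3
      exact inv_mul_eq_one.1 h3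
    exact h2 ▸ (card_dvd_of_le h1).trans (card_map_dvd _ _)
  have hsup : Kg K ⊔ T = Kg K ⊔ Dg K ⊓ (Kg K ⊔ T) := by
    refine le_antisymm (sup_le le_sup_left fun t ht => ?_) (sup_le le_sup_left inf_le_right)
    obtain ⟨δ, hδ, hk⟩ := aut_decomp t
    have e : t = δ * (δ⁻¹ * t) := by group
    have h1 : δ ∈ Kg K ⊔ T := by
      have : δ = t * (δ⁻¹ * t)⁻¹ := by group
      rw [this]
      exact mul_mem (mem_sup_right ht) (Subgroup.inv_mem _ (mem_sup_left hk))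
    rw [e]
    exact mul_mem (mem_sup_right ⟨hδ, h1⟩) (mem_sup_left hk)
  obtain ⟨κ, -, hκ⟩ := GT.conj_of_coprime_sup_eq_of_normal (Kg K) T (Dg K ⊓ (Kg K ⊔ T))
    (norm_cop (isPGroup_Kg K p) hp) (norm_cop (isPGroup_Kg K p) fun h => hp (h.trans hD)) hsup
    (Or.inl (by have := (isPGroup_Kg K p).isNilpotent; infer_instance))
  obtain ⟨F', hF'⟩ := exists_tw F κ
  refine ⟨κ, F', hF', fun α hα => ?_⟩
  have h1 : κ⁻¹ * α * κ ∈ AF F := hF'.mem_AF.1 (by simpa [mul_assoc] using hα)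
  rw [← hs, ← SetLike.mem_coe, normal_mul] at h1
  obtain ⟨_, ⟨s, rfl⟩, t, ht, e⟩ := h1
  refine ⟨κ s, κ * t * κ⁻¹, ⟨hF'.mem_AF.2 (hT ht), ?_⟩, ?_⟩
  · have : κ * t * κ⁻¹ ∈ MulAut.conj κ • T := smul_mem_pointwise_smul t _ T ht
    rw [hκ] at this
    exact this.1
  · have e : MulAut.conj s * t = κ⁻¹ * α * κ := e
    have e2 : MulAut.conj (κ s) = κ * MulAut.conj s * κ⁻¹ := MulEquiv.ext fun x => by simp
    rw [e2]
    calc α = κ * (κ⁻¹ * α * κ) * κ⁻¹ := by group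
      _ = _ := by rw [← e]; group

theorem not_dvd_AD {F : FS K} (hF : F.IsSaturated p) :
    ¬ p ∣ Nat.card (AF F ⊓ Dg K : Subgroup (MulAut (UG K))) := fun h => by
  obtain ⟨α, hα⟩ := exists_prime_orderOf_dvd_card' p h
  obtain ⟨s, hs⟩ := inner_of_pow hF α.2.1 (k := 1) (by
    rw [pow_one, ← hα, ← Subgroup.coe_pow, pow_orderOf_eq_one, Subgroup.coe_one])
  have h1 : α.1 ∈ Dg K ⊓ Kg K := ⟨α.2.2, hs ▸ conj_mem_Kg s⟩
  rw [Dg_inf_Kg, mem_bot] at h1
  rw [show α = 1 from Subtype.ext h1, orderOf_one] at hα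
  exact (Fact.out : p.Prime).ne_one hα.symm

theorem mem_A_of {F : FS K} (hN : Nm F) {α δ : MulAut (UG K)} (hα : α ∈ AF F) {l m : K} {s : K ≃+* K}
    (hδ : IsD l m s δ) (hx : ∀ g, (α g).x = l * s g.x) (hc : ∀ g, (α g).v.c = m * s g.v.c) :
    δ ∈ AF F := by
  obtain ⟨u, δ', hδ', rfl⟩ := hN α hα
  have h1 : δ' * δ⁻¹ ∈ Dg K ⊓ Kg K := by
    refine ⟨(Dg K).mul_mem hδ'.2 ((Dg K).inv_mem (mem_Dg.2 ⟨l, m, s, hδ⟩)), fun g => ?_⟩
    obtain ⟨g, rfl⟩ := δ.surjective g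
    rw [MulAut.mul_apply, MulAut.inv_apply_self, hδ.x, hδ.c, ← hx, ← hc]
    exact ⟨(conj_mem_Kg u (δ' g)).1.symm, (conj_mem_Kg u (δ' g)).2.symm⟩
  rw [Dg_inf_Kg, mem_bot, mul_inv_eq_one] at h1
  exact h1 ▸ hδ'.1

end Cfsg.Agent.U4F
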