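import Mathlib
import Cfsg.Agent.U4F.Grp

/-!
# Conjugates of `W` meet trivially
-/

set_option autoImplicit false
set_option linter.unusedSectionVars false
set_option linter.unusedVariables false

namespace Cfsg.Agent.U4F

open Cfsg Cfsg.FusionSystem Cfsg.Agent.Fus Subgroup

variable {K : Type*} [Field K] [StarRing K] [UF K] {p : ℕ} [Fact p.Prime] [CharP K p]

theorem ql1_nondeg {v : K × K} (h : ∀ w, BB v w = 0) : v = 0 := by
  have h1 : v.1 = 0 := tr_nondeg fun x => by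
    have := h (0, x)
    simp only [BB, star_zero, mul_zero, add_zero, sub_zero] at this
    linear_combination this
  have h2 : v.2 = 0 := tr_nondeg fun x => by
    have := h (x, 0)
    simp only [BB, star_zero, zero_mul, add_zero, zero_sub] at this
    linear_combination -this
  exact Prod.ext h1 h2

theorem ql1_indep {a e : K} (h : ∀ x, a * x + e * star x = 0) : a = 0 ∧ e = 0 := by
  obtain ⟨x, hx⟩ := (‹UF K›).nt
  have h1 := h 1
  have h2 := h x
  rw [star_one] at h1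
  have he : e = 0 := by
    have : e * (star x - x) = 0 := by linear_combination h2 - x * h1
    exact (mul_eq_zero.1 this).resolve_right (sub_ne_zero.2 hx)
  refine ⟨?_, he⟩
  rw [he] at h1
  linear_combination h1

/-- Elements preserving `BB` commute with the fixed scalars. -/
theorem Sp.lin {Y : Subgroup (GA (K × K))} (h : Sp Y) {g : GA (K × K)} (hg : g ∈ Y) {t : K}
    (ht : star t = t) (v : K × K) : g (t * v.1, t * v.2) = (t * (g v).1, t * (g v).2) := by
  rw [← sub_eq_zero]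
  refine ql1_nondeg fun w => ?_
  obtain ⟨w, rfl⟩ := g.surjective w
  have h1 := h.bb g hg (t * v.1, t * v.2) w
  have h2 := h.bb g hg v w
  simp only [BB, Prod.fst_sub, Prod.snd_sub, star_sub, star_mul', ht] at h1 h2 ⊢
  linear_combination h1 - t * h2

theorem Sp.smul {Y : Subgroup (GA (K × K))} (h : Sp Y) {g : GA (K × K)} (hg : g ∈ Y) {t : K}
    (ht : star t = t) (v : K × K) : g (t • v) = t • g v := h.lin hg ht v

/-- `R` is a maximal `p`-subgroup of `Y`. -/
theorem YH.le_RR {Y : Subgroup (GA (K × K))} (h : YH p Y) {T : Subgroup (GA (K × K))}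
    (hT : IsPGroup p T) (hY : T ≤ Y) (hn : RR K ≤ normalizer (T : Set (GA (K × K)))) : T ≤ RR K := by
  have h1 : IsPGroup p (RR K ⊔ T : Subgroup _) :=
    IsPGroup.to_sup_of_normal_right' (isPGroup_RR K p) hT hn
  have h2 : (RR K).relIndex (RR K ⊔ T) ∣ (RR K).relIndex Y :=
    ⟨_, (relIndex_mul_relIndex _ _ _ le_sup_left (sup_le h.syl.le hY)).symm⟩
  obtain ⟨n, hn⟩ := h1.index ((RR K).subgroupOf (RR K ⊔ T))
  have h3 : (RR K).relIndex (RR K ⊔ T) = 1 := by
    rcases n with _ | n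
    · exact hn
    · exact (h.syl.idx ((dvd_pow_self p n.succ_ne_zero).trans (hn ▸ h2))).elim
  exact le_sup_right.trans (relIndex_eq_one.1 h3)

theorem ql1_exp (v : K × K) : p • v = 0 := by
  ext <;> simp [nsmul_eq_mul]

theorem ql1_pow_apply {k : GA (K × K)} {v : K × K} (h : k (k v - v) = k v - v) (n : ℕ) :
    (k ^ n) v = v + n • (k v - v) := by
  induction n with
  | zero => simp
  | succ n ih => rw [pow_succ', ga_mul, ih, map_add, map_nsmul, h, succ_nsmul]; abel

theorem ql1_pow_fix {k : GA (K × K)} {v : K × K} (h : k (k v - v) = k v - v) : (k ^ p) v = v := by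
  rw [ql1_pow_apply h, ql1_exp, add_zero]

theorem YH.rr_mem {Y : Subgroup (GA (K × K))} (h : YH p Y) {c : K} (hc : star c = c) : rr c ∈ Y :=
  h.syl.le ⟨c, hc, rfl⟩

theorem ql1_rr_ne : rr (1 : K) ≠ 1 := fun e => by
  have := congrArg (fun g : GA (K × K) => (g (1, 0)).2) e
  simp at this

theorem YH.mem_of_conj {Y : Subgroup (GA (K × K))} (h : YH p Y) {g : GA (K × K)} (hg : g ∈ Y)
    (e : g * rr 1 * g⁻¹ ∈ RR K) : g ∈ normalizer (RR K : Set (GA (K × K))) :=
  h.ti g hg _ ⟨1, star_one _, rfl⟩ ql1_rr_ne e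

/-- The normaliser of `R` preserves `W`. -/
theorem ql1_norm_W {g : GA (K × K)} (hg : g ∈ normalizer (RR K : Set (GA (K × K)))) (b : K) :
    (g (0, b)).1 = 0 := by
  obtain ⟨c, -, e⟩ : g⁻¹ * rr 1 * g⁻¹⁻¹ ∈ RR K :=
    (mem_normalizer_iff.1 (inv_mem hg) _).1 ⟨1, star_one _, rfl⟩
  have := congrArg (fun k : GA (K × K) => (g (k (0, b))).2) e
  simp only [inv_inv, ga_mul, ga_apply_inv, rr_apply, mul_zero, add_zero, one_mul] at this
  linear_combination this

/-- `g n g⁻¹`. -/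
def ql1T (g : GA (K × K)) (v : K × K) : K × K := g (0, (g⁻¹ v).1)

theorem ql1T_add (g : GA (K × K)) (v w : K × K) : ql1T g (v + w) = ql1T g v + ql1T g w := by
  simp only [ql1T]
  rw [← map_add, map_add g⁻¹]
  simp

theorem ql1T_T (g : GA (K × K)) (v : K × K) : ql1T g (ql1T g v) = 0 := by
  simp only [ql1T, ga_inv_apply]
  exact map_zero g

theorem ql1T_smul {Y : Subgroup (GA (K × K))} (h : Sp Y) {g : GA (K × K)} (hg : g ∈ Y) {t : K}
    (ht : star t = t) (v : K × K) : ql1T g (t • v) = t • ql1T g v := by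
  simp only [ql1T]
  rw [← h.smul hg ht, h.smul (inv_mem hg) ht]
  simp

theorem ql1_conj {Y : Subgroup (GA (K × K))} (h : Sp Y) {g : GA (K × K)} (hg : g ∈ Y) {t : K}
    (ht : star t = t) (v : K × K) : (g * rr t * g⁻¹) v = v + t • ql1T g v := by
  rw [ga_mul, ga_mul, ql1T, ← h.smul hg ht]
  conv_rhs => rw [← ga_apply_inv g v, ← map_add]
  congr 1
  ext <;> simp [ga_inv_apply]

theorem ql1T_one (v : K × K) : ql1T 1 v = (0, v.1) := rfl

theorem ql1_rr (t : K) (v : K × K) : rr t v = v + t • ql1T 1 v := by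
  ext <;> simp [ql1T_one]

theorem ql1_BB_inv {Y : Subgroup (GA (K × K))} (h : Sp Y) {g : GA (K × K)} (hg : g ∈ Y)
    (v w : K × K) : BB v (g w) = BB (g⁻¹ v) w := by
  rw [← h.bb g hg (g⁻¹ v), ga_apply_inv]

/-- The elements of `Y` trivial on `F e` and on `e^⊥ / F e`. -/
def ql1K {Y : Subgroup (GA (K × K))} (h : Sp Y) (e : K × K) : Subgroup (GA (K × K)) where
  carrier := {k | k ∈ Y ∧ k e = e ∧ ∀ v, BB v e = 0 → ∃ t : K, star t = t ∧ k v = v + t • e}
  one_mem' := ⟨one_mem _, rfl, fun v _ => ⟨0, star_zero _, by simp⟩⟩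
  mul_mem' := by
    rintro a b ⟨ha, ea, fa⟩ ⟨hb, eb, fb⟩
    refine ⟨mul_mem ha hb, by rw [ga_mul, eb, ea], fun v hv => ?_⟩
    obtain ⟨s, hs, e1⟩ := fa v hv
    obtain ⟨t, ht, e2⟩ := fb v hv
    refine ⟨s + t, by rw [star_add, hs, ht], ?_⟩
    rw [ga_mul, e2, map_add, h.smul ha ht, ea, e1]
    module
  inv_mem' := by
    rintro a ⟨ha, ea, fa⟩
    have ea' : a⁻¹ e = e := by conv_lhs => rw [← ea, ga_inv_apply]
    refine ⟨inv_mem ha, ea', fun v hv => ?_⟩
    obtain ⟨s, hs, e1⟩ := fa v hv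
    refine ⟨-s, by rw [star_neg, hs], ?_⟩
    have := congrArg (a⁻¹ : GA (K × K)) e1
    rw [ga_inv_apply, map_add, h.smul (inv_mem ha) hs, ea'] at this
    linear_combination (norm := module) -this

theorem ql1K_pgroup {Y : Subgroup (GA (K × K))} (h : Sp Y) (e : K × K) :
    IsPGroup p (ql1K h e) := by
  rintro ⟨k, hk⟩
  refine ⟨2, Subtype.ext (LinearEquiv.ext fun v => ?_)⟩
  obtain ⟨hk', ek', -⟩ := pow_mem hk p
  obtain ⟨hk, ek, fk⟩ := hk
  have h1 : ∀ w, BB w e = 0 → (k ^ p) w = w := fun w hw => by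
    obtain ⟨t, ht, e1⟩ := fk w hw
    refine ql1_pow_fix ?_
    rw [e1, add_sub_cancel_left, h.smul hk ht, ek]
  have h2 : BB ((k ^ p) v - v) e = 0 := by
    have := h.bb _ hk' v e
    rw [ek'] at this
    simp only [BB, Prod.fst_sub, Prod.snd_sub, star_sub] at this ⊢
    linear_combination this
  show (k ^ p ^ 2) v = v
  rw [sq, pow_mul]
  exact ql1_pow_fix (h1 _ h2)

theorem ql1K_le {Y : Subgroup (GA (K × K))} (h : YH p Y) (e : K) :
    ql1K h.sp (0, e) ≤ RR K := by
  refine h.le_RR (ql1K_pgroup h.sp _) (fun k hk => hk.1) ?_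
  have key : ∀ c : K, star c = c → ∀ k ∈ ql1K h.sp (0, e), rr c * k * (rr c)⁻¹ ∈ ql1K h.sp (0, e) := by
    rintro c hc k ⟨hk, ek, fk⟩
    have hr := h.rr_mem hc
    have e0 : ∀ d : K, rr d ((0, e) : K × K) = (0, e) := fun d => by simp
    refine ⟨mul_mem (mul_mem hr hk) (inv_mem hr), by rw [rr_inv, ga_mul, ga_mul, e0, ek, e0],
      fun v hv => ?_⟩
    obtain ⟨t, ht, e1⟩ := fk ((rr c)⁻¹ v) (by rw [← ql1_BB_inv h.sp hr, e0, hv])
    exact ⟨t, ht, by rw [ga_mul, ga_mul, e1, map_add, ga_apply_inv, h.sp.smul hr ht, e0]⟩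
  rintro _ ⟨c, hc, rfl⟩
  refine mem_normalizer_iff.2 fun k => ⟨key c hc k, fun hk => ?_⟩
  have := key (-c) (by rw [star_neg, hc]) _ hk
  rw [← rr_inv] at this
  simpa [mul_assoc] using this

theorem ql1K_triv {Y : Subgroup (GA (K × K))} (h : YH p Y) {e : K} {a b : GA (K × K)} (ha : a ∈ Y)
    (hb : b ∈ Y) (hab : ∀ v, BB v (0, e) = 0 → a v = b v) : a = b := by
  have h1 : ∀ v, BB v (0, e) = 0 → (b⁻¹ * a) v = v := fun v hv => by
    rw [ga_mul, hab v hv, ga_inv_apply]
  obtain ⟨c, -, ec⟩ : b⁻¹ * a ∈ RR K := ql1K_le h e ⟨mul_mem (inv_mem hb) ha,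
    h1 _ (by simp [BB]), fun v hv => ⟨0, star_zero _, by rw [h1 v hv]; simp⟩⟩
  obtain ⟨y, hy, ey⟩ := exists_perp e
  have h2 := h1 (y, 0) (by simp only [BB, star_zero, zero_mul, add_zero, sub_zero]; linear_combination ey)
  rw [ec] at h2
  have h3 : c = 0 := by simpa [hy] using congrArg Prod.snd h2
  rw [h3, rr_zero, inv_mul_eq_one] at ec
  exact ec.symm

/-- In odd characteristic `g n g⁻¹` is a transvection on `e^⊥`. -/
theorem ql1_transv {Y : Subgroup (GA (K × K))} (h : Sp Y) (h2 : (2 : K) ≠ 0) {g : GA (K × K)}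
    (hg : g ∈ Y) {b : K} (hb : b ≠ 0) : ∃ (A : K) (w : K × K), star A = A ∧ A ≠ 0 ∧
      BB w (g (0, b)) = 0 ∧ ∀ v, BB v (g (0, b)) = 0 → ql1T g v = (A * BB v w) • w := by
  obtain ⟨y, hy, ey⟩ := exists_perp b
  have hy' : star y ≠ 0 := star_ne_zero.2 hy
  have hA : star (2 * (y * star y))⁻¹ = (2 * (y * star y))⁻¹ := by
    rw [star_inv₀, star_mul', star_mul', star_star, star_ofNat, mul_comm (star y)]
  refine ⟨(2 * (y * star y))⁻¹, g (0, y), hA, inv_ne_zero (by simp [h2, hy]), ?_, fun v hv => ?_⟩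
  · rw [h.bb g hg]; simp [BB]
  · rw [ql1_BB_inv h hg] at hv ⊢
    obtain ⟨t, ht, et⟩ := perp_line (z := (g⁻¹ v).1) hb hy ey (by
      simp only [BB, star_zero, mul_zero, add_zero, sub_zero] at hv
      linear_combination hv)
    have : (2 * (y * star y))⁻¹ * BB (g⁻¹ v) (0, y) = t := by
      simp only [BB, star_zero, mul_zero, add_zero, sub_zero, et, star_mul', ht]
      field_simp
      ring
    rw [this, ← h.smul hg ht, ql1T, et]
    simp

theorem ql1_star_BB (v w : K × K) : star (BB v w) = BB v w := by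
  simp only [BB, star_sub, star_add, star_mul', star_star]; ring

theorem ql1_BB_smul {t : K} (ht : star t = t) (v w : K × K) : BB (t • v) w = t * BB v w := by
  simp only [BB, Prod.smul_fst, Prod.smul_snd, smul_eq_mul, star_mul', ht]; ring

theorem ql1_BB_anti (v w : K × K) : BB v w = -BB w v := by
  simp only [BB]; ring

theorem dis_of {Y : Subgroup (GA (K × K))} (h : YH p Y) (hq : 3 < qq K) : Dis Y := by
  intro g hg hn b h0
  by_contra hb
  refine hn (h.mem_of_conj hg ?_)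
  obtain ⟨e, ee⟩ : ∃ e, g (0, b) = (0, e) := ⟨_, Prod.ext h0 rfl⟩
  have he : e ≠ 0 := by
    rintro rfl
    exact hb (congrArg Prod.snd (g.map_eq_zero_iff.1 ee))
  have hy : ∀ {d : K}, star d = d → g * rr d * g⁻¹ ∈ Y := fun hd =>
    mul_mem (mul_mem hg (h.rr_mem hd)) (inv_mem hg)
  have hTe : ql1T g (0, e) = 0 := by
    rw [← ee, ql1T, ga_inv_apply]; exact map_zero g
  by_cases h2 : (2 : K) = 0
  · refine ql1K_le h e ⟨hy (star_one _), by rw [ql1_conj h.sp hg (star_one _), hTe]; simp,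
      fun v hv => ?_⟩
    rw [← ee, ql1_BB_inv h.sp hg] at hv
    obtain ⟨t, ht, et⟩ := perp_line (z := (g⁻¹ v).1) hb hb (by linear_combination (b * star b) * h2) (by
      simp only [BB, star_zero, mul_zero, add_zero, sub_zero] at hv
      linear_combination hv)
    refine ⟨t, ht, ?_⟩
    rw [ql1_conj h.sp hg (star_one _), one_smul, ql1T, et, ← ee, ← h.sp.smul hg ht]
    simp
  obtain ⟨A, w, sA, hA, hw, fw⟩ := ql1_transv h.sp h2 (one_mem Y) he
  obtain ⟨B, w', sB, hB, hw', fw'⟩ := ql1_transv h.sp h2 hg hb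
  rw [ee] at hw' fw'
  replace hw : BB w (0, e) = 0 := hw
  replace fw : ∀ v, BB v (0, e) = 0 → ql1T 1 v = (A * BB v w) • w := fw
  have sm : ∀ {a c : K}, star a = a → star c = c → star (a * c) = a * c := fun ha hc => by
    rw [star_mul', ha, hc]
  have n1 := fun {t : K} (ht : star t = t) => ql1T_smul h.sp (one_mem Y) ht
  have T1 := fun {t : K} (ht : star t = t) => ql1T_smul h.sp hg ht
  have hnT : ∀ v, BB v (0, e) = 0 →
      ql1T 1 (ql1T g v) = (B * BB v w' * (A * BB w' w)) • w := fun v hv => by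
    rw [fw' v hv, n1 (sm sB (ql1_star_BB _ _)), fw _ hw', smul_smul]
  have hTn : ∀ v, BB v (0, e) = 0 →
      ql1T g (ql1T 1 v) = (A * BB v w * (B * BB w w')) • w' := fun v hv => by
    rw [fw v hv, T1 (sm sA (ql1_star_BB _ _)), fw' _ hw, smul_smul]
  by_cases hl : BB w w' = 0
  · have hl' : BB w' w = 0 := by rw [ql1_BB_anti, hl, neg_zero]
    have hc : ∀ c : K, star c = c → rr c * (g * rr 1 * g⁻¹) = (g * rr 1 * g⁻¹) * rr c := fun c hc => by
      refine ql1K_triv h (e := e) (mul_mem (h.rr_mem hc) (hy (star_one _)))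
        (mul_mem (hy (star_one _)) (h.rr_mem hc)) fun v hv => ?_
      rw [ga_mul, ga_mul _ (rr c)]
      simp only [ql1_conj h.sp hg (star_one _), ql1_rr, one_smul, ql1T_add, T1 hc, hnT v hv, hTn v hv,
        hl, hl', mul_zero, zero_smul]
      module
    refine h.le_RR (T := zpowers (g * rr 1 * g⁻¹)) ?_ (zpowers_le.2 (hy (star_one _))) ?_
      (mem_zpowers _)
    · have : zpowers (g * rr 1 * g⁻¹) ≤ (RR K).map (MulAut.conj g).toMonoidHom :=
        zpowers_le.2 ⟨rr 1, ⟨1, star_one _, rfl⟩, rfl⟩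
      exact ((isPGroup_RR K p).map _).to_le this
    · refine le_trans ?_ (centralizer_le_normalizer _)
      rintro _ ⟨c, hc', rfl⟩
      rintro _ ⟨n, rfl⟩
      exact ((Commute.zpow_right (hc c hc') n).symm :)
  exfalso
  set l := A * B * BB w w' * BB w' w with hl0
  have hl' : BB w' w ≠ 0 := by rw [ql1_BB_anti]; exact neg_ne_zero.2 hl
  have hl1 : l ≠ 0 := mul_ne_zero (mul_ne_zero (mul_ne_zero hA hB) hl) hl'
  have sl : star l = l := sm (sm (sm sA sB) (ql1_star_BB _ _)) (ql1_star_BB _ _)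
  have hA1 : ∀ v, BB v (0, e) = 0 → ql1T 1 (ql1T g (ql1T 1 v)) = l • ql1T 1 v := fun v hv => by
    rw [hTn v hv, n1 (sm (sm sA (ql1_star_BB _ _)) (sm sB (ql1_star_BB _ _))), fw _ hw', fw v hv]
    module
  have hB1 : ∀ v, BB v (0, e) = 0 → ql1T g (ql1T 1 (ql1T g v)) = l • ql1T g v := fun v hv => by
    rw [hnT v hv, T1 (sm (sm sB (ql1_star_BB _ _)) (sm sA (ql1_star_BB _ _))), fw' _ hw, fw' v hv]
    module
  have braid : ∀ c d : K, star c = c → star d = d → c * d * l = -1 → ∀ v,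
      c • ql1T 1 v + (c * c * d) • ql1T 1 (ql1T g (ql1T 1 v)) =
        d • ql1T g v + (c * d * d) • ql1T g (ql1T 1 (ql1T g v)) := fun c d hc hd hcd => by
    have ex : ∀ v, (rr c * (g * rr d * g⁻¹) * rr c) v - ((g * rr d * g⁻¹) * rr c * (g * rr d * g⁻¹)) v =
        (c • ql1T 1 v + (c * c * d) • ql1T 1 (ql1T g (ql1T 1 v))) -
          (d • ql1T g v + (c * d * d) • ql1T g (ql1T 1 (ql1T g v))) := fun v => by
      rw [ga_mul _ (rr c), ga_mul (rr c), ga_mul _ (g * rr d * g⁻¹), ga_mul _ (rr c)]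
      simp only [ql1_conj h.sp hg hd, ql1_rr, ql1T_add, T1 hc, T1 hd, n1 hc, n1 hd, ql1T_T]
      module
    have := ql1K_triv h (e := e) (mul_mem (mul_mem (h.rr_mem hc) (hy hd)) (h.rr_mem hc))
      (mul_mem (mul_mem (hy hd) (h.rr_mem hc)) (hy hd)) fun v hv => by
        rw [← sub_eq_zero, ex, hA1 v hv, hB1 v hv]
        linear_combination (norm := module) (c * hcd) • ql1T 1 v - (d * hcd) • ql1T g v
    intro v
    rw [← sub_eq_zero, ← ex, this, sub_self]
  obtain ⟨μ, sμ, hμ, hμ1⟩ := exists_mu hq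
  have b1 := braid 1 (-l⁻¹) (star_one _) (by rw [star_neg, star_inv₀, sl]) (by field_simp) (e, 0)
  have b2 := braid μ (-(μ * l)⁻¹) sμ (by rw [star_neg, star_inv₀, sm sμ sl]) (by field_simp) (e, 0)
  rw [ql1T_one (e, 0), hTe] at b1 b2
  have z0 : ql1T 1 (0 : K × K) = 0 := rfl
  rw [z0] at b1 b2
  have c1 := congrArg Prod.snd b1
  have c2 := congrArg Prod.snd b2
  simp only [Prod.snd_add, Prod.smul_snd, smul_eq_mul, Prod.snd_zero, mul_zero, add_zero] at c1 c2
  have : (μ * μ - 1) * e = 0 := by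
    field_simp at c1 c2
    have : l * l * ((μ * μ - 1) * e) = 0 := by linear_combination c2 - c1
    exact (mul_eq_zero.1 this).resolve_left (mul_ne_zero hl1 hl1)
  exact he ((mul_eq_zero.1 this).resolve_left (sub_ne_zero.2 hμ1))

end Cfsg.Agent.U4F
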