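import Mathlib
import Cfsg.Agent.U4F.QL1

/-!
# Conjugates of `R` are opposite root groups
-/

set_option autoImplicit false
set_option linter.unusedSectionVars false
set_option linter.unusedVariables false

namespace Cfsg.Agent.U4F

open Cfsg Cfsg.FusionSystem Cfsg.Agent.Fus Subgroup

variable {K : Type*} [Field K] [StarRing K] [UF K] {p : ℕ} [Fact p.Prime] [CharP K p]

/-- A trace-symmetric map has a fixed linear coefficient. -/
theorem ql2_sym {α β : K} (h : ∀ x y, (α * y + β * star y) * star x + star (α * y + β * star y) * x =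
    (α * x + β * star x) * star y + star (α * x + β * star x) * y) : star α = α := by
  obtain ⟨x, hx⟩ := (‹UF K›).nt
  have h1 := h x 1
  simp only [star_add, star_mul', star_star, star_one] at h1
  have : (star α - α) * (star x - x) = 0 := by linear_combination -h1
  exact sub_eq_zero.1 ((mul_eq_zero.1 this).resolve_right (sub_ne_zero.2 hx))

theorem ql2_tr_sq (h2 : (2 : K) = 0) {β : K} (h : ∀ x, β * star (x * x) + star β * (x * x) = 0) :
    β = 0 := tr_nondeg fun x => by
  obtain ⟨y, rfl⟩ := exists_sq h2 x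
  exact h y

/-- `g W` is a graph. -/
theorem ql2_graph {Y : Subgroup (GA (K × K))} (h : YH p Y) (hq : 3 < qq K) {g : GA (K × K)}
    (hg : g ∈ Y) (hn : g ∉ normalizer (RR K : Set (GA (K × K)))) :
    ∃ α β, star α = α ∧ ((2 : K) = 0 → β = 0) ∧
      (∀ b, (g (0, b)).2 = α * (g (0, b)).1 + β * star (g (0, b)).1) ∧
      ∀ x, ∃ b, g (0, b) = (x, α * x + β * star x) := by
  have hadd : ∀ a b : K, g (0, a + b) = g (0, a) + g (0, b) := fun a b => by
    rw [← map_add]; simp
  have hsm : ∀ t a : K, star t = t → g (0, t * a) = t • g (0, a) := fun t a ht => by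
    rw [← h.sp.smul hg ht]; simp
  have inj : Function.Injective fun b => (g (0, b)).1 := fun a b e => by
    have e' : (g (0, a)).1 = (g (0, b)).1 := e
    have := hadd (a - b) b
    rw [sub_add_cancel] at this
    refine sub_eq_zero.1 (dis_of h hq g hg hn _ ?_)
    have := congrArg Prod.fst this
    rw [Prod.fst_add, e'] at this
    linear_combination -this
  let ψ : K ≃ K := Equiv.ofBijective _ (Finite.injective_iff_bijective.1 inj)
  have hψ : ∀ x, (g (0, ψ.symm x)).1 = x := ψ.apply_symm_apply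
  have hψ' : ∀ b, ψ.symm (g (0, b)).1 = b := ψ.symm_apply_apply
  obtain ⟨α, β, e⟩ := lin_K (φ := fun x => (g (0, ψ.symm x)).2) (fun x y => by
    have : ψ.symm (x + y) = ψ.symm x + ψ.symm y := by
      rw [← hψ' (ψ.symm x + ψ.symm y), hadd, Prod.fst_add, hψ, hψ]
    simp only [this, hadd, Prod.snd_add]) (fun t x ht => by
    have : ψ.symm (t * x) = t * ψ.symm x := by
      rw [← hψ' (t * ψ.symm x), hsm _ _ ht, Prod.smul_fst, hψ, smul_eq_mul]
    simp only [this, hsm _ _ ht, Prod.smul_snd, smul_eq_mul])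
  have e1 : ∀ x, g (0, ψ.symm x) = (x, α * x + β * star x) := fun x => Prod.ext (hψ x) (e x)
  have sα : star α = α := ql2_sym (β := β) fun x y => by
    have := h.sp.bb g hg (0, ψ.symm x) (0, ψ.symm y)
    rw [e1, e1] at this
    simp only [BB, star_zero, mul_zero, add_zero, sub_zero] at this
    linear_combination this
  refine ⟨α, β, sα, fun h2 => ql2_tr_sq h2 fun x => ?_, fun b => ?_, fun x => ⟨_, e1 x⟩⟩
  · have := h.sp.qf h2 g hg (0, ψ.symm x)
    rw [e1] at this
    simp only [QF, star_zero, mul_zero, add_zero, star_add, star_mul', star_star, sα] at this ⊢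
    linear_combination this - (α * x * star x) * h2
  · have := e (g (0, b)).1
    rwa [hψ'] at this

theorem ql2_rr_ug (c α β : K) (v : K × K) : rr c (ug α β v) = ug α β (rr c v) := by
  ext <;> simp; ring

theorem ql2_ug_W (α β b : K) : ug α β (0, b) = (0, b) := by simp

/-- The action of `g n g⁻¹` in the coordinates given by `ug α β`. -/
theorem ql2_T {Y : Subgroup (GA (K × K))} (h : YH p Y) (hq : 3 < qq K) {g : GA (K × K)}
    (hg : g ∈ Y) (hn : g ∉ normalizer (RR K : Set (GA (K × K)))) :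
    ∃ α β κ ε : K, star α = α ∧ ((2 : K) = 0 → β = 0) ∧ star κ = κ ∧
      (∀ b, κ * b + ε * star b = 0 → b = 0) ∧ ∀ d : K, star d = d → ∀ v,
        (g * rr d * g⁻¹) (ug α β v) = ug α β (v.1 + d * (κ * v.2 + ε * star v.2), v.2) := by
  obtain ⟨α, β, sα, hβ, e1, e2⟩ := ql2_graph h hq hg hn
  obtain ⟨κ, ε, e⟩ := lin_K (φ := fun b => (ql1T g (0, b)).1) (fun x y => by
    rw [← Prod.fst_add, ← ql1T_add]; simp) (fun t x ht => by
    rw [← smul_eq_mul, ← smul_eq_mul, ← Prod.smul_fst, ← ql1T_smul h.sp hg ht]; simp)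
  refine ⟨α, β, κ, ε, sα, hβ, ql2_sym (β := ε) fun x y => ?_, fun b hb => ?_, fun d hd v => ?_⟩
  · have h1 : ∀ x y : K, BB (0, x) (ql1T g (0, y)) = (g⁻¹ (0, y)).1 * star (g⁻¹ (0, x)).1 +
        star (g⁻¹ (0, y)).1 * (g⁻¹ (0, x)).1 := fun x y => by
      rw [ql1T, ql1_BB_inv h.sp hg]
      simp [BB]
    have h2 := h1 x y
    have h3 := h1 y x
    simp only [BB, star_zero, mul_zero, add_zero, zero_sub, e] at h2 h3
    linear_combination h3 - h2
  · rw [← e, ql1T] at hb
    exact dis_of h hq g⁻¹ (inv_mem hg) (fun hh => hn (inv_inv g ▸ inv_mem hh)) b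
      (dis_of h hq g hg hn _ hb)
  · obtain ⟨b, hb⟩ := e2 v.1
    have h1 : ug α β v = g (0, b) + (0, v.2) := by
      rw [hb]; ext <;> simp; ring
    have h2 : ql1T g (ug α β v) = ql1T g (0, v.2) := by
      rw [h1, ql1T_add, ql1T, ga_inv_apply]
      exact (congrArg (· + _) (map_zero g)).trans (zero_add _)
    have h3 : (ql1T g (0, v.2)).2 = _ := e1 _
    rw [ql1_conj h.sp hg hd, h2]
    have h4 := e v.2
    change (ql1T g (0, v.2)).2 = α * (ql1T g (0, v.2)).1 + β * star (ql1T g (0, v.2)).1 at h3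
    ext
    · simp [h4]
    · simp only [Prod.snd_add, Prod.smul_snd, h3, h4, ug_apply, smul_eq_mul, star_add, star_mul', hd]
      ring

/-- `N_Y(R)` acts on `W` by similitudes of the trace form. -/
theorem ql2_simil {Y : Subgroup (GA (K × K))} (h : YH p Y) {k : GA (K × K)} (hk : k ∈ Y)
    (hn : k ∈ normalizer (RR K : Set (GA (K × K)))) : ∃ c, ∀ b b',
      (k (0, b)).2 * star (k (0, b')).2 + star (k (0, b)).2 * (k (0, b')).2 =
        c * (b * star b' + star b * b') := by
  obtain ⟨c, hc, e⟩ : k * rr 1 * k⁻¹ ∈ RR K := (mem_normalizer_iff.1 hn _).1 ⟨1, star_one _, rfl⟩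
  refine ⟨c, fun b b' => ?_⟩
  have h1 := congrArg (fun s : GA (K × K) => (s (k (b', 0))).2) e
  simp only [ql1_conj h.sp hk (star_one _), ql1T, ga_inv_apply, one_smul, Prod.snd_add,
    rr_apply] at h1
  have h2 := h.sp.bb k hk (b', 0) (0, b)
  simp only [BB, ql1_norm_W hn, star_zero, mul_zero, add_zero, sub_zero, zero_mul] at h2
  rw [add_right_inj] at h1
  rw [h1, star_mul', hc]
  linear_combination c * h2

theorem ql2_odd {Y : Subgroup (GA (K × K))} (h : YH p Y) (hq : 3 < qq K) (h2 : (2 : K) ≠ 0)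
    {y : K → GA (K × K)} (hy : ∀ d, star d = d → y d ∈ Y) {α β κ ε : K} (sκ : star κ = κ)
    (inj : ∀ b, κ * b + ε * star b = 0 → b = 0) (e : ∀ d, star d = d → ∀ v,
      y d (ug α β v) = ug α β (v.1 + d * (κ * v.2 + ε * star v.2), v.2)) : ε = 0 := by
  classical
  by_contra hε
  obtain ⟨d, sd, hd⟩ := exists_fix_notMem
    ({0, -(1 + κ)⁻¹, -((1 + κ) ^ 2 - ε * star ε)⁻¹} : Finset K)
    (lt_of_le_of_lt Finset.card_le_three hq)
  simp only [Finset.mem_insert, Finset.mem_singleton, not_or] at hd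
  obtain ⟨d0, d1, d2⟩ := hd
  have aux : ∀ a : K, d ≠ -a⁻¹ → 1 + d * a ≠ 0 := fun a ha e => ha (by
    have : a ≠ 0 := by rintro rfl; simp at e
    field_simp
    linear_combination e)
  obtain ⟨s, hs⟩ : ∃ s, s = 1 + d * (1 + κ) := ⟨_, rfl⟩
  obtain ⟨f, hf⟩ : ∃ f, f = 1 + d * ((1 + κ) ^ 2 - ε * star ε) := ⟨_, rfl⟩
  obtain ⟨Δ, hΔ⟩ : ∃ Δ, Δ = s * s - d * d * (ε * star ε) := ⟨_, rfl⟩
  have s0 : s ≠ 0 := hs ▸ aux _ d1
  have f0 : f ≠ 0 := hf ▸ aux _ d2
  have ss : star s = s := by simp [hs, sd, sκ]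
  have sf : star f = f := by simp [hf, sd, sκ, mul_comm]
  have sΔ : star Δ = Δ := by simp [hΔ, sd, ss, mul_comm]
  have hW : y d * rr 1 * y 1 ∈ Y := mul_mem (mul_mem (hy d sd) (h.rr_mem (star_one _))) (hy 1 (star_one _))
  have eW : ∀ b, (y d * rr (1 : K) * y 1) (0, b) = ug α β (s * (κ * b + ε * star b) +
      d * ε * star (κ * b + ε * star b), b + (κ * b + ε * star b)) := fun b => by
    rw [ga_mul, ga_mul, ← ql2_ug_W α β b, e 1 (star_one _), ql2_rr_ug, e d sd]
    congr 1
    ext
    · simp only [rr_apply, star_add, star_mul', star_star, sκ, hs, star_zero, star_one]; ring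
    · simp
  have eW' : ∀ b, (y d * rr (1 : K) * y 1) (0, s * b - d * ε * star b) =
      ug α β (Δ * (κ * b + ε * star b), κ * b + ε * star b + f * b) := fun b => by
    rw [eW]
    congr 1
    ext
    · simp only [star_add, star_sub, star_mul', star_star, sκ, hΔ, ss, sd]; ring
    · simp only [star_add, star_sub, star_mul', star_star, sκ, hf, hs, sd, star_one]; ring
  obtain ⟨b₀, hb₀⟩ : ∃ b, s * b - d * ε * star b ≠ 0 := by
    by_contra! hh
    exact s0 (ql1_indep (e := -(d * ε)) fun x => by linear_combination hh x).1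
  have Δ0 : Δ ≠ 0 := by
    intro h0
    have hN : y d * rr 1 * y 1 ∈ normalizer (RR K : Set (GA (K × K))) := by
      by_contra hN
      exact hb₀ (dis_of h hq _ hW hN _ (by rw [eW', h0]; simp))
    refine s0 (ql1_indep (e := d * ε) fun x => inj _ ?_).1
    have := ql1_norm_W hN x
    rw [eW] at this
    simp only [ug_apply, star_add, star_mul', star_star, sκ, ss, sd] at this ⊢
    linear_combination this
  have s1 : star (-Δ⁻¹) = -Δ⁻¹ := by rw [star_neg, star_inv₀, sΔ]
  have s2 : star (-(Δ * f⁻¹)) = -(Δ * f⁻¹) := by rw [star_neg, star_mul', star_inv₀, sΔ, sf]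
  have hk := mul_mem (hy _ s2) (mul_mem (h.rr_mem s1) hW)
  have ek : ∀ b, (y (-(Δ * f⁻¹)) * (rr (-Δ⁻¹) * (y d * rr (1 : K) * y 1))) (0, s * b - d * ε * star b) =
      (0, f * b) := fun b => by
    rw [ga_mul, ga_mul, eW', ql2_rr_ug, e _ s2, ← ql2_ug_W α β]
    have : (rr (-Δ⁻¹) (Δ * (κ * b + ε * star b), κ * b + ε * star b + f * b)).2 = f * b := by
      simp only [rr_apply]; field_simp; ring
    rw [this]
    congr 2
    simp only [rr_apply, star_mul', sf]
    field_simp
    ring
  obtain ⟨c, ec⟩ := ql2_simil h hk (by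
    by_contra hN
    exact hb₀ (dis_of h hq _ hk hN _ (by rw [ek])))
  have sc : ∀ b b', f * f * (b * star b' + star b * b') = c * ((s * s + d * d * (ε * star ε)) *
      (b * star b' + star b * b') - 2 * s * d * (ε * star b * star b' + star ε * b * b')) :=
    fun b b' => by
      have := ec (s * b - d * ε * star b) (s * b' - d * ε * star b')
      simp only [ek, star_sub, star_mul', star_star, ss, sd, sf] at this
      linear_combination this
  have c0 : c ≠ 0 := by
    rintro rfl
    have := sc 1 1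
    simp only [star_one, zero_mul, mul_one, one_add_one_eq_two] at this
    exact mul_ne_zero (mul_ne_zero f0 f0) h2 this
  have sc' : star (f * f * c⁻¹) = f * f * c⁻¹ := by
    obtain ⟨b, hb⟩ := tr_surj (x₀ := (1 : K)) one_ne_zero (star_one K)
    have h1 := sc b 1
    rw [hb] at h1
    have : f * f * c⁻¹ = (s * s + d * d * (ε * star ε)) -
        2 * s * d * (ε * star b * star 1 + star ε * b * 1) := by
      field_simp
      linear_combination h1
    rw [this]
    simp only [star_sub, star_add, star_mul', star_star, ss, sd, star_one, star_ofNat]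
    ring
  have := (ql1_indep (a := f * f * c⁻¹ - (s * s + d * d * (ε * star ε))) (e := 2 * s * d * ε)
    fun b => tr_nondeg fun b' => by
      have h1 := sc b b'
      have h3 : f * f * c⁻¹ * (b * star b' + star b * b') = (s * s + d * d * (ε * star ε)) *
          (b * star b' + star b * b') - 2 * s * d * (ε * star b * star b' + star ε * b * b') := by
        field_simp
        linear_combination h1
      generalize f * f * c⁻¹ = m at h3 sc'
      simp only [star_sub, star_add, star_mul', star_star, ss, sd, sc', star_ofNat]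
      linear_combination h3).2
  exact mul_ne_zero (mul_ne_zero (mul_ne_zero h2 s0) d0) hε this

theorem opp_of {Y : Subgroup (GA (K × K))} (h : YH p Y) (hq : 3 < qq K) {g : GA (K × K)} (hg : g ∈ Y)
    (hn : g ∉ normalizer (RR K : Set (GA (K × K)))) : ∃ α β, Opp g α β ∧ ((2 : K) = 0 → β = 0) := by
  obtain ⟨α, β, κ, ε, sα, hβ, sκ, inj, e⟩ := ql2_T h hq hg hn
  have hy : ∀ d : K, star d = d → g * rr d * g⁻¹ ∈ Y := fun d hd =>
    mul_mem (mul_mem hg (h.rr_mem hd)) (inv_mem hg)
  have hε : ε = 0 := by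
    by_cases h2 : (2 : K) = 0
    · refine ql2_tr_sq h2 fun b => ?_
      have := h.sp.qf h2 _ (hy 1 (star_one _)) (ug α β (0, b))
      rw [e 1 (star_one _), hβ h2] at this
      simp only [QF, ug_apply, star_add, star_mul', star_star, sα, sκ, star_zero, star_one] at this ⊢
      linear_combination this - (κ * b * star b + α * (κ * b + ε * star b) *
        (κ * star b + star ε * b)) * h2
    · exact ql2_odd h hq h2 hy sκ inj e
  subst hε
  have hκ : κ ≠ 0 := fun h0 => one_ne_zero (inj 1 (by simp [h0]))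
  have key : ∀ d : K, star d = d → g * rr d * g⁻¹ = ug α β * rl (d * κ) * (ug α β)⁻¹ := fun d hd => by
    rw [eq_mul_inv_iff_mul_eq]
    refine LinearEquiv.ext fun v => ?_
    rw [ga_mul, e d hd, ga_mul]
    congr 1
    ext <;> simp; ring
  refine ⟨α, β, ⟨sα, fun s => ⟨?_, ?_⟩⟩, hβ⟩
  · rintro ⟨_, ⟨d, hd, rfl⟩, rfl⟩
    exact ⟨d * κ, by rw [star_mul', hd, sκ], key d hd⟩
  · rintro ⟨t, ht, rfl⟩
    have : star (t * κ⁻¹) = t * κ⁻¹ := by rw [star_mul', star_inv₀, ht, sκ]
    exact ⟨_, ⟨_, this, rfl⟩, by rw [key _ this, inv_mul_cancel_right₀ hκ]⟩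

end Cfsg.Agent.U4F
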