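import Mathlib
import Cfsg.Agent.U4F.QL2

/-!
# Double transitivity, torus and Weyl element on `Q / Z`
-/

set_option autoImplicit false
set_option linter.unusedSectionVars false
set_option linter.unusedVariables false

namespace Cfsg.Agent.U4F

open Cfsg Cfsg.FusionSystem Cfsg.Agent.Fus Subgroup

variable {K : Type*} [Field K] [StarRing K] [UF K] {p : ℕ} [Fact p.Prime] [CharP K p]

theorem wr_apply (v : K × K) : wr K v = (v.2, -v.1) := by
  simp [wr, ga_mul]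

variable (K) in
theorem wr_not_mem : wr K ∉ normalizer (RR K : Set (GA (K × K))) := fun h => by
  have := ql1_norm_W h 1
  simp [wr_apply] at this

theorem ql3_L (α β t : K) (v : K × K) : (ug α β * rl t * (ug α β)⁻¹) v =
    (v.1 + t * (v.2 - (α * v.1 + β * star v.1)), v.2 + (α * (t * (v.2 - (α * v.1 + β * star v.1))) +
      β * star (t * (v.2 - (α * v.1 + β * star v.1))))) := by
  rw [ga_mul, ga_mul, ug_inv_apply]
  ext
  · simp
  · simp only [ug_apply, rl_apply, star_add]; ring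

theorem Opp.not_mem {g : GA (K × K)} {α β : K} (ho : Opp g α β) :
    g ∉ normalizer (RR K : Set (GA (K × K))) := fun h => by
  obtain ⟨r, hr, e⟩ := (ho.2 _).2 ⟨1, star_one _, rfl⟩
  obtain ⟨c, -, ec⟩ : g * r * g⁻¹ ∈ RR K := (mem_normalizer_iff.1 h _).1 hr
  have := congrArg (fun k : GA (K × K) => (k (0, 1)).1) (e.trans ec)
  simp only [ql3_L] at this
  simp at this

theorem Opp.uniq {g : GA (K × K)} {α β α' β' : K} (ho : Opp g α β) (ho' : Opp g α' β') :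
    α = α' ∧ β = β' := by
  obtain ⟨t, -, e⟩ := (ho'.2 _).1 ((ho.2 _).2 ⟨1, star_one _, rfl⟩)
  have h1 := congrArg (fun k : GA (K × K) => (k (0, 1)).1) e
  simp only [ql3_L, star_zero, mul_zero, add_zero, sub_zero, mul_one, zero_add] at h1
  subst h1
  have := ql1_indep (a := α - α') (e := β - β') fun x => by
    have h2 := congrArg (fun k : GA (K × K) => (k (x, 0)).1) e
    simp only [ql3_L] at h2
    linear_combination -h2
  exact ⟨sub_eq_zero.1 this.1, sub_eq_zero.1 this.2⟩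

theorem Opp.L_mem {Y : Subgroup (GA (K × K))} (h : YH p Y) {g : GA (K × K)} (hg : g ∈ Y) {α β : K}
    (ho : Opp g α β) {t : K} (ht : star t = t) : ug α β * rl t * (ug α β)⁻¹ ∈ Y := by
  obtain ⟨r, hr, e⟩ := (ho.2 _).2 ⟨t, ht, rfl⟩
  rw [e]
  exact mul_mem (mul_mem hg (h.syl.le hr)) (inv_mem hg)

theorem Opp.mul {g k : GA (K × K)} {α β α' β' : K} (ho : Opp g α β) (sα : star α' = α')
    (e : ∀ t, star t = t → k * (ug α β * rl t * (ug α β)⁻¹) = ug α' β' * rl t * (ug α' β')⁻¹ * k) :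
    Opp (k * g) α' β' := by
  refine ⟨sα, fun s => ⟨?_, ?_⟩⟩
  · rintro ⟨r, hr, rfl⟩
    obtain ⟨t, ht, et⟩ := (ho.2 _).1 ⟨r, hr, rfl⟩
    refine ⟨t, ht, ?_⟩
    rw [← mul_inv_eq_iff_eq_mul.2 (e t ht), ← et]
    group
  · rintro ⟨t, ht, rfl⟩
    obtain ⟨r, hr, er⟩ := (ho.2 _).2 ⟨t, ht, rfl⟩
    refine ⟨r, hr, ?_⟩
    rw [← mul_inv_eq_iff_eq_mul.2 (e t ht), er]
    group

theorem Opp.rr_mul {g : GA (K × K)} {α β c : K} (ho : Opp g α β) (hc : star c = c) :
    Opp (rr c * g) (α + c) β :=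
  ho.mul (by rw [star_add, ho.1, hc]) fun t ht => LinearEquiv.ext fun v => by
    rw [ga_mul, ga_mul _ (rr c), ql3_L, ql3_L]
    ext
    · simp only [rr_apply]; ring
    · simp only [rr_apply, star_add, star_sub, star_mul', star_star, hc]; ring

theorem Opp.norm {g g' : GA (K × K)} {α β : K} (ho : Opp g α β) (ho' : Opp g' α β) :
    g'⁻¹ * g ∈ normalizer (RR K : Set (GA (K × K))) := by
  refine mem_normalizer_iff.2 fun r => ⟨fun hr => ?_, fun hr => ?_⟩
  · obtain ⟨r', hr', e⟩ := (ho'.2 _).2 ((ho.2 _).1 ⟨r, hr, rfl⟩)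
    have : g'⁻¹ * g * r * (g'⁻¹ * g)⁻¹ = r' := by
      calc _ = g'⁻¹ * (g * r * g⁻¹) * g' := by group
        _ = r' := by rw [e]; group
    rw [this]; exact hr'
  · obtain ⟨r', hr', e⟩ := (ho.2 _).2 ((ho'.2 _).1 ⟨_, hr, rfl⟩)
    have : r = r' := by
      calc r = g⁻¹ * (g' * (g'⁻¹ * g * r * (g'⁻¹ * g)⁻¹) * g'⁻¹) * g := by group
        _ = r' := by rw [e]; group
    rw [this]; exact hr'

theorem ql3_scal {Y : Subgroup (GA (K × K))} (h : YH p Y) (hq : 3 < qq K) {g r : GA (K × K)}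
    (hg : g ∈ Y) (hr : r ∈ RR K) : ∃ t, ∀ b, ((g * r * g⁻¹) (0, b)).1 = t * b := by
  by_cases hn : g ∈ normalizer (RR K : Set (GA (K × K)))
  · obtain ⟨c, -, ec⟩ : g * r * g⁻¹ ∈ RR K := (mem_normalizer_iff.1 hn _).1 hr
    exact ⟨0, fun b => by simp [ec]⟩
  · obtain ⟨α, β, ho, -⟩ := opp_of h hq hg hn
    obtain ⟨t, -, e⟩ := (ho.2 _).1 ⟨r, hr, rfl⟩
    exact ⟨t, fun b => by rw [e, ql3_L]; simp⟩

theorem beta_eq {Y : Subgroup (GA (K × K))} (h : YH p Y) (hq : 3 < qq K) {g g' : GA (K × K)}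
    (hg : g ∈ Y) (hg' : g' ∈ Y) {α β α' β' : K} (ho : Opp g α β) (ho' : Opp g' α' β') : β = β' := by
  by_cases h2 : (2 : K) = 0
  · obtain ⟨a, b, h1, hb⟩ := opp_of h hq hg ho.not_mem
    obtain ⟨a', b', h1', hb'⟩ := opp_of h hq hg' ho'.not_mem
    rw [(ho.uniq h1).2, (ho'.uniq h1').2, hb h2, hb' h2]
  have sc : star (1 + α - α') = 1 + α - α' := by rw [star_sub, star_add, star_one, ho.1, ho'.1]
  have ho'' := ho'.rr_mul sc
  rw [show α' + (1 + α - α') = α + 1 by ring] at ho''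
  obtain ⟨r, hr, e⟩ := (ho''.2 _).2 ⟨1, star_one _, rfl⟩
  have s1 : star (-1 : K) = -1 := by rw [star_neg, star_one]
  obtain ⟨t, ht⟩ := ql3_scal h hq (mul_mem (mul_mem (ho.L_mem h hg (star_one _)) (h.rr_mem s1))
    (mul_mem (h.rr_mem sc) hg')) hr
  have hx : ∀ k a : GA (K × K), k * a * r * (k * a)⁻¹ = k * (a * r * a⁻¹) * k⁻¹ := fun k a => by group
  rw [hx, ← e] at ht
  have hi : ∀ b : K, (ug α β * rl (1 : K) * (ug α β)⁻¹ * rr (-1 : K))⁻¹ (0, b) = ug α β (-b, 0) :=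
    fun b => by
      rw [← LinearEquiv.injective (ug α β * rl (1 : K) * (ug α β)⁻¹ * rr (-1 : K)) |>.eq_iff,
        ga_apply_inv, ga_mul, ql2_rr_ug, ga_mul, ga_mul, ga_inv_apply]
      simp
  have := (ql1_indep (a := 1 + (β' - β) * star (β' - β) - t) (e := 2 * (β' - β)) fun b => by
    have h1 := ht b
    rw [ga_mul, hi, ga_mul, ga_mul _ (rr (-1 : K)), ql3_L, ql3_L] at h1
    simp only [rr_apply, ug_apply, star_add, star_sub, star_mul', star_star, star_neg, star_one,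
      star_zero, ho.1] at h1 ⊢
    linear_combination h1).2
  exact (sub_eq_zero.1 ((mul_eq_zero.1 this).resolve_left h2)).symm

theorem two_Y {Y : Subgroup (GA (K × K))} (h : YH p Y) (hq : 3 < qq K) {g₀ : GA (K × K)} (hg : g₀ ∈ Y)
    (hn : g₀ ∉ normalizer (RR K : Set (GA (K × K)))) : Two (RR K) Y g₀ := by
  intro g hg'
  refine or_iff_not_imp_left.2 fun hn' => ?_
  obtain ⟨α₀, β₀, h0, -⟩ := opp_of h hq hg hn
  obtain ⟨α, β, h1, -⟩ := opp_of h hq hg' hn'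
  obtain rfl := beta_eq h hq hg hg' h0 h1
  have sc : star (α - α₀) = α - α₀ := by rw [star_sub, h0.1, h1.1]
  have h2 := h0.rr_mul sc
  rw [add_sub_cancel] at h2
  exact ⟨_, ⟨_, sc, rfl⟩, h1.norm h2⟩

theorem ql3_conj_rr (α β c : K) : ug α β * rr c * (ug α β)⁻¹ = rr c := by
  rw [mul_inv_eq_iff_eq_mul]
  exact LinearEquiv.ext fun v => (ql2_rr_ug c α β v).symm

theorem tor_Y {Y : Subgroup (GA (K × K))} (h : YH p Y) (hq : 3 < qq K)
    (hn : ∃ g ∈ Y, g ∉ normalizer (RR K : Set (GA (K × K)))) {μ : K} (sμ : star μ = μ) (h0 : μ ≠ 0) :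
    ∃ t ∈ Y, t ∈ normalizer (RR K : Set (GA (K × K))) ∧ ∀ v, (t v).1 = μ⁻¹ * v.1 := by
  obtain ⟨g, hg, hn⟩ := hn
  obtain ⟨α, β, ho, -⟩ := opp_of h hq hg hn
  let Y' := Y.comap (MulAut.conj (ug α β)).toMonoidHom
  have hl : ∀ {t : K}, star t = t → rl t ∈ Y' := fun ht => ho.L_mem h hg ht
  have hr : ∀ {t : K}, star t = t → rr t ∈ Y' := fun {t} ht => by
    show ug α β * rr t * (ug α β)⁻¹ ∈ Y
    rw [ql3_conj_rr]; exact h.rr_mem ht
  have s1 : star μ⁻¹ = μ⁻¹ := by rw [star_inv₀, sμ]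
  have s2 : star (-μ) = -μ := by rw [star_neg, sμ]
  have s3 : star (-1 : K) = -1 := by rw [star_neg, star_one]
  have hm : ug α β * (rl μ⁻¹ * (rr (-μ) * (rl μ⁻¹ * (rl (-1 : K) * (rr (1 : K) * rl (-1 : K)))))) *
      (ug α β)⁻¹ ∈ Y :=
    (mul_mem (hl s1) (mul_mem (hr s2) (mul_mem (hl s1) (mul_mem (hl s3)
      (mul_mem (hr (star_one _)) (hl s3))))) : _ ∈ Y')
  have e : ∀ v, ((ug α β * (rl μ⁻¹ * (rr (-μ) * (rl μ⁻¹ * (rl (-1 : K) * (rr (1 : K) *
      rl (-1 : K)))))) * (ug α β)⁻¹) v).1 = μ⁻¹ * v.1 := fun v => by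
    simp only [ga_mul, ug_apply, ug_inv_apply, rl_apply, rr_apply]
    field_simp
    ring
  refine ⟨_, hm, ?_, e⟩
  by_contra hN
  exact one_ne_zero (dis_of h hq _ hm hN 1 (by rw [e]; simp))

theorem wr_mem {Y : Subgroup (GA (K × K))} (h : YH p Y) (hq : 3 < qq K)
    (hn : ∃ g ∈ Y, g ∉ normalizer (RR K : Set (GA (K × K)))) {ν : GA (K × K)} (hν : ν ∈ Y) {l : K}
    (h1 : l * star l = 1) (h2 : l * l ≠ 1) (e : ∀ v, ν v = (l * v.1, l * v.2)) : wr K ∈ Y := by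
  obtain ⟨g, hg, hn⟩ := hn
  obtain ⟨α, β, ho, -⟩ := opp_of h hq hg hn
  have ho' : Opp (ν * g) α (β * (l * l)) := ho.mul ho.1 fun t ht => LinearEquiv.ext fun v => by
    rw [ga_mul, ga_mul _ ν, ql3_L, ql3_L, e, e]
    ext
    · simp only [star_mul']
      linear_combination (t * β * l * star v.1) * h1
    · simp only [star_add, star_sub, star_mul', star_star, ht, ho.1]
      linear_combination (α * t * β * l * star v.1 - β * l * t * star v.2 + β * l * t * α * star v.1 +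
        β * t * star β * v.1 * l * (1 + l * star l)) * h1
  have hβ : β = 0 := by
    have := beta_eq h hq hg (mul_mem hν hg) ho ho'
    have h3 : β * (l * l - 1) = 0 := by linear_combination -this
    exact (mul_eq_zero.1 h3).resolve_right (sub_ne_zero.2 h2)
  subst hβ
  have hl : rl (1 : K) ∈ Y := by
    have e1 : ug α 0 = rr α := LinearEquiv.ext fun v => by simp
    have := ho.L_mem h hg (star_one _)
    rw [e1] at this
    have := mul_mem (mul_mem (inv_mem (h.rr_mem ho.1)) this) (h.rr_mem ho.1)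
    simpa [mul_assoc] using this
  exact mul_mem (mul_mem hl (h.rr_mem (by rw [star_neg, star_one]))) hl

end Cfsg.Agent.U4F
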