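import Mathlib
import Cfsg.Agent.U4F.Grp
import Cfsg.Agent.Fus.Alperin

/-!
# `C_{Aut_F(Q)}(Z)` on `Q / Z`
-/

set_option autoImplicit false
set_option linter.unusedSectionVars false
set_option linter.unusedVariables false

namespace Cfsg.Agent.U4F

open Cfsg Cfsg.FusionSystem Cfsg.Agent.Fus Subgroup
open scoped commutatorElement

variable {K : Type*} [Field K] [StarRing K] [UF K] {p : ℕ} [Fact p.Prime] [CharP K p]

/-- A section of `Q → Q / Z`. -/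
def ybL (v : K × K) : UG K := ⟨⟨0, v.2, 0, by simp, by simp⟩, v.1⟩

theorem ybL_mem (v : K × K) : ybL v ∈ Qs K := rfl

theorem yb_ZQ : Zs K ≤ Qs K := fun _ h => h.2.1

theorem yb_mul {g h : UG K} (hh : h ∈ Qs K) : ((g * h).x, (g * h).v.b) = (g.x, g.v.b) + (h.x, h.v.b) := by
  simp [mem_Qs.1 hh]

theorem yb_mem_Z {g h : UG K} (hg : g ∈ Qs K) (hh : h ∈ Qs K) : g⁻¹ * h ∈ Zs K ↔ (g.x, g.v.b) = (h.x, h.v.b) := by
  simp [mem_Zs, mem_Qs.1 hg, mem_Qs.1 hh, neg_add_eq_zero]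

theorem yb_comm {g h : UG K} (hg : g ∈ Qs K) (hh : h ∈ Qs K) :
    ⁅g, h⁆ ∈ Zs K ∧ ⁅g, h⁆.v.a = BB (g.x, g.v.b) (h.x, h.v.b) := by
  simp [commutatorElement_def, mem_Zs, mem_Qs.1 hg, mem_Qs.1 hh, BB]
  ring

theorem yb_sq (h2 : (2 : K) = 0) {g : UG K} (hg : g ∈ Qs K) : g * g ∈ Zs K ∧ (g * g).v.a = QF (g.x, g.v.b) := by
  simp only [mem_Zs, QF, mul_x, mul_v, add_a, add_b, add_c, uu_a, uu_b, uu_c, mem_Qs.1 hg]
  refine ⟨⟨?_, by simp, ?_⟩, ?_⟩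
  · linear_combination g.x * h2
  · linear_combination g.v.b * h2
  · linear_combination g.v.a * h2

theorem yb_norm (s : UG K) : s ∈ normalizer (Qs K : Set (UG K)) := by
  haveI := normal_Qs (K := K)
  rw [normalizer_eq_top]; trivial

theorem yb_full (F : FS K) : F.IsFullyNormalized (Qs K) :=
  F.isFullyNormalized_of_le_normalizer le_top fun s _ => yb_norm s

theorem QInd.congr {F : FS K} {f f' : UG K → UG K} {M : GA (K × K)} (h : QInd F f M) (e : ∀ g ∈ Qs K, f g = f' g) :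
    QInd F f' M := ⟨h.iso.congr e, fun z hz => (e z (yb_ZQ hz)).symm.trans (h.fix z hz), fun g hg => e g hg ▸ h.ind g hg⟩

theorem QInd.unique {F : FS K} {f : UG K → UG K} {M M' : GA (K × K)} (h : QInd F f M) (h' : QInd F f M') : M = M' :=
  LinearEquiv.ext fun v => (h.ind _ (ybL_mem v)).symm.trans (h'.ind _ (ybL_mem v))

theorem QInd.comp {F : FS K} {f f' : UG K → UG K} {M M' : GA (K × K)} (h : QInd F f M)
    (h' : QInd F f' M') : QInd F (fun g => f (f' g)) (M * M') :=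
  ⟨h.iso.comp h'.iso, fun z hz => by beta_reduce; rw [h'.fix z hz, h.fix z hz], fun g hg => by
    beta_reduce; rw [h.ind _ (h'.iso.maps g hg), h'.ind g hg, ga_mul]⟩

theorem QInd.inv {F : FS K} {f : UG K → UG K} {M : GA (K × K)} (h : QInd F f M) :
    ∃ f', QInd F f' M⁻¹ ∧ (∀ g ∈ Qs K, f' (f g) = g) ∧ ∀ g ∈ Qs K, f (f' g) = g := by
  obtain ⟨f', h1, h2, h3⟩ := h.iso.inv
  refine ⟨f', ⟨h1, fun z hz => ?_, fun g hg => ?_⟩, h2, h3⟩
  · rw [← h.fix z hz, h2 z (yb_ZQ hz), h.fix z hz]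
  · rw [← ga_inv_apply M ((f' g).x, _), ← h.ind _ (h1.maps g hg), h3 g hg]

theorem yb_ind {F : FS K} {f : UG K → UG K} (hf : F.Iso (Qs K) (Qs K) f) (hz : ∀ z ∈ Zs K, f z = z) {g : UG K}
    (hg : g ∈ Qs K) : ((f (ybL (g.x, g.v.b))).x, (f (ybL (g.x, g.v.b))).v.b) = ((f g).x, (f g).v.b) := by
  have h := (yb_mem_Z (ybL_mem (g.x, g.v.b)) hg).2 rfl
  rw [← yb_mem_Z (hf.maps _ (ybL_mem _)) (hf.maps _ hg), ← hf.mor.map_inv (ybL_mem _),
    ← hf.mor.map_mul (Subgroup.inv_mem _ (ybL_mem _)) hg, hz _ h]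
  exact h

theorem exists_qInd {F : FS K} {f : UG K → UG K} (hf : F.Iso (Qs K) (Qs K) f)
    (hz : ∀ z ∈ Zs K, f z = z) : ∃ M, QInd F f M := by
  obtain ⟨f', h1, h2, h3⟩ := hf.inv
  have hz' : ∀ z ∈ Zs K, f' z = z := fun z h => by rw [← hz z h, h2 z (yb_ZQ h), hz z h]
  refine ⟨mkA (fun v => ((f (ybL v)).x, (f (ybL v)).v.b)) (fun v => ((f' (ybL v)).x, (f' (ybL v)).v.b))
    (fun v w => ?_) (fun v => ?_) fun v => ?_, hf, hz, fun g hg => (yb_ind hf hz hg).symm⟩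
  · rw [← yb_mul (hf.maps _ (ybL_mem w)), ← hf.mor.map_mul (ybL_mem v) (ybL_mem w),
      ← yb_ind hf hz (mul_mem (ybL_mem v) (ybL_mem w)), yb_mul (ybL_mem w)]
    rfl
  · beta_reduce
    rw [yb_ind h1 hz' (hf.maps _ (ybL_mem v)), h2 _ (ybL_mem v)]; rfl
  · beta_reduce
    rw [yb_ind hf hz (h1.maps _ (ybL_mem v)), h3 _ (ybL_mem v)]; rfl

theorem qInd_conj (F : FS K) (s : UG K) : QInd F (fun g => s * g * s⁻¹) (rr (-s.v.c)) :=
  ⟨F.iso_conj_of_mem_normalizer le_top trivial (yb_norm s), fun z hz => by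
    beta_reduce; rw [← Zs_comm hz, mul_inv_cancel_right], fun g hg => by
    simp [conj_eq, mem_Qs.1 hg]; ring⟩

theorem mem_YF {F : FS K} {M : GA (K × K)} : M ∈ YF F ↔ ∃ f, QInd F f M := by
  refine ⟨fun h => ?_, fun h => subset_closure h⟩
  induction h using closure_induction with
  | mem _ h => exact h
  | one => exact ⟨_, by simpa [rr_zero] using qInd_conj F 1⟩
  | mul _ _ _ _ h h' => exact ⟨_, h.choose_spec.comp h'.choose_spec⟩
  | inv _ _ h => exact ⟨_, h.choose_spec.inv.choose_spec.1⟩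

theorem sp_Y (F : FS K) : Sp (YF F) := by
  refine ⟨fun M hM v w => ?_, fun h2 M hM v => ?_⟩ <;> obtain ⟨f, h⟩ := mem_YF.1 hM
  · obtain ⟨a1, a2⟩ := yb_comm (ybL_mem v) (ybL_mem w)
    have a3 := (yb_comm (h.iso.maps _ (ybL_mem v)) (h.iso.maps _ (ybL_mem w))).2
    rw [← h.iso.mor.mulOn.map_commutatorElement (ybL_mem v) (ybL_mem w), h.fix _ a1, a2, h.ind _ (ybL_mem v),
      h.ind _ (ybL_mem w)] at a3
    exact a3.symm
  · obtain ⟨a1, a2⟩ := yb_sq h2 (ybL_mem v)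
    have a3 := (yb_sq h2 (h.iso.maps _ (ybL_mem v))).2
    rw [← h.iso.mor.map_mul (ybL_mem v) (ybL_mem v), h.fix _ a1, a2, h.ind _ (ybL_mem v)] at a3
    exact a3.symm

/-- `C_{Aut_F(Q)}(Z)`. -/
def ybC (F : FS K) : Subgroup (MulAut (Qs K)) := F.autGroup (Qs K) ⊓ secStab (Qs K) (Zs K) ⊥

theorem mem_ybC {F : FS K} {α : MulAut (Qs K)} : α ∈ ybC F ↔ ∃ M, QInd F (totA α) M :=
  ⟨fun h => exists_qInd (iso_totA le_top h.1) fun z hz =>
    (inv_mul_eq_one.1 (mem_bot.1 (h.2.2 z hz (yb_ZQ hz)))).symm,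
  fun ⟨M, h⟩ => ⟨(mem_autGroup_iff le_top).2 h.iso.mor, mem_secStab_of yb_ZQ bot_le fun z hz => by
    rw [h.fix z hz, inv_mul_cancel]; exact one_mem _⟩⟩

/-- The action on `Q / Z`. -/
noncomputable def ybHom (F : FS K) : ybC F →* GA (K × K) :=
  MonoidHom.mk' (fun α => (mem_ybC.1 α.2).choose) fun α β => (mem_ybC.1 (α * β).2).choose_spec.unique
    (((mem_ybC.1 α.2).choose_spec.comp (mem_ybC.1 β.2).choose_spec).congr fun g hg => (totA_mul _ _ hg).symm)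

theorem ybHom_spec {F : FS K} (α : ybC F) : QInd F (totA α.1) (ybHom F α) := (mem_ybC.1 α.2).choose_spec

theorem range_ybHom (F : FS K) : (ybHom F).range = YF F := by
  ext M
  refine ⟨fun ⟨α, e⟩ => mem_YF.2 ⟨_, e ▸ ybHom_spec α⟩, fun h => ?_⟩
  obtain ⟨f, h⟩ := mem_YF.1 h
  have h' := h.congr fun g hg => (h.iso.totA_aut hg).symm
  exact ⟨⟨_, mem_ybC.2 ⟨M, h'⟩⟩, (ybHom_spec _).unique h'⟩

theorem qInd_cAut (F : FS K) (s : UG K) : QInd F (totA (cAut (Qs K) s)) (rr (-s.v.c)) :=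
  (qInd_conj F s).congr fun g hg => (totA_cAut (yb_norm s) hg).symm

theorem syl_Y {F : FS K} (hF : F.IsSaturated p) : Syl p (RR K) (YF F) := by
  refine ⟨?_, fun h => (hF.fullyAutomized (isPGroup_top K p) (yb_full F)).not_dvd (isPGroup_top K p) ?_⟩
  · rintro _ ⟨c, hc, rfl⟩
    exact mem_YF.2 ⟨_, by simpa using qInd_conj F (jv ⟨0, 0, -c, by simp, by simp [hc]⟩)⟩
  have h1 : autInducedBy ⊤ (Qs K) ≤ ybC F := fun α hα => by
    obtain ⟨s, -, rfl⟩ := mem_autInducedBy_iff_cAut.1 hα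
    exact mem_ybC.2 ⟨_, qInd_cAut F s⟩
  rw [← range_ybHom, ← index_comap] at h
  rw [← relIndex_mul_relIndex _ (ybC F) _ h1 inf_le_left]
  refine (h.trans (index_dvd_of_le ?_)).mul_right _
  rintro ⟨α, hα⟩ h2
  obtain ⟨s, -, rfl⟩ := mem_autInducedBy_iff_cAut.1 (mem_subgroupOf.1 h2)
  exact ⟨_, by simp, (ybHom_spec ⟨_, hα⟩).unique (qInd_cAut F s)⟩

theorem ker_Y {F : FS K} (hF : F.IsSaturated p) {f : UG K → UG K} (h : QInd F f 1) :
    ∃ s ∈ Qs K, ∀ g ∈ Qs K, f g = s * g * s⁻¹ := by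
  obtain ⟨α, hα, e⟩ := h.iso.exists_aut
  let c : ℕ → Subgroup (UG K) := fun | 0 => Qs K | 1 => Zs K | _ => ⊥
  have h1 : α ∈ chainStab (Qs K) c 2 := mem_chainStab_of le_rfl (fun i hi => by
    interval_cases i
    exacts [yb_ZQ, bot_le]) fun i hi g hg => by
      interval_cases i
      · rw [e g hg]
        exact (yb_mem_Z hg (h.iso.maps g hg)).2 (h.ind g hg).symm
      · rw [e g (yb_ZQ hg), h.fix g hg, inv_mul_cancel]; exact one_mem _
  obtain ⟨χ, hχ, h2⟩ := (hF.fullyAutomized (isPGroup_top K p) (yb_full F)).exists_conj (isPGroup_top K p)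
    ((isPGroup_chainStab ((isPGroup_top K p).to_le le_top) (C := c) (n := 2) rfl bot_le).to_le (zpowers_le.2 h1))
    (zpowers_le.2 hα)
  obtain ⟨s, -, h3⟩ := mem_autInducedBy_iff_cAut.1 (h2 α (mem_zpowers α))
  have h4 := (conj_mem_secStab (mem_chainStab.1 h1 0 two_pos) ((invA_top _).le_stabA hχ)
    ((invA_autGroup_of_iso le_top yb_ZQ fun f hf g hg => iso_Q_Z hf hg).le_stabA hχ)).2 (sx 1) rfl rfl
  rw [← h3, totA_cAut (yb_norm s) (show sx 1 ∈ Qs K from rfl)] at h4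
  have hs : s ∈ Qs K := by simpa [grp_comm_b, mem_Qs] using (grp_comm_b s (sx 1)).symm.trans h4.2.2
  refine ⟨totA χ⁻¹ s, totA_mem _ hs, fun g hg => ?_⟩
  rw [← e g hg, show α = χ⁻¹ * (cAut (Qs K) s * χ) by rw [h3]; group, totA_mul _ _ hg, totA_mul _ _ hg,
    totA_cAut (yb_norm s) (totA_mem χ hg), (mulOn_totA _).map_conj hs (totA_mem χ hg), totA_inv_totA χ hg]

theorem yb_extN {F : FS K} (hF : F.IsSaturated p) {f : UG K → UG K} {M : GA (K × K)} (h : QInd F f M) {s : UG K}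
    (hs : M * rr (-s.v.c) * M⁻¹ ∈ RR K) : s ∈ extN ⊤ (Qs K) f := by
  obtain ⟨c, hc, e⟩ := hs
  obtain ⟨f', h1, h2, -⟩ := h.inv
  have h3 := (qInd_conj F (jv ⟨0, 0, c, by simp, hc⟩)).comp ((h.comp (qInd_conj F s)).comp h1)
  rw [e, jv_v, rr_mul, neg_add_cancel, rr_zero] at h3
  obtain ⟨t, -, h4⟩ := ker_Y hF h3
  refine ⟨trivial, yb_norm s, (jv ⟨0, 0, c, by simp, hc⟩)⁻¹ * t, trivial, fun g hg => ?_⟩
  have h5 := h4 _ (h.iso.maps g hg)
  rw [h2 g hg] at h5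
  rw [mul_assoc _ t, mul_inv_rev, ← mul_assoc, mul_assoc _ _ t⁻¹, ← h5]
  group

theorem ext_Y {F : FS K} (hF : F.IsSaturated p) {f : UG K → UG K} {M : GA (K × K)} (h : QInd F f M)
    (hn : M ∈ normalizer (RR K : Set (GA (K × K)))) : ∃ α ∈ AF F, ∀ g ∈ Qs K, α g = f g := by
  obtain ⟨f', hf, e⟩ := (hF.receptive_of_fullyNormalized (isPGroup_top K p) (yb_full F)).extend h.iso
  obtain ⟨α, hα, e'⟩ := exists_AF (hf.mono fun s _ => yb_extN hF h
    ((mem_normalizer_iff.1 hn _).1 ⟨_, by simp, rfl⟩))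
  exact ⟨α, hα, fun g hg => (e' g).trans (e g hg)⟩

end Cfsg.Agent.U4F
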