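import Mathlib
import Cfsg.Agent.U4F.YB1
import Cfsg.Agent.U4F.QL3
import Cfsg.Agent.U4F.DgB

/-!
# The Weyl element on `Q` is standard
-/

set_option autoImplicit false
set_option linter.unusedSectionVars false
set_option linter.unusedVariables false

namespace Cfsg.Agent.U4F

open Cfsg Cfsg.FusionSystem Cfsg.Agent.Fus Subgroup

variable {K : Type*} [Field K] [StarRing K] [UF K] {p : ℕ} [Fact p.Prime] [CharP K p]

theorem qstd_fix {z : UG K} (hz : z ∈ Zs K) : wq z = z := by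
  obtain ⟨a, b, c⟩ := hz
  apply UG.ext4 <;> simp [wq, a, b, c]

theorem qInd_wq {F : FS K} (h : HasW F) : QInd F wq (wr K) := by
  refine ⟨⟨h, fun _ _ => rfl, fun y hy => ⟨⟨⟨y.v.a - (y.v.b * star y.x + star y.v.b * y.x), y.x, 0, by simp; ring,
    by simp⟩, -y.v.b⟩, rfl, ?_⟩⟩, fun z hz => qstd_fix hz, fun g _ => by rw [wr_apply]; rfl⟩
  apply UG.ext4 <;> simp [wq, mem_Qs.1 hy]
  ring

theorem qInd_D {F : FS K} {ν : MulAut (UG K)} (hν : ν ∈ AF F) {l : K} (hD : IsD l 1 (RingEquiv.refl K) ν)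
    (h1 : l * star l = 1) : ∃ M, QInd F ν M ∧ ∀ v, M v = (l * v.1, l * v.2) := by
  obtain ⟨M, hM⟩ := exists_qInd (F := F) (f := ν) ⟨(mem_AF.1 hν).mono le_top, fun _ => aut_Q ν, fun y hy =>
    ⟨ν⁻¹ y, aut_Q _ hy, MulAut.apply_inv_self _ ν y⟩⟩ fun z ⟨a, b, c⟩ => by
      apply UG.ext4 <;> simp [hD.a, hD.b, hD.c, hD.x, a, b, c, h1]
  refine ⟨M, hM, fun v => ?_⟩
  rw [← hM.ind ⟨⟨0, v.2, 0, by simp, by simp⟩, v.1⟩ rfl, hD.x, hD.b]
  simp

theorem hasW_of {F : FS K} (hF : F.IsSaturated p) {ν : MulAut (UG K)} (hν : ν ∈ AF F) {l : K}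
    (hD : IsD l 1 (RingEquiv.refl K) ν) (h1 : l * star l = 1) (h2 : l ≠ 1) (hw : wr K ∈ YF F) :
    HasW F := by
  obtain ⟨f, hf⟩ := mem_YF.1 hw
  obtain ⟨M, hM, eM⟩ := qInd_D hν hD h1
  obtain ⟨f', hf', e1, -⟩ := (hf.comp hM).inv
  have hk := (hM.comp hf).comp hf'
  rw [show M * wr K = wr K * M from LinearEquiv.ext fun v => by simp [ga_mul, eM, wr_apply], mul_inv_cancel] at hk
  obtain ⟨s, hs, es⟩ := ker_Y hF hk
  have fx : ∀ g ∈ Qs K, (f g).x = g.v.b := fun g hg => by simpa [wr_apply] using congrArg Prod.fst (hf.ind g hg)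
  have fb : ∀ g ∈ Qs K, (f g).v.b = -g.x := fun g hg => by simpa [wr_apply] using congrArg Prod.snd (hf.ind g hg)
  have fc : ∀ g ∈ Qs K, (f g).v.c = 0 := hf.iso.maps
  obtain ⟨φ, hφ⟩ : ∃ φ : UG K → K, ∀ g, φ g = (f g).v.a - (wq g).v.a := ⟨_, fun _ => rfl⟩
  have add : ∀ g ∈ Qs K, ∀ h ∈ Qs K, φ (g * h) = φ g + φ h := fun g hg h hh => by
    rw [hφ, hφ, hφ, hf.iso.mor.map_mul hg hh]
    simp [wq, fx g hg, fb h hh, fc h hh, mem_Qs.1 hh]
    ring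
  have dep : ∀ g ∈ Qs K, ∀ h ∈ Qs K, g.x = h.x → g.v.b = h.v.b → φ g = φ h := fun g hg h hh a b => by
    have hz : g * h⁻¹ ∈ Zs K := by simp [mem_Zs, a, b, mem_Qs.1 hg, mem_Qs.1 hh]
    rw [← inv_mul_cancel_right g h, add _ hz.2.1 h hh, hφ (g * h⁻¹), hf.fix _ hz, qstd_fix hz, sub_self, zero_add]
  have hl : 1 - l ≠ 0 := sub_ne_zero.2 h2.symm
  obtain ⟨m, hm⟩ : ∃ m, m * (1 - l) = 1 := ⟨_, inv_mul_cancel₀ hl⟩
  have key : ∀ g ∈ Qs K, φ g = -(l * m * g.x * star s.x + star (l * m * g.x) * s.x) -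
      (s.v.b * star (l * m * g.v.b) + star s.v.b * (l * m * g.v.b)) := fun g hg => by
    let g₀ : UG K := ⟨⟨0, m * g.v.b, 0, by simp, by simp⟩, m * g.x⟩
    have h0 : g₀ ∈ Qs K := rfl
    have hn := aut_Q ν h0
    have a1 := dep g₀ h0 _ (mul_mem hg hn) (by simp [hD.x, g₀]; linear_combination g.x * hm)
      (by simp [hD.b, hD.c, g₀]; linear_combination g.v.b * hm)
    have a2 := es _ (hf.iso.maps _ hn)
    rw [e1 g₀ h0, conj_eq] at a2
    have a3 := congrArg (·.v.a) a2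
    rw [add g hg _ hn, hφ g₀, hφ (ν g₀)] at a1
    simp only [hD.a, add_a, sub_a, uu_a, fx _ hn, fb _ hn, fc _ hn, mem_Qs.1 hs, hD.x, hD.b, h1, wq, g₀,
      RingEquiv.refl_apply, star_mul', star_neg, mul_one, one_mul] at a1 a3 ⊢
    linear_combination a3 - a1 - (m * star m * (g.v.b * star g.x + star g.v.b * g.x)) * h1
  let t : UG K := ⟨⟨0, star (l * m) * s.v.b, 0, by simp, by simp⟩, star (l * m) * s.x⟩
  refine (hf.iso.mor.conj_comp (mem_top t⁻¹)).congr fun g hg => ?_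
  have h3 : f g = t * wq g * t⁻¹ := by
    have a1 := key g hg
    rw [hφ, sub_eq_iff_eq_add] at a1
    rw [conj_eq]
    apply UG.ext4 <;> simp [a1, fx g hg, fb g hg, fc g hg, t, wq]
    ring
  rw [h3]
  group

end Cfsg.Agent.U4F
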