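import Mathlib
import Cfsg.Agent.Fus.LieSkew4
import Cfsg.Agent.Cl.UOrder

/-!
# `SU₄` for the antidiagonal skew-Hermitian form: unitriangular and triangular elements
-/

set_option autoImplicit false

namespace Cfsg.Agent.U4F.R

open Matrix Subgroup Cfsg.Agent.Cl Cfsg.Agent.Fus Cfsg.Agent.Fus.LF

variable {K : Type*} [Field K] {σ : K →+* K}

/-- The Gram matrix. -/
abbrev M4 (K : Type*) [Field K] : Matrix (Fin 4) (Fin 4) K := aM (sg 1)

theorem M4_eq : M4 K = !![0, 0, 0, 1; 0, 0, 1, 0; 0, -1, 0, 0; -1, 0, 0, 0] := by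
  ext i j
  fin_cases i <;> fin_cases j <;> simp [aM, sg, Fin.rev, Fin.lt_def, Fin.ext_iff]

/-- The special unitary group. -/
abbrev G0 (σ : K →+* K) : Subgroup (SpecialLinearGroup (Fin 4) K) := uMatSU σ (M4 K)

/-- The matrix of an element. -/
abbrev mt (g : G0 σ) : Matrix (Fin 4) (Fin 4) K := g.1.1

theorem mt_mul (g h : G0 σ) : mt (g * h) = mt g * mt h := rfl

theorem mt_one : mt (1 : G0 σ) = 1 := rfl

theorem mt_ext {g h : G0 σ} (e : mt g = mt h) : g = h := Subtype.ext (Subtype.ext e)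

theorem mt_form (g : G0 σ) : (mt g)ᵀ * M4 K * (mt g).map σ = M4 K := g.2

theorem mt_det (g : G0 σ) : (mt g).det = 1 := g.1.2

/-- An element from its matrix. -/
def mk (A : Matrix (Fin 4) (Fin 4) K) (h1 : A.det = 1) (h2 : Aᵀ * M4 K * A.map σ = M4 K) : G0 σ := ⟨⟨A, h1⟩, h2⟩

/-- The unitriangular elements. -/
abbrev U0 (σ : K →+* K) : Subgroup (G0 σ) := uG (suφ σ (M4 K)) id

/-- The triangular elements. -/
abbrev B0 (σ : K →+* K) : Subgroup (G0 σ) := pG (suφ σ (M4 K)) id

theorem sk {q : ℕ} (h : UField σ q) : Sk (suφ σ (M4 K)) (uMatForm σ (M4 K)) (sg (n := 4) 1) := by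
  have hi := h.invol
  obtain ⟨b, hb⟩ := hi.exists_trace_one
  have hr : ∀ j : Fin 4, j.rev ≠ j := by decide
  have hε : ∀ j : Fin 4, σ (sg 1 j) = -sg 1 j.rev := fun j => map_sg j fun e => absurd e (hr j)
  refine sk_of hi.invol hε (sg_lt 1) (sg_gt 1) (sg_ne one_ne_zero) (fun v => ?_) fun d i hd => absurd hd (hr i)
  refine ⟨b * uMatForm σ (aM (sg 1)) v v, ?_⟩
  have : σ (uMatForm σ (aM (sg 1)) v v) = -uMatForm σ (aM (sg 1)) v v := by
    rw [aM_form, map_sum, ← Finset.sum_neg_distrib, ← Equiv.sum_comp Fin.revPerm]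
    refine Finset.sum_congr rfl fun j _ => ?_
    simp only [map_mul, hε, hi.invol, Fin.revPerm_apply, Fin.rev_rev]
    ring
  rw [map_mul, this]
  linear_combination uMatForm σ (aM (sg 1)) v v * hb

theorem nonempty_equiv {q : ℕ} (h : UField σ q) : Nonempty (G0 σ ≃* SU 4 K q) := by
  obtain ⟨θ, h0, hθ⟩ := h.invol.exists_trace_zero
  obtain ⟨e⟩ := h.nonempty_uMatSU_equiv (M := θ • M4 K) (by
    rw [M4_eq]
    ext i j
    fin_cases i <;> fin_cases j <;> simp [hθ]) (by
    rw [det_smul]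
    exact mul_ne_zero (pow_ne_zero _ h0) (aM_det (sg_ne one_ne_zero)))
  rw [uMatSU_smul _ h0] at e
  exact ⟨e⟩

/-- The unitriangular matrix with parameters `a, b, c, t`. -/
def um (σ : K →+* K) (a b c t : K) : Matrix (Fin 4) (Fin 4) K :=
  !![1, t, b, a - b * σ t; 0, 1, c, σ b - c * σ t; 0, 0, 1, -σ t; 0, 0, 0, 1]

theorem um_det (a b c t : K) : (um σ a b c t).det = 1 := by
  rw [det_of_upperTriangular]
  · simp [um, Fin.prod_univ_four]
  · intro i j hij
    fin_cases i <;> fin_cases j <;> simp_all [um]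

theorem um_form (hi : ∀ x, σ (σ x) = x) {a c : K} (ha : σ a = a) (hc : σ c = c) (b t : K) :
    (um σ a b c t)ᵀ * M4 K * (um σ a b c t).map σ = M4 K := by
  rw [M4_eq]
  ext i j
  fin_cases i <;> fin_cases j <;> simp [um, mul_apply, Fin.sum_univ_four, hi, ha, hc] <;> ring

theorem um_mul {c' : K} (hc : σ c' = c') (a b c t a' b' t' : K) :
    um σ a b c t * um σ a' b' c' t' =
      um σ (a + (a' + (t * σ b' + σ t * b') + t * σ t * c')) (b + (b' + t * c')) (c + c') (t + t') := by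
  ext i j
  fin_cases i <;> fin_cases j <;> simp [um, mul_apply, Fin.sum_univ_four, hc] <;> ring

theorem um_inj {a b c t a' b' c' t' : K} (e : um σ a b c t = um σ a' b' c' t') :
    a = a' ∧ b = b' ∧ c = c' ∧ t = t' := by
  have h1 : t = t' := congrFun (congrFun e 0) 1
  have h2 : b = b' := congrFun (congrFun e 0) 2
  have h3 : c = c' := congrFun (congrFun e 1) 2
  have h4 : a - b * σ t = a' - b' * σ t' := congrFun (congrFun e 0) 3
  rw [h1, h2, sub_left_inj] at h4
  exact ⟨h4, h2, h3, h1⟩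

theorem mem_U0 (hi : ∀ x, σ (σ x) = x) {g : G0 σ} :
    g ∈ U0 σ ↔ ∃ a b c t, σ a = a ∧ σ c = c ∧ mt g = um σ a b c t := by
  rw [mem_uG]
  constructor
  · intro h
    have e : mt g = !![1, mt g 0 1, mt g 0 2, mt g 0 3; 0, 1, mt g 1 2, mt g 1 3; 0, 0, 1, mt g 2 3; 0, 0, 0, 1] := by
      ext i j
      fin_cases i <;> fin_cases j <;> first | rfl | exact h _ _ (by decide)
    have f := mt_form g
    rw [e, M4_eq] at f
    generalize mt g 0 1 = t at e f
    generalize mt g 0 2 = b at e f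
    generalize mt g 0 3 = x at e f
    generalize mt g 1 2 = c at e f
    generalize mt g 1 3 = y at e f
    generalize mt g 2 3 = z at e f
    have f1 := congrFun (congrFun f 3) 1
    have f2 := congrFun (congrFun f 2) 2
    have f3 := congrFun (congrFun f 3) 2
    have f4 := congrFun (congrFun f 3) 3
    simp [mul_apply, Fin.sum_univ_four] at f1 f2 f3 f4
    have z1 : z = -σ t := by linear_combination -f1
    have c1 : σ c = c := by linear_combination -f2
    have y1 : y = σ b - c * σ t := by rw [z1, c1] at f3; linear_combination f3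
    refine ⟨x + b * σ t, b, c, t, ?_, c1, ?_⟩
    · rw [y1, z1] at f4
      simp only [map_sub, map_mul, map_neg, map_add, hi, c1] at f4 ⊢
      linear_combination -f4
    · rw [e, um, y1, z1, add_sub_cancel_right]
  · rintro ⟨a, b, c, t, -, -, e⟩ i j hij
    change mt g i j = _
    rw [e]
    fin_cases i <;> fin_cases j <;> simp_all [um]

/-- The diagonal matrices. -/
def dm (x y z w : K) : Matrix (Fin 4) (Fin 4) K := !![x, 0, 0, 0; 0, y, 0, 0; 0, 0, z, 0; 0, 0, 0, w]

theorem dm_det (x y z w : K) : (dm x y z w).det = x * y * z * w := by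
  rw [det_of_upperTriangular]
  · simp [dm, Fin.prod_univ_four]
  · intro i j hij
    fin_cases i <;> fin_cases j <;> simp_all [dm]

theorem dm_mul (x y z w x' y' z' w' : K) : dm x y z w * dm x' y' z' w' = dm (x * x') (y * y') (z * z') (w * w') := by
  ext i j
  fin_cases i <;> fin_cases j <;> simp [dm, mul_apply, Fin.sum_univ_four]

theorem dm_one : dm (1 : K) 1 1 1 = 1 := by
  ext i j
  fin_cases i <;> fin_cases j <;> simp [dm]

theorem dm_form (hi : ∀ x, σ (σ x) = x) {x y z w k : K} (h1 : x * σ w = k) (h2 : y * σ z = k) (hk : σ k = k) :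
    (dm x y z w)ᵀ * M4 K * (dm x y z w).map σ = k • M4 K := by
  have h3 : w * σ x = k := by rw [← hk, ← h1, map_mul, hi, mul_comm]
  have h4 : z * σ y = k := by rw [← hk, ← h2, map_mul, hi, mul_comm]
  rw [M4_eq]
  ext i j
  fin_cases i <;> fin_cases j <;> simp [dm, mul_apply, Fin.sum_univ_four, h1, h2, h3, h4]

/-- A triangular element is a diagonal element times a unitriangular one. -/
theorem exists_of_B0 (hi : ∀ x, σ (σ x) = x) {g : G0 σ} (hg : g ∈ B0 σ) :
    ∃ d : G0 σ, d⁻¹ * g ∈ U0 σ ∧ ∃ x y z w, x * σ w = 1 ∧ y * σ z = 1 ∧ x * y * z * w = 1 ∧ mt d = dm x y z w := by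
  have h := mem_pG.1 hg
  have e : mt g = !![mt g 0 0, mt g 0 1, mt g 0 2, mt g 0 3; 0, mt g 1 1, mt g 1 2, mt g 1 3; 0, 0, mt g 2 2, mt g 2 3;
      0, 0, 0, mt g 3 3] := by
    ext i j
    fin_cases i <;> fin_cases j <;> first | rfl | exact h _ _ (by decide)
  have f := mt_form g
  rw [e, M4_eq] at f
  have f1 := congrFun (congrFun f 0) 3
  have f2 := congrFun (congrFun f 1) 2
  simp [mul_apply, Fin.sum_univ_four] at f1 f2
  have f3 : mt g 0 0 * mt g 1 1 * mt g 2 2 * mt g 3 3 = 1 := by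
    have := det_of_mem_pG hg
    rw [Fin.prod_univ_four] at this
    exact this.symm.trans (mt_det g)
  let d : G0 σ := mk (dm (mt g 0 0) (mt g 1 1) (mt g 2 2) (mt g 3 3)) (by rw [dm_det, f3])
    (by rw [dm_form hi f1 f2 (map_one σ), one_smul])
  have hd : d ∈ B0 σ := mem_pG.2 fun i j hij => by
    change dm _ _ _ _ i j = 0
    fin_cases i <;> fin_cases j <;> first | rfl | exact absurd hij (by decide)
  refine ⟨d, mem_uG_of_diag (mul_mem (inv_mem hd) hg) fun i => ?_, _, _, _, _, f1, f2, f3, rfl⟩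
  rw [diag_mul (inv_mem hd) hg, ← diag_inv hd i]
  congr 1
  change mt g i i = dm _ _ _ _ i i
  fin_cases i <;> rfl

end Cfsg.Agent.U4F.R
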