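import Mathlib
import Cfsg.Agent.U4F.RMat

/-!
# `SU₄`: Sylow subgroups, diagonal and field automorphisms, Weyl elements
-/

set_option autoImplicit false

namespace Cfsg.Agent.U4F.R

open Matrix Subgroup Cfsg.Agent.Cl Cfsg.Agent.Fus Cfsg.Agent.Fus.LF

variable {K : Type*} [Field K] {σ : K →+* K}

theorem finite_G0 [Finite K] : Finite (G0 σ) := inferInstance

theorem isPGroup_U0 {q p : ℕ} [Fact p.Prime] [CharP K p] (h : UField σ q) : IsPGroup p (U0 σ) :=
  have := h.finite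
  isPGroup_uG (sk h).inj

theorem not_dvd_index_U0 {q p : ℕ} [Fact p.Prime] [CharP K p] (h : UField σ q) : ¬ p ∣ (U0 σ).index :=
  have := h.finite
  (sk h).full.not_dvd_index (sk h).inj

theorem normalizer_U0 {q : ℕ} (h : UField σ q) : normalizer (U0 σ : Set (G0 σ)) ≤ B0 σ :=
  (sk h).full.normalizer_le

/-- The Sylow subgroups of `PSU₄` are isomorphic to `U0`. -/
theorem nonempty_sylow_equiv {p n : ℕ} [hp : Fact p.Prime] [CharP K p] (h : UField σ (p ^ n)) (hn : 1 ≤ n)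
    (T : Sylow p (PSU 4 K (p ^ n))) : Nonempty ((T : Subgroup (PSU 4 K (p ^ n))) ≃* U0 σ) := by
  obtain ⟨e⟩ := nonempty_equiv h
  have := h.finite
  have : Finite (SU 4 K (p ^ n)) := Finite.of_equiv _ e.toEquiv
  let π : G0 σ →* PSU 4 K (p ^ n) := (QuotientGroup.mk' _).comp e.toMonoidHom
  have hs : Function.Surjective π := (QuotientGroup.mk'_surjective _).comp e.surjective
  let P : Sylow p (G0 σ) := (isPGroup_U0 h).toSylow (not_dvd_index_U0 h)
  let T' := P.mapSurjective hs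
  have hk : ¬ p ∣ Nat.card π.ker := by
    have e1 : Nat.card π.ker = Nat.card (Subgroup.center (SU 4 K (p ^ n))) := by
      rw [← MonoidHom.comap_ker, QuotientGroup.ker_mk']
      exact Nat.card_congr (e.toEquiv.subtypeEquiv fun _ => Iff.rfl)
    rw [e1, h.card_center_SU (by norm_num)]
    intro hd
    exact hp.out.one_lt.ne' (Nat.dvd_one.1 ((Nat.dvd_add_right (dvd_pow_self p (by omega))).1
      (hd.trans (Nat.gcd_dvd_right _ _))))
  have hi : Function.Injective (π.comp (U0 σ).subtype) := by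
    rw [injective_iff_map_eq_one]
    intro x hx
    obtain ⟨k, hk'⟩ := IsPGroup.iff_orderOf.1 (isPGroup_U0 (p := p) h) x
    have h1 : orderOf x ∣ Nat.card π.ker := by
      rw [← Subgroup.orderOf_coe]; exact π.ker.orderOf_dvd_natCard hx
    rw [hk'] at h1
    rcases k with _ | k
    · exact orderOf_eq_one_iff.1 (by rw [hk', pow_zero])
    · exact absurd ((dvd_pow_self p k.succ_ne_zero).trans h1) hk
  have e2 : (π.comp (U0 σ).subtype).range = (T' : Subgroup _) := by
    rw [MonoidHom.range_comp, Subgroup.range_subtype]; rfl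
  exact ⟨(T.equiv T').trans ((MulEquiv.subgroupCongr e2.symm).trans (MonoidHom.ofInjective hi).symm)⟩

/-! ### Diagonal and field automorphisms -/

/-- The diagonal entries of a similitude. -/
def dv (σ : K →+* K) (l g : K) : Fin 4 → K := ![l * g * σ l, g * σ l, σ l, 1]

theorem dv_ne {l g : K} (hl : l ≠ 0) (hg : g ≠ 0) (i : Fin 4) : dv σ l g i ≠ 0 := by
  fin_cases i <;> simp [dv, hl, hg]

/-- Conjugation by the diagonal matrix `dv l g` after the field automorphism `φ`. -/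
def am (σ : K →+* K) (l g : K) (φ : K ≃+* K) (M : Matrix (Fin 4) (Fin 4) K) : Matrix (Fin 4) (Fin 4) K :=
  of fun i j => dv σ l g i * φ (M i j) / dv σ l g j

theorem am_eq (l g : K) (φ : K ≃+* K) (M : Matrix (Fin 4) (Fin 4) K) :
    am σ l g φ M = diagonal (dv σ l g) * M.map φ * diagonal fun i => (dv σ l g i)⁻¹ := by
  ext i j; simp [am, div_eq_mul_inv]

theorem am_mul {l g : K} (hl : l ≠ 0) (hg : g ≠ 0) (φ : K ≃+* K) (M N : Matrix (Fin 4) (Fin 4) K) :
    am σ l g φ (M * N) = am σ l g φ M * am σ l g φ N := by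
  ext i j
  simp only [am, of_apply, Matrix.mul_apply, map_sum, map_mul, Finset.mul_sum, Finset.sum_div]
  refine Finset.sum_congr rfl fun k _ => ?_
  have := dv_ne (σ := σ) hl hg k
  have := dv_ne (σ := σ) hl hg j
  field_simp

theorem am_am {φ : K ≃+* K} (hφ : ∀ x, φ (σ x) = σ (φ x)) {l g : K} (l' g' : K) (φ' : K ≃+* K)
    (M : Matrix (Fin 4) (Fin 4) K) :
    am σ l g φ (am σ l' g' φ' M) = am σ (l * φ l') (g * φ g') (φ'.trans φ) M := by
  have hd : ∀ i, dv σ (l * φ l') (g * φ g') i = dv σ l g i * φ (dv σ l' g' i) := fun i => by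
    fin_cases i <;> simp [dv, hφ] <;> ring
  ext i j
  simp only [am, of_apply, hd, map_div₀, map_mul, RingEquiv.trans_apply]
  rw [mul_div_assoc', div_div, mul_assoc, mul_comm (φ (dv σ l' g' j))]

theorem am_one (M : Matrix (Fin 4) (Fin 4) K) : am σ 1 1 (RingEquiv.refl K) M = M := by
  have hd : ∀ i, dv σ 1 1 i = 1 := fun i => by fin_cases i <;> simp [dv]
  ext i j; simp [am, hd]

theorem det_am {l g : K} (hl : l ≠ 0) (hg : g ≠ 0) (φ : K ≃+* K) {M : Matrix (Fin 4) (Fin 4) K}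
    (h : M.det = 1) : (am σ l g φ M).det = 1 := by
  have e : (M.map φ).det = 1 := by
    rw [show M.map φ = (φ : K →+* K).mapMatrix M from rfl, ← RingHom.map_det, h, map_one]
  rw [am_eq, det_mul, det_mul, e, mul_one, ← det_mul, diagonal_mul_diagonal, det_diagonal]
  exact Finset.prod_eq_one fun i _ => mul_inv_cancel₀ (dv_ne hl hg i)

theorem form_entry (M : Matrix (Fin 4) (Fin 4) K) (i j : Fin 4) :
    (Mᵀ * M4 K * M.map σ) i j = M 0 i * σ (M 3 j) + M 1 i * σ (M 2 j) - M 2 i * σ (M 1 j) - M 3 i * σ (M 0 j) := by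
  rw [M4_eq]
  simp [mul_apply, Fin.sum_univ_four]
  ring

theorem am_form (hσ : ∀ x, σ (σ x) = x) {φ : K ≃+* K} (hφ : ∀ x, φ (σ x) = σ (φ x)) {l g : K}
    (hl : l ≠ 0) (hg : g ≠ 0) (hg' : σ g = g) {M : Matrix (Fin 4) (Fin 4) K} (h : Mᵀ * M4 K * M.map σ = M4 K) :
    (am σ l g φ M)ᵀ * M4 K * (am σ l g φ M).map σ = M4 K := by
  ext i j
  have e := congrArg φ ((form_entry (σ := σ) M i j).symm.trans (congrFun (congrFun h i) j))
  simp only [map_add, map_sub, map_mul, hφ] at e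
  have hi := dv_ne (σ := σ) hl hg i
  have hj : σ (dv σ l g j) ≠ 0 := (map_ne_zero σ).2 (dv_ne hl hg j)
  have hJ : φ (M4 K i j) * (l * g * σ l) = M4 K i j * (dv σ l g i * σ (dv σ l g j)) := by
    rw [M4_eq]
    fin_cases i <;> fin_cases j <;> simp [dv, hσ, hg'] <;> ring
  rw [form_entry]
  simp only [am, of_apply, map_div₀, map_mul]
  field_simp
  rw [show dv σ l g 3 = 1 from rfl, show dv σ l g 2 = σ l from rfl, show dv σ l g 1 = g * σ l from rfl,
    show dv σ l g 0 = l * g * σ l from rfl]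
  simp only [map_mul, map_one, hσ, hg'] at hJ ⊢
  linear_combination (l * g * σ l) * e + hJ

theorem am_um {φ : K ≃+* K} (hφ : ∀ x, φ (σ x) = σ (φ x)) {l g : K} (hl : l ≠ 0) (hg : g ≠ 0) (hg' : σ g = g)
    (a b c t : K) :
    am σ l g φ (um σ a b c t) = um σ (l * σ l * g * φ a) (l * g * φ b) (g * φ c) (l * φ t) := by
  have : σ l ≠ 0 := (map_ne_zero σ).2 hl
  ext i j
  fin_cases i <;> fin_cases j <;> simp [am, um, dv, hφ, hl, hg, hg'] <;> field_simp

theorem um_zero : um σ 0 0 0 0 = 1 := by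
  ext i j
  fin_cases i <;> fin_cases j <;> simp [um]

/-- The endomorphism of `G0` given by `am`. -/
def aut (hσ : ∀ x, σ (σ x) = x) {l g : K} (hl : l ≠ 0) (hg : g ≠ 0) (hg' : σ g = g) (φ : K ≃+* K)
    (hφ : ∀ x, φ (σ x) = σ (φ x)) : G0 σ →* G0 σ where
  toFun x := mk (am σ l g φ (mt x)) (det_am hl hg φ (mt_det x)) (am_form hσ hφ hl hg hg' (mt_form x))
  map_one' := mt_ext (by
    change am σ l g φ 1 = 1
    rw [← um_zero (σ := σ), am_um hφ hl hg hg']; simp)
  map_mul' _ _ := mt_ext (am_mul hl hg φ _ _)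

theorem mt_aut (hσ : ∀ x, σ (σ x) = x) {l g : K} (hl : l ≠ 0) (hg : g ≠ 0) (hg' : σ g = g) (φ : K ≃+* K) (hφ)
    (x : G0 σ) : mt (aut hσ hl hg hg' φ hφ x) = am σ l g φ (mt x) := rfl

/-- A diagonal element acts as the product of the two standard tori. -/
theorem dm_um {x y z w : K} (h1 : x * σ w = 1) (h2 : y * σ z = 1) (hσ : ∀ x, σ (σ x) = x) (a b c t : K) :
    dm x y z w * um σ a b c t =
      um σ (x * σ x * a) (x * σ y * b) (y * σ y * c) (x * σ z * t) * dm x y z w := by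
  have h3 : σ x * w = 1 := by simpa [hσ] using congrArg σ h1
  have h4 : σ y * z = 1 := by simpa [hσ] using congrArg σ h2
  ext i j
  fin_cases i <;> fin_cases j <;> simp [dm, um, mul_apply, Fin.sum_univ_four, hσ]
  · linear_combination (-x * t) * h2
  · linear_combination (-x * b) * h4
  · linear_combination (-x * a + x * b * σ t * (σ y * z)) * h3 + x * b * σ t * h4
  · linear_combination (-y * c) * h4
  · linear_combination (-y * σ b + y * c * σ t * (σ y * z)) * h3 + y * c * σ t * h4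
  · linear_combination (-z * σ t) * h3

/-- The lower unitriangular elements of the Levi factor `SL₂(q²)`. -/
def lw (hσ : ∀ x, σ (σ x) = x) (y : K) : G0 σ := mk !![1, 0, 0, 0; σ y, 1, 0, 0; 0, 0, 1, 0; 0, 0, -y, 1]
  (by simp [det_succ_row_zero, Fin.sum_univ_succ, Fin.succAbove]) (by
    ext i j
    rw [form_entry, M4_eq]
    fin_cases i <;> fin_cases j <;> simp [hσ])

/-- The Weyl element of the Levi factor `SL₂(q)`. -/
def w2 (σ : K →+* K) : G0 σ := mk !![1, 0, 0, 0; 0, 0, 1, 0; 0, -1, 0, 0; 0, 0, 0, 1]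
  (by simp [det_succ_row_zero, Fin.sum_univ_succ, Fin.succAbove]) (by
    ext i j
    rw [form_entry, M4_eq]
    fin_cases i <;> fin_cases j <;> simp)

theorem lw_um (hσ : ∀ x, σ (σ x) = x) {a : K} (ha : σ a = a) (y b c : K) :
    mt (lw hσ y) * um σ a b c 0 = um σ a (b + y * a) (c + (b * σ y + σ b * y) + y * σ y * a) 0 * mt (lw hσ y) := by
  change !![1, 0, 0, 0; σ y, 1, 0, 0; 0, 0, 1, 0; 0, 0, -y, 1] * _ =
    _ * !![1, 0, 0, 0; σ y, 1, 0, 0; 0, 0, 1, 0; 0, 0, -y, 1]
  ext i j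
  fin_cases i <;> fin_cases j <;> simp [um, mul_apply, Fin.sum_univ_four, ha] <;> ring

theorem w2_um (a b t : K) :
    mt (w2 σ) * um σ a b 0 t = um σ (a - (t * σ b + σ t * b)) (-t) 0 b * mt (w2 σ) := by
  change !![1, 0, 0, 0; 0, 0, 1, 0; 0, -1, 0, 0; 0, 0, 0, 1] * _ =
    _ * !![1, 0, 0, 0; 0, 0, 1, 0; 0, -1, 0, 0; 0, 0, 0, 1]
  ext i j
  fin_cases i <;> fin_cases j <;> simp [um, mul_apply, Fin.sum_univ_four]
  ring

end Cfsg.Agent.U4F.R
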