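import Mathlib
import Cfsg.Agent.U4F.Defs
import Cfsg.Agent.U4F.RAut

/-!
# The group `UG K` is a Sylow subgroup of `SU₄`
-/

set_option autoImplicit false

namespace Cfsg.Agent.U4F

open Cfsg Cfsg.FusionSystem Cfsg.Agent.Fus Subgroup Cfsg.Agent.Cl

namespace R

variable {K : Type*} [Field K] [StarRing K]

theorem sr (x : K) : starRingEnd K x = star x := rfl

theorem hs (x : K) : starRingEnd K (starRingEnd K x) = x := star_star x

/-- The unipotent group inside `SU₄`. -/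
def j0 : UG K →* G0 (starRingEnd K) := MonoidHom.mk'
  (fun g => mk (um (starRingEnd K) g.v.a g.v.b g.v.c g.x) (um_det ..) (um_form hs g.v.ha g.v.hc ..))
  fun g h => mt_ext (by
    change um _ _ _ _ _ = um _ _ _ _ _ * um _ _ _ _ _
    rw [um_mul (σ := starRingEnd K) h.v.hc]
    congr 1
    simp [sr]; ring)

theorem mt_j0 (g : UG K) : mt (j0 g) = um (starRingEnd K) g.v.a g.v.b g.v.c g.x := rfl

theorem j0_inj : Function.Injective (j0 (K := K)) := fun x y h => by
  obtain ⟨e1, e2, e3, e4⟩ := um_inj ((mt_j0 x).symm.trans ((congrArg mt h).trans (mt_j0 y)))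
  exact UG.ext4 e1 e2 e3 e4

theorem range_j0 : (j0 (K := K)).range = U0 (starRingEnd K) := by
  ext g
  rw [mem_U0 hs]
  constructor
  · rintro ⟨x, rfl⟩
    exact ⟨_, _, _, _, x.v.ha, x.v.hc, mt_j0 x⟩
  · rintro ⟨a, b, c, t, ha, hc, e⟩
    exact ⟨⟨⟨a, b, c, ha, hc⟩, t⟩, mt_ext e.symm⟩

/-- `UG K` is the unitriangular group. -/
noncomputable def uuEquiv : UG K ≃* U0 (starRingEnd K) :=
  (MonoidHom.ofInjective j0_inj).trans (MulEquiv.subgroupCongr range_j0)

end R

variable {p : ℕ} [Fact p.Prime]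

theorem syl_equiv {K : Type*} [Field K] [StarRing K] [Finite K] [CharP K p] {n : ℕ} (hn : 1 ≤ n)
    (hK : Nat.card K = (p ^ n) ^ 2) (hs : ∀ x : K, star x = x ^ (p ^ n)) (T : Sylow p (Cfsg.PSU 4 K (p ^ n))) :
    Nonempty ((T : Subgroup (Cfsg.PSU 4 K (p ^ n))) ≃* UG K) :=
  (R.nonempty_sylow_equiv (σ := starRingEnd K) ⟨hK, hs⟩ hn T).map fun e => e.trans R.uuEquiv.symm

end Cfsg.Agent.U4F
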