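import Mathlib
import Cfsg.Agent.U4F.Syl

/-!
# The fusion system of `SU₄(q) ⋊ A` on `UG K`
-/

set_option autoImplicit false
set_option linter.unusedSectionVars false

namespace Cfsg.Agent.U4F

open Cfsg Cfsg.FusionSystem Cfsg.Agent.Fus Subgroup Cfsg.Agent.Cl

namespace R

/-- The system induced by an injective homomorphism into a finite group. -/
theorem exists_realizes {U G : Type*} [Group U] [Group G] [Finite G] (j : U →* G) (hj : Function.Injective j) :
    ∃ F : FusionSystem (⊤ : Subgroup U), F.Realizes j ⊤ := by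
  have h1 : ∀ y ∈ j.range, j (Function.invFun j y) = y := fun y hy => Function.invFun_eq hy
  have h2 : ∀ x, Function.invFun j (j x) = x := Function.leftInverse_invFun hj
  obtain ⟨F, hF⟩ := (groupFusionSystem j.range).exists_isIsoVia (θ := Function.invFun j)
    (η := j) (S' := ⊤) (fun a ha b hb => by
      obtain ⟨a, rfl⟩ := ha
      obtain ⟨b, rfl⟩ := hb
      rw [← map_mul, h2, h2, h2])
    (le_antisymm le_top fun x _ => h2 x ▸ mem_img_of_mem ⟨x, rfl⟩) h1
  exact ⟨F, hF.symm.realizes realizes_group⟩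

variable {K : Type*} [Field K] [StarRing K]

theorem rz_of {p : ℕ} {F : FS K} {G : Type*} [Group G] [Finite G] {j : UG K →* G} (h : F.Realizes j ⊤)
    (hi : ¬ p ∣ j.range.index) : Rz p F := by
  have : Small.{0} G := Countable.toSmall G
  let π : G ≃* Shrink.{0} G := MulEquiv.symm Shrink.mulEquiv
  have : Finite (Shrink.{0} G) := Finite.of_equiv _ π.toEquiv
  refine ⟨Shrink.{0} G, inferInstance, inferInstance, π.toMonoidHom.comp j,
    ⟨fun x _ y _ => map_mul _ x y, fun x hx y hy e => h.inj x hx y hy (π.injective e), fun _ _ => mem_top _,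
      fun {P f} => h.mor_iff.trans ?_⟩, ?_⟩
  · refine and_congr_right fun _ => and_congr_right fun _ => ⟨?_, ?_⟩
    · rintro ⟨g, -, e⟩
      refine ⟨π g, mem_top _, fun x hx => ?_⟩
      change π (j (f x)) = π g * π (j x) * (π g)⁻¹
      rw [e x hx, map_mul, map_mul, map_inv]
    · rintro ⟨g, -, e⟩
      obtain ⟨g, rfl⟩ := π.surjective g
      refine ⟨g, mem_top _, fun x hx => π.injective ?_⟩
      rw [map_mul, map_mul, map_inv]
      exact e x hx
  · rwa [MonoidHom.range_comp, index_map_of_bijective π.bijective]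

theorem isD_one : IsD (1 : K) 1 (RingEquiv.refl K) (1 : MulAut (UG K)) :=
  ⟨one_ne_zero, one_ne_zero, star_one _, by simp, by simp, by simp, by simp⟩

theorem isD_uniq {l m l' m' : K} {s s' : K ≃+* K} {α : UG K → UG K} (h : IsD l m s α) (h' : IsD l' m' s' α) :
    l = l' ∧ m = m' ∧ s = s' := by
  have e1 : ∀ a, l * s a = l' * s' a := fun a => (h.x (sx a)).symm.trans (h'.x (sx a))
  have e2 : l = l' := by simpa using e1 1
  refine ⟨e2, ?_, RingEquiv.ext fun a => mul_left_cancel₀ h.hl (e2 ▸ e1 a)⟩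
  simpa using (h.c (jv ⟨0, 0, 1, by simp, by simp⟩)).symm.trans (h'.c (jv ⟨0, 0, 1, by simp, by simp⟩))

variable [UF K]

theorem exists_uField : ∃ q, UField (starRingEnd K) q := UInvol.exists_uField ⟨hs, UF.nt⟩

theorem aut_star (s : K ≃+* K) (x : K) : s (star x) = star (s x) := by
  obtain ⟨q, h⟩ := exists_uField (K := K)
  rw [← sr, ← sr, h.pow, h.pow, map_pow]

theorem isD_mul {l m l' m' : K} {s s' : K ≃+* K} {α β : MulAut (UG K)} (h : IsD l m s α) (h' : IsD l' m' s' β) :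
    IsD (l * s l') (m * s m') (s'.trans s) (α * β : MulAut (UG K)) := by
  refine ⟨mul_ne_zero h.hl ((map_ne_zero s).2 h'.hl), mul_ne_zero h.hm ((map_ne_zero s).2 h'.hm), ?_, fun g => ?_,
    fun g => ?_, fun g => ?_, fun g => ?_⟩
  · rw [star_mul, ← aut_star, h.sm, h'.sm, mul_comm]
  · rw [MulAut.mul_apply, h.x, h'.x, map_mul, mul_assoc]; rfl
  · rw [MulAut.mul_apply, h.c, h'.c, map_mul, mul_assoc]; rfl
  · rw [MulAut.mul_apply, h.b, h'.b, RingEquiv.trans_apply]; simp only [map_mul]; ring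
  · rw [MulAut.mul_apply, h.a, h'.a, RingEquiv.trans_apply]; simp only [map_mul, star_mul, aut_star]; ring

theorem exists_isD {α : MulAut (UG K)} (h : α ∈ Dg K) : ∃ l m s, IsD l m s α := by
  have key : ∀ α ∈ Submonoid.closure {α : MulAut (UG K) | ∃ l m s, IsD l m s α}, ∃ l m s, IsD l m s α := by
    intro α hα
    induction hα using Submonoid.closure_induction with
    | mem x hx => exact hx
    | one => exact ⟨_, _, _, isD_one⟩
    | mul x y _ _ hx hy =>
      obtain ⟨l, m, s, hx⟩ := hx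
      obtain ⟨l', m', s', hy⟩ := hy
      exact ⟨_, _, _, isD_mul hx hy⟩
  refine key α ?_
  rw [← closure_toSubmonoid_of_finite]
  exact h

/-- The lift of a diagonal-field automorphism to `SU₄`. -/
noncomputable def dEnd (δ : Dg K) : G0 (starRingEnd K) →* G0 (starRingEnd K) :=
  aut hs (exists_isD δ.2).choose_spec.choose_spec.choose_spec.hl
    (exists_isD δ.2).choose_spec.choose_spec.choose_spec.hm
    (exists_isD δ.2).choose_spec.choose_spec.choose_spec.sm
    (exists_isD δ.2).choose_spec.choose_spec.choose (aut_star _)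

theorem mt_dEnd {δ : Dg K} {l m : K} {s : K ≃+* K} (h : IsD l m s δ.1) (g : G0 (starRingEnd K)) :
    mt (dEnd δ g) = am (starRingEnd K) l m s (mt g) := by
  obtain ⟨e1, e2, e3⟩ := isD_uniq (exists_isD δ.2).choose_spec.choose_spec.choose_spec h
  rw [dEnd, mt_aut, e3, e2, e1]

theorem dEnd_mul (γ δ : Dg K) (g : G0 (starRingEnd K)) : dEnd (γ * δ) g = dEnd γ (dEnd δ g) := by
  obtain ⟨l, m, s, h⟩ := exists_isD γ.2
  obtain ⟨l', m', s', h'⟩ := exists_isD δ.2
  apply mt_ext
  rw [mt_dEnd (δ := γ * δ) (isD_mul h h'), mt_dEnd h, mt_dEnd h', am_am (aut_star s)]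

theorem dEnd_one (g : G0 (starRingEnd K)) : dEnd 1 g = g := mt_ext (by rw [mt_dEnd (δ := 1) isD_one, am_one])

/-- The diagonal-field automorphisms of `SU₄`. -/
noncomputable def dAut : Dg K →* MulAut (G0 (starRingEnd K)) := MonoidHom.mk' (fun γ =>
  { toFun := dEnd γ
    invFun := dEnd γ⁻¹
    left_inv := fun x => by rw [← dEnd_mul, inv_mul_cancel, dEnd_one]
    right_inv := fun x => by rw [← dEnd_mul, mul_inv_cancel, dEnd_one]
    map_mul' := map_mul _ }) fun γ δ => MulEquiv.ext (dEnd_mul γ δ)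

theorem dAut_j0 (γ : Dg K) (x : UG K) : dAut γ (j0 x) = j0 (γ.1 x) := by
  obtain ⟨l, m, s, h⟩ := exists_isD γ.2
  apply mt_ext
  change mt (dEnd γ (j0 x)) = _
  rw [mt_dEnd h, mt_j0, mt_j0, am_um (aut_star s) h.hl h.hm h.sm, h.a, h.b, h.c, h.x]
  rfl

/-- A diagonal element of `SU₄` acts as an element of `A`. -/
theorem exists_tor {A : Subgroup (MulAut (UG K))} (hT : HasT A) {d : G0 (starRingEnd K)} {x y z w : K}
    (h1 : x * star w = 1) (h2 : y * star z = 1) (h3 : x * y * z * w = 1) (e : mt d = dm x y z w) :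
    ∃ δ ∈ A, ∀ g, j0 (δ g) = d * j0 g * d⁻¹ := by
  have h4 : star x * w = 1 := by simpa [mul_comm] using congrArg star h1
  have h5 : star y * z = 1 := by simpa [mul_comm] using congrArg star h2
  have hx : x ≠ 0 := left_ne_zero_of_mul_eq_one h1
  have hy : y ≠ 0 := left_ne_zero_of_mul_eq_one h2
  have hx' : star x ≠ 0 := left_ne_zero_of_mul_eq_one h4
  have hm : star x * star y = x * y := by
    linear_combination (-star x * star y) * h3 + x * y * (star y * z) * h4 + x * y * h5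
  obtain ⟨δ, hδ, i1⟩ := hT.t1 x hx
  obtain ⟨ε, hε, i2⟩ := hT.t2 (x * y) (mul_ne_zero hx hy) (by rw [star_mul, mul_comm, hm])
  have i := isD_mul i1 i2
  have hz : star z = y⁻¹ := eq_inv_of_mul_eq_one_right h2
  have hy' : star y = x * y / star x := by rw [← hm]; field_simp
  refine ⟨δ * ε, mul_mem hδ hε, fun g => eq_mul_inv_of_mul_eq (mt_ext ?_)⟩
  rw [mt_mul, mt_mul, e, mt_j0, mt_j0, dm_um h1 h2 hs, i.a, i.b, i.c, i.x]
  simp only [RingEquiv.refl_apply, RingEquiv.trans_apply, sr, star_mul, star_inv₀, hz, hy']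
  congr 2 <;> field_simp

variable {A : Subgroup (MulAut (UG K))} (hD : A ≤ Dg K)

/-- The group `SU₄ ⋊ A`. -/
abbrev GX := G0 (starRingEnd K) ⋊[dAut.comp (inclusion hD)] A

/-- The embedding of `UG K` in `SU₄ ⋊ A`. -/
noncomputable def jX : UG K →* GX hD := SemidirectProduct.inl.comp j0

theorem jX_inj : Function.Injective (jX hD) := SemidirectProduct.inl_injective.comp j0_inj

theorem inr_jX (γ : A) (x : UG K) :
    SemidirectProduct.inr γ * jX hD x * (SemidirectProduct.inr γ)⁻¹ = jX hD (γ.1 x) := by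
  rw [← map_inv]
  exact (SemidirectProduct.inl_aut γ (j0 x)).symm.trans (congrArg _ (dAut_j0 (inclusion hD γ) x))

theorem inl_jX {g : G0 (starRingEnd K)} {x y : UG K} (h : j0 y * g = g * j0 x) :
    jX hD y = SemidirectProduct.inl g * jX hD x * (SemidirectProduct.inl g)⁻¹ := by
  change SemidirectProduct.inl (j0 y) = _
  rw [eq_mul_inv_of_mul_eq h, map_mul, map_mul, map_inv]; rfl

theorem index_jX {p : ℕ} [hp : Fact p.Prime] [CharP K p] (hA : ¬ p ∣ Nat.card A) : ¬ p ∣ (jX hD).range.index := by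
  obtain ⟨q, h⟩ := exists_uField (K := K)
  rw [jX, MonoidHom.range_comp, range_j0, index_map_of_injective _ SemidirectProduct.inl_injective,
    SemidirectProduct.range_inl_eq_ker_rightHom, index_ker,
    MonoidHom.range_eq_top.2 SemidirectProduct.rightHom_surjective, card_top]
  exact fun hd => (hp.out.dvd_mul.1 hd).elim (not_dvd_index_U0 h) hA

/-- Elements of `SU₄ ⋊ A` normalizing the unipotent group act as inner times diagonal-field. -/
theorem norm_jX (hT : HasT A) {g : GX hD} {α : MulAut (UG K)} (e : ∀ x, jX hD (α x) = g * jX hD x * g⁻¹) :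
    ∃ s, ∃ δ ∈ A, α = MulAut.conj s * δ := by
  obtain ⟨q, h⟩ := exists_uField (K := K)
  have e1 : ∀ x, j0 (α x) = g.left * j0 (g.right.1 x) * g.left⁻¹ := fun x =>
    SemidirectProduct.inl_injective (φ := dAut.comp (inclusion hD)) (by
      have := e x
      rw [← SemidirectProduct.inl_left_mul_inr_right g, _root_.mul_inv_rev, mul_assoc, mul_assoc,
        ← mul_assoc (jX hD x), ← mul_assoc (SemidirectProduct.inr _), ← mul_assoc (SemidirectProduct.inr _),
        inr_jX, ← mul_assoc] at this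
      rw [map_mul, map_mul, map_inv]; exact this)
  have hn : g.left ∈ normalizer (U0 (starRingEnd K) : Set (G0 (starRingEnd K))) := by
    refine mem_normalizer_fintype fun u hu => ?_
    rw [← range_j0] at hu ⊢
    obtain ⟨y, rfl⟩ := hu
    exact ⟨α (g.right.1⁻¹ y), by rw [e1, MulAut.apply_inv_self]⟩
  obtain ⟨d, hu, x, y, z, w, h1, h2, h3, ed⟩ := exists_of_B0 hs (normalizer_U0 h hn)
  obtain ⟨δ, hδ, eδ⟩ := exists_tor hT h1 h2 h3 ed
  rw [← range_j0] at hu
  obtain ⟨u, eu⟩ := hu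
  refine ⟨δ u, δ * g.right.1, mul_mem hδ g.right.2, MulEquiv.ext fun x => j0_inj ?_⟩
  rw [e1, MulAut.mul_apply, MulAut.mul_apply, MulAut.conj_apply, map_mul, map_mul, map_inv, eδ, eδ, eu]
  group

end R

variable {K : Type*} [Field K] [StarRing K] [UF K] {p : ℕ} [Fact p.Prime] [CharP K p]

theorem real_ex (A : Subgroup (MulAut (UG K))) (hD : A ≤ Dg K) (hp : ¬ p ∣ Nat.card A) (hT : HasT A) :
    ∃ F' : FS K, Rz p F' ∧ F'.IsSaturated p ∧ (∀ α, α ∈ AF F' ↔ ∃ s, ∃ δ ∈ A, α = MulAut.conj s * δ) ∧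
      HasL F' ∧ HasW F' := by
  have : Finite (R.GX hD) := Finite.of_equiv _ SemidirectProduct.equivProd.symm
  obtain ⟨q, h⟩ := R.exists_uField (K := K)
  obtain ⟨F, hF⟩ := R.exists_realizes (R.jX hD) (R.jX_inj hD)
  have hi := R.index_jX hD hp
  refine ⟨F, R.rz_of hF hi, hF.isSaturated (((R.isPGroup_U0 h).of_equiv R.uuEquiv.symm).to_subgroup ⊤) ?_,
    fun α => ⟨fun hα => ?_, ?_⟩, fun y => ?_, ?_⟩
  · rwa [relIndex_top_right, img_eq_map, ← MonoidHom.range_eq_map]
  · obtain ⟨g, -, e⟩ := hF.exists_conj hα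
    exact R.norm_jX hD hT fun x => e x (mem_top x)
  · rintro ⟨s, δ, hδ, rfl⟩
    refine hF.mor_iff.2 ⟨le_rfl, fun _ _ => mem_top _, R.jX hD s * SemidirectProduct.inr ⟨δ, hδ⟩, mem_top _,
      fun x _ => ?_⟩
    rw [MulAut.mul_apply, MulAut.conj_apply, map_mul, map_mul, map_inv, ← R.inr_jX hD ⟨δ, hδ⟩ x]
    group
  · refine mem_XF.2 (hF.mor_iff.2 ⟨le_top, fun _ _ => mem_top _, _, mem_top _, fun x hx =>
      R.inl_jX hD (g := R.lw R.hs y) (R.mt_ext ?_)⟩)
    rw [R.mt_mul, R.mt_mul, R.mt_j0, R.mt_j0, mem_Vs.1 hx, R.lw_um R.hs x.v.ha]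
    rfl
  · refine hF.mor_iff.2 ⟨le_top, fun _ _ => mem_top _, _, mem_top _, fun x hx =>
      R.inl_jX hD (g := R.w2 _) (R.mt_ext ?_)⟩
    rw [R.mt_mul, R.mt_mul, R.mt_j0, R.mt_j0, mem_Qs.1 hx, R.w2_um]
    congr 2
    simp only [wq, R.sr]; ring

end Cfsg.Agent.U4F
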