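import Mathlib
import Cfsg.Agent.U4F.GoodP

/-!
# The opposite root group on `V` is standard
-/

set_option autoImplicit false
set_option linter.unusedSectionVars false
set_option linter.unusedVariables false

namespace Cfsg.Agent.U4F

open Cfsg Cfsg.FusionSystem Cfsg.Agent.Fus Subgroup

variable {K : Type*} [Field K] [StarRing K] [UF K] {p : ℕ} [Fact p.Prime] [CharP K p]

namespace VStd

/-- The singular vectors. -/
def Om (v : Hm K) : Prop := v.a * v.c = v.b * star v.b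

theorem om_uu {v : Hm K} (h : Om v) (x : K) : Om (uu x v) := by
  simp only [Om, uu_a, uu_b, uu_c, star_add, star_mul', v.hc] at h ⊢
  linear_combination h

theorem om_ll {v : Hm K} (h : Om v) (x : K) : Om (ll x v) := by
  simp only [Om, ll_a, ll_b, ll_c, star_add, star_mul', v.ha] at h ⊢
  linear_combination h

theorem fix_norm {R : Subgroup (GA (Hm K))} {n : GA (Hm K)} (hn : n ∈ normalizer (R : Set (GA (Hm K))))
    {v : Hm K} (hv : v ∈ fixA R) : n v ∈ fixA R := by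
  have := (mem_fixA_map (g := n)).2 hv
  rwa [map_conj_eq_iff.2 hn] at this

theorem com_norm {R : Subgroup (GA (Hm K))} {n : GA (Hm K)} (hn : n ∈ normalizer (R : Set (GA (Hm K))))
    {v : Hm K} (hv : v ∈ comA ⊤ R) : n v ∈ comA ⊤ R := by
  have := (mem_comA_map (g := n)).2 hv
  rwa [map_conj_eq_iff.2 hn] at this

theorem sub_mem_com {R : Subgroup (GA (Hm K))} {U : AddSubgroup (Hm K)} {r : GA (Hm K)} (hr : r ∈ R) {v : Hm K}
    (hv : v ∈ U) : r v - v ∈ comA U R := AddSubgroup.subset_closure ⟨r, hr, v, hv, rfl⟩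

variable {X R : Subgroup (GA (Hm K))} (h : CH p (qq K) (PP K) X) (hR : Cj X (PP K) R) (hne : PP K ≠ R)
  (hH : ∀ v ∈ comA ⊤ R, v.a = 0)
include h hR hne hH

theorem b_mem {v : Hm K} (ha : v.a = 0) (hc : v.c = 0) : v ∈ comA ⊤ R := by
  obtain ⟨w, hw, z, hz, rfl⟩ := AddSubgroup.mem_sup.1
    (h.com_le_sup (Cj.refl X _) hR (mem_com_PP.2 hc))
  obtain ⟨z1, z2⟩ := mem_fix_PP.1 hz
  rwa [show z = 0 from Hm.ext (by simpa [hH w hw] using ha) z1 z2, add_zero]

theorem fix_c {v : Hm K} (hv : v ∈ fixA R) (hc : v.c = 0) : v = 0 :=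
  AddSubgroup.mem_bot.1 (h.tan hR (Cj.refl X _) hne.symm ▸ AddSubgroup.mem_inf.2 ⟨hv, mem_com_PP.2 hc⟩)

theorem fix_b {v : Hm K} (hv : v ∈ fixA R) : v.b = 0 := by
  by_contra hb
  have hc : v.c ≠ 0 := fun e => hb (by rw [fix_c h hR hne hH hv e, zero_b])
  have hv' := (h.good_cj hR).ZH hv
  obtain ⟨l, h1, h2⟩ := exists_norm_one (K := K)
  obtain ⟨u, hu⟩ : ∃ u, u * v.c = (l - 1) * v.b := ⟨(l - 1) * v.b / v.c, div_mul_cancel₀ _ hc⟩
  have hu' : star u * v.c = (star l - 1) * star v.b := by simpa using congrArg star hu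
  have h3 : uu u v ∈ comA ⊤ R := by
    rw [← sub_add_cancel (uu u v) v]
    refine add_mem (b_mem h hR hne hH (mul_right_cancel₀ hc ?_) (by simp)) hv'
    simp only [sub_a, uu_a]
    linear_combination (v.b + u * v.c) * hu' + (star l * star v.b) * hu + v.b * star v.b * h1
  have h4 : uu u v = 0 := AddSubgroup.mem_bot.1 (h.tan (hR.conj (h.syl.le ⟨u, rfl⟩)) hR (fun e => by
    have := h.eq_one_of_norm (Cj.refl X _) hR hne ⟨u, rfl⟩ (map_conj_eq_iff.1 e)
    rw [uu_inj (this.trans uu_zero.symm), zero_mul] at hu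
    exact mul_ne_zero (sub_ne_zero.2 h2) hb hu.symm) ▸ AddSubgroup.mem_inf.2 ⟨mem_fixA_map.2 hv, h3⟩)
  exact hc (congrArg Hm.c h4)

theorem c_mem {v : Hm K} (ha : v.a = 0) (hb : v.b = 0) : v ∈ fixA R := by
  obtain ⟨w, e⟩ := ((Nat.bijective_iff_injective_and_card fun w : fixA R => (⟨w.1.c, w.1.hc⟩ : {a : K // star a = a})).2
    ⟨fun w w' e => Subtype.ext (sub_eq_zero.1 (fix_c h hR hne hH (sub_mem w.2 w'.2)
      (by rw [sub_c, sub_eq_zero]; exact congrArg Subtype.val e))), (h.good_cj hR).cZ⟩).2 ⟨v.c, v.hc⟩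
  rw [show v = w from Hm.ext (ha.trans (hH _ ((h.good_cj hR).ZH w.2)).symm) (hb.trans (fix_b h hR hne hH w.2).symm)
    (congrArg Subtype.val e).symm]
  exact w.2

theorem a_mem {v : Hm K} (ha : v.a = 0) : v ∈ comA ⊤ R := by
  rw [← sub_add_cancel v ⟨0, 0, v.c, by simp, v.hc⟩]
  exact add_mem (b_mem h hR hne hH (by simpa using ha) (by simp)) ((h.good_cj hR).ZH (c_mem h hR hne hH rfl rfl))

theorem om_X {g : GA (Hm K)} (hg : g ∈ X) {v : Hm K} (hv : Om v) : Om (g v) := by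
  obtain ⟨g₁, h1, rfl⟩ := id hR
  have hn : g₁ ∉ normalizer (PP K : Set (GA (Hm K))) := fun e => hne (map_conj_eq_iff.2 e).symm
  have key : ∀ g ∈ X, ∀ z ∈ fixA (PP K), Om (g z) := fun g hg z hz => by
    rcases h.two h1 hn g hg with e | ⟨_, ⟨s, rfl⟩, e⟩
    · obtain ⟨a, b⟩ := mem_fix_PP.1 (fix_norm e hz)
      simp [Om, a, b]
    · have h2 := (mem_fixA_map (g := g₁)).2 (fix_norm e hz)
      rw [show g = uu s * (g₁ * ((uu s * g₁)⁻¹ * g)) by group, ga_mul, ga_mul]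
      refine om_uu ?_ s
      rw [Om, hH _ ((h.good_cj hR).ZH h2), fix_b h hR hne hH h2, zero_mul, zero_mul]
  by_cases hc : v.c = 0
  · refine key g hg v (mem_fix_PP.2 ⟨?_, hc⟩)
    rw [Om, hc, mul_zero] at hv
    simpa using hv.symm
  obtain ⟨u, hu⟩ : ∃ u, u * v.c = v.b := ⟨v.b / v.c, div_mul_cancel₀ _ hc⟩
  have hu' : star u * v.c = star v.b := by simpa using congrArg star hu
  have h2 := c_mem h hR hne hH (v := uu (-u) v)
    (mul_right_cancel₀ hc (by
      simp only [uu_a, star_neg]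
      unfold Om at hv
      linear_combination hv + (u * v.c - v.b) * hu'))
    (by simp only [uu_b]; linear_combination -hu)
  rw [← ga_apply_inv g₁ (uu (-u) v)] at h2
  have h3 := key (g * uu u * g₁) (mul_mem (mul_mem hg (h.syl.le ⟨u, rfl⟩)) h1) _ (mem_fixA_map.1 h2)
  rwa [ga_mul, ga_mul, ga_apply_inv, ← uu_inv, ga_apply_inv] at h3

theorem eq_ll {r : GA (Hm K)} (hr : r ∈ R) : ∃ y, r = ll y := by
  let e : Hm K := ⟨1, 0, 0, by simp, by simp⟩
  refine ⟨(r e).b, ?_⟩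
  obtain ⟨s, hs⟩ : ∃ s, s = ll (-(r e).b) * r := ⟨_, rfl⟩
  have ra : ∀ v, (r v).a = v.a := fun v => by
    simpa [sub_eq_zero] using hH _ (sub_mem_com hr (AddSubgroup.mem_top v))
  have om : ∀ v, Om v → Om (s v) := fun v hv => hs ▸ om_ll (om_X h hR hne hH (h.le hR hr) hv) _
  have sa : ∀ v, (s v).a = v.a := fun v => hs ▸ ra v
  have sb : ∀ v : Hm K, v.a = 0 → (s v).b = v.b := fun v hv => by
    have := fix_b h hR hne hH ((h.good_cj hR).HZ (sub_mem_com hr (a_mem h hR hne hH hv)))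
    rw [sub_b, sub_eq_zero] at this
    rw [hs, ga_mul, ll_b, ra, hv, mul_zero, add_zero, this]
  have sc : ∀ v : Hm K, v.a = 0 → v.b = 0 → s v = v := fun v a b => by
    rw [hs, ga_mul, c_mem h hR hne hH a b r hr]
    ext <;> simp [a, b]
  have eb : (s e).b = 0 := by rw [hs, ga_mul, ll_b, ra]; simp [e]
  have ec : (s e).c = 0 := by simpa [Om, sa, eb, e] using om e (by simp [Om, e])
  have s0 : ∀ v : Hm K, v.a = 0 → s v = v := fun v hv => by
    let w : Hm K := ⟨0, 0, v.b * star v.b - v.c, by simp, by simp [mul_comm]⟩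
    have h1 := om (e + v + w) (by simp [Om, e, w, hv])
    rw [map_add, map_add, sc w rfl rfl] at h1
    refine Hm.ext (sa v) (sb v hv) ?_
    simp only [Om, add_a, add_b, add_c, sa, sb v hv, eb, ec, hv, e, w] at h1
    simp only [add_zero, zero_add, one_mul] at h1
    linear_combination h1
  have s1 : ∀ v : Hm K, v.b = 0 → v.c = 0 → s v = v := fun v hb hc => by
    by_cases ha : v.a = 0
    · exact s0 v ha
    have h0 := om v (by simp [Om, hb, hc])
    have h1 : (s v).b = 0 := tr_nondeg fun x => by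
      let w : Hm K := ⟨0, x, x * star x / v.a, by simp, by simp [mul_comm]⟩
      have h1 := om (v + w) (by simp [Om, w, hb, hc, mul_div_cancel₀ _ ha])
      rw [map_add, s0 w rfl] at h1
      simp only [Om, add_a, add_b, add_c, sa, w, add_zero, mul_add, mul_div_cancel₀ _ ha, star_add] at h0 h1
      linear_combination h0 - h1
    refine Hm.ext (sa v) (h1.trans hb.symm) ?_
    simpa [Om, sa, h1, ha, hc] using h0
  have h1 : s = 1 := LinearEquiv.ext fun v => by
    let w : Hm K := ⟨v.a, 0, 0, v.ha, by simp⟩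
    rw [← sub_add_cancel v w, map_add, s0 _ (by simp [w]), s1 w rfl rfl, ga_one]
  rw [hs, ← ll_inv, inv_mul_eq_one] at h1
  exact h1.symm

theorem ll_mem' (y : K) : ll y ∈ X := by
  choose f hf using fun r : R => eq_ll h hR hne hH r.2
  obtain ⟨r, rfl⟩ := ((Nat.bijective_iff_injective_and_card f).2
    ⟨fun r r' e => Subtype.ext (by rw [hf, hf, e]), (h.good_cj hR).cR.trans (card_K K).symm⟩).2 y
  exact hf r ▸ h.le hR r.2

end VStd

open VStd in
theorem ll_mem {X : Subgroup (GA (Hm K))} (hs : Syl p (PP K) X) (ht : TI (PP K) X)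
    (hn : ∃ g ∈ X, g ∉ normalizer (PP K : Set (GA (Hm K)))) {δ : GA (Hm K)} (hδ : δ ∈ X) {μ : K}
    (sμ : star μ = μ) (h0 : μ ≠ 0) (h1 : μ * μ ≠ 1) (ha : ∀ v, (δ v).a = v.a)
    (hb : ∀ v, (δ v).b = μ * v.b) (hc : ∀ v, (δ v).c = μ * μ * v.c) (y : K) : ll y ∈ X := by
  have h := ch_PP hs ht
  obtain ⟨g, hg, hn⟩ := hn
  have hμ : μ - 1 ≠ 0 := fun e => h1 (by rw [sub_eq_zero.1 e, mul_one])
  have e1 : ∀ x, δ * uu (μ * x) = uu x * δ := fun x => LinearEquiv.ext fun v => by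
    rw [ga_mul, ga_mul]
    ext <;> simp [ha, hb, hc, sμ] <;> ring
  have δN : δ ∈ normalizer (PP K : Set (GA (Hm K))) := mem_normalizer_fintype (by
    rintro _ ⟨x, rfl⟩
    exact ⟨μ⁻¹ * x, by rw [mul_inv_eq_iff_eq_mul, ← e1, mul_inv_cancel_left₀ h0]⟩)
  obtain ⟨_, ⟨z, rfl⟩, e⟩ := (h.two hg hn (δ * g) (mul_mem hδ hg)).resolve_left fun e =>
    hn (by simpa using mul_mem (inv_mem δN) e)
  obtain ⟨x, rfl⟩ : ∃ x, z = μ * x - x := ⟨z / (μ - 1), by field_simp⟩
  have gX : uu (μ * x) * g ∈ X := mul_mem (hs.le ⟨_, rfl⟩) hg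
  have hR : Cj X (PP K) _ := ⟨_, gX, rfl⟩
  have hne : PP K ≠ (PP K).map (MulAut.conj (uu (μ * x) * g)).toMonoidHom := fun e =>
    hn (by simpa using mul_mem (inv_mem (le_normalizer (H := PP K) ⟨μ * x, rfl⟩)) (map_conj_eq_iff.1 e.symm))
  have hδ' : ∀ v ∈ comA ⊤ ((PP K).map (MulAut.conj (uu (μ * x) * g)).toMonoidHom),
      δ v ∈ comA ⊤ ((PP K).map (MulAut.conj (uu (μ * x) * g)).toMonoidHom) := fun v hv => by
    rw [← ga_apply_inv (uu (μ * x) * g) v] at hv
    have h2 := (mem_comA_map (g := uu (μ * x) * g)).2 (com_norm e (mem_comA_map.1 hv))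
    rwa [← ga_mul, ← ga_mul, show uu (μ * x) * g * ((uu (μ * x - x) * g)⁻¹ * (δ * g)) * (uu (μ * x) * g)⁻¹ = δ by
      rw [mul_inv_eq_iff_eq_mul, ← mul_assoc δ, e1, show uu (μ * x) = uu x * uu (μ * x - x) by
        rw [uu_mul, add_sub_cancel]]
      group] at h2
  generalize (PP K).map (MulAut.conj (uu (μ * x) * g)).toMonoidHom = R at hR hne hδ'
  refine ll_mem' h hR hne (fun v hv => ?_) y
  obtain ⟨w, e⟩ := Finite.surjective_of_injective
    (f := fun w : comA ⊤ R => (⟨δ w - w, sub_mem (hδ' _ w.2) w.2⟩ : comA ⊤ R)) (fun w w' e => by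
      have h2 : δ (w - w' : Hm K) = w - w' := by
        rw [map_sub, sub_eq_sub_iff_sub_eq_sub]; exact congrArg Subtype.val e
      refine Subtype.ext (sub_eq_zero.1 (AddSubgroup.mem_bot.1 (h.tan (Cj.refl X _) hR hne ▸
        AddSubgroup.mem_inf.2 ⟨mem_fix_PP.2 ⟨?_, ?_⟩, sub_mem w.2 w'.2⟩)))
      · exact (mul_eq_zero.1 (by linear_combination congrArg Hm.b h2 - hb _)).resolve_left hμ
      · exact (mul_eq_zero.1 (by linear_combination congrArg Hm.c h2 - hc _)).resolve_left (sub_ne_zero.2 h1))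
    ⟨v, hv⟩
  rw [show v = δ w - w from (congrArg Subtype.val e).symm, sub_a, ha, sub_self]

end Cfsg.Agent.U4F
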